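import Cfsg.Agent.H96.NatSL
import Cfsg.Agent.S0256
import Cfsg.Agent.H12.Linearize
import Cfsg.Agent.H87.Simple
import Cfsg.Agent.H57.SLCard

/-! Overgroups of `SL(2,q)` in `GL(V)` of index prime to `p` modulo the normalizer. -/

set_option autoImplicit false

namespace H96

open Subgroup Cfsg H98 Matrix MatrixGroups H11
open scoped commutatorElement

theorem card_ringAut' {F : Type*} [Field F] [Fintype F] {p f : ℕ} [Fact p.Prime]
    (hF : Fintype.card F = p ^ f) : Nat.card (RingAut F) = f := by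
  have : CharP F p := charP_of_card_eq_prime_pow hF
  let := ZMod.algebra F p
  have e : RingAut F ≃ (F ≃ₐ[ZMod p] F) :=
    { toFun := fun σ => AlgEquiv.ofRingEquiv (f := σ) (fun x =>
        RingHom.congr_fun (Subsingleton.elim ((σ : F →+* F).comp (algebraMap (ZMod p) F))
          (algebraMap (ZMod p) F)) x)
      invFun := fun σ => σ.toRingEquiv
      left_inv := fun _ => rfl
      right_inv := fun _ => rfl }
  rw [Nat.card_congr e, IsGalois.card_aut_eq_finrank]
  have h := Module.card_eq_pow_finrank (K := ZMod p) (V := F)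
  rw [hF, ZMod.card] at h
  exact (Nat.pow_right_injective (Fact.out : p.Prime).two_le h).symm

theorem card_alt (n : ℕ) (h : 2 ≤ n) : Nat.card (alternatingGroup (Fin n)) = n.factorial / 2 := by
  haveI : Nontrivial (Fin n) := Fin.nontrivial_iff_two_le.2 h
  rw [nat_card_alternatingGroup, Nat.card_fin]

theorem no840 {X : Type*} [Group X] [Finite X] (h : Nat.card X = 840) {H : Subgroup X} (hi : H.index = 7)
    (hc : H.normalCore = ⊥) : False := by
  let e : X ⧸ H ≃ Fin 7 := Finite.equivFinOfCardEq hi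
  let φ : X →* Equiv.Perm (Fin 7) := e.permCongrHom.toMonoidHom.comp (MulAction.toPermHom X (X ⧸ H))
  have hφ : Function.Injective φ := e.permCongrHom.injective.comp
    ((MonoidHom.ker_eq_bot_iff (MulAction.toPermHom X (X ⧸ H))).1 (by rw [← normalCore_eq_ker, hc]))
  have h1 := φ.range.card_mul_index
  rw [← Nat.card_congr (MonoidHom.ofInjective hφ).toEquiv, h, Nat.card_perm, Nat.card_fin] at h1
  have h2 : φ.range.index = 6 := by norm_num [Nat.factorial] at h1; omega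
  haveI := alternatingGroup.isSimpleGroup (α := Fin 7) (by simp)
  have h3 := H87.two_mul_card_dvd_factorial (G := alternatingGroup (Fin 7))
    (fun e => absurd ((Group.is_simple_iff_prime_card (α := alternatingGroup (Fin 7))).1 inferInstance)
      (by rw [card_alt 7 (by norm_num)]; norm_num [Nat.factorial]))
    (φ.range.subgroupOf _) fun e => by
      have := card_dvd_of_le (subgroupOf_eq_top.1 e)
      rw [← Nat.card_congr (MonoidHom.ofInjective hφ).toEquiv, h, card_alt 7 (by norm_num)] at this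
      norm_num [Nat.factorial] at this
  have h4 : (φ.range.subgroupOf (alternatingGroup (Fin 7))).index ≤ 6 := by
    have := relIndex_le_of_le_right (H := φ.range) (le_top (a := alternatingGroup (Fin 7)))
      (by rw [relIndex_top_right, h2]; norm_num)
    rwa [relIndex_top_right, h2] at this
  have := (Nat.le_of_dvd (Nat.factorial_pos _) h3).trans (Nat.factorial_le h4)
  rw [card_alt 7 (by norm_num)] at this
  norm_num [Nat.factorial] at this

theorem iso7 {X : Type*} [Group X] [Finite X] [IsSimpleGroup X] (h : Nat.card X = 20160) {M : Subgroup X}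
    (hM : Nat.card M = 2520) : Nonempty (M ≃* alternatingGroup (Fin 7)) := by
  classical
  have h1 : M.index = 8 := by have := M.card_mul_index; rw [h, hM] at this; omega
  letI := Fintype.ofFinite (X ⧸ M)
  let φ := MulAction.toPermHom X (X ⧸ M)
  have hφ : Function.Injective φ := (MonoidHom.ker_eq_bot_iff φ).1 (by
    rw [← normalCore_eq_ker]
    refine M.normalCore_normal.eq_bot_or_eq_top.resolve_right fun e => ?_
    rw [show M = ⊤ from top_le_iff.1 (e ▸ M.normalCore_le), index_top] at h1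
    omega)
  have h2 : ∀ g : M, φ g ((1 : X) : X ⧸ M) = ((1 : X) : X ⧸ M) := fun g =>
    QuotientGroup.eq.2 (by simp)
  let ψ : M →* Equiv.Perm {x : X ⧸ M // x ≠ ((1 : X) : X ⧸ M)} := MonoidHom.mk'
    (fun g => (φ g).subtypePerm fun x => by
      rw [not_iff_not]; conv_lhs => rw [← h2 g]
      exact (φ g).injective.eq_iff) fun x y => Equiv.ext fun z => Subtype.ext (mul_smul x.1 y.1 z.1)
  have hψ : Function.Injective ψ := (injective_iff_map_eq_one ψ).2 fun g e => Subtype.ext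
    ((injective_iff_map_eq_one φ).1 hφ _ (Equiv.ext fun x => (em (x = ((1 : X) : X ⧸ M))).elim
      (fun e1 => e1 ▸ h2 g) fun e1 => congrArg Subtype.val (Equiv.congr_fun e ⟨x, e1⟩)))
  have h3 : Nat.card {x : X ⧸ M // x ≠ ((1 : X) : X ⧸ M)} = 7 := by
    rw [Nat.card_eq_fintype_card, Fintype.card_subtype_compl, Fintype.card_subtype_eq,
      ← Nat.card_eq_fintype_card, ← index_eq_card, h1]
  have h4 := ψ.range.card_mul_index
  rw [← Nat.card_congr (MonoidHom.ofInjective hψ).toEquiv, hM, Nat.card_perm, h3] at h4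
  have h5 := Equiv.Perm.eq_alternatingGroup_of_index_eq_two (G := ψ.range)
    (by norm_num [Nat.factorial] at h4; omega)
  exact ⟨(MonoidHom.ofInjective hψ).trans ((MulEquiv.subgroupCongr h5).trans
    (Finite.equivFinOfCardEq h3).altCongrHom)⟩

theorem zmod2 (x : ZMod 2) : x = 0 ∨ x = 1 := by revert x; decide

theorem exists_inj_alt8 {V : Type*} [AddCommGroup V] [Finite V] (h0 : ∀ v : V, 2 • v = 0)
    (h : Nat.card V = 2 ^ 4) : ∃ f : Au V →* alternatingGroup (Fin 8), Function.Injective f := by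
  haveI : Fact (Nat.Prime 2) := ⟨Nat.prime_two⟩
  obtain ⟨e⟩ := H12.nonempty_mulAut_equiv_GL (p := 2) (W := Multiplicative V) mul_comm
    (fun a => congrArg Multiplicative.ofAdd (h0 a.toAdd)) h
  obtain ⟨e'⟩ := Cfsg.Agent.S0256.result (F := ZMod 2) (ZMod.card 2)
  let f1 : Au V →* MulAut (Multiplicative V) := MonoidHom.mk'
    (fun a => AddEquiv.toMultiplicative a.toAddEquiv) fun _ _ => rfl
  have hz : ∀ x : ZMod 2, x ≠ 0 → x = 1 := fun x => (zmod2 x).resolve_left
  let f2 : GL (Fin 4) (ZMod 2) →* SL(4, ZMod 2) := MonoidHom.mk'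
    (fun g => ⟨g.1, hz _ g.det_ne_zero⟩) fun _ _ => rfl
  have h1 : Function.Injective (QuotientGroup.mk' (center SL(4, ZMod 2))) :=
    (injective_iff_map_eq_one _).2 fun g hg => by
      obtain ⟨r, h1, h2⟩ := Matrix.SpecialLinearGroup.mem_center_iff.1 ((QuotientGroup.eq_one_iff g).1 hg)
      obtain rfl : r = 1 := hz r fun e => by simp [e] at h1
      exact Subtype.ext (by rw [← h2]; simp)
  have h2 : Function.Injective f2 := fun x y e => Units.ext (congrArg Subtype.val e)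
  have h3 : Function.Injective f1 := fun x y e => LinearEquiv.ext fun v =>
    congrArg (fun g : MulAut (Multiplicative V) => (g (Multiplicative.ofAdd v)).toAdd) e
  exact ⟨e'.toMonoidHom.comp ((QuotientGroup.mk' _).comp (f2.comp (e.toMonoidHom.comp f1))),
    fun x y e1 => h3 (e.injective (h2 (h1 (e'.injective e1))))⟩

namespace NS

variable {F : Type} [Field F] [Fintype F] {p n : ℕ} [hp : Fact p.Prime] (hF : Fintype.card F = p ^ n)
  {Γ T A : Subgroup (Au (Fin 2 → F))} {g b : Au (Fin 2 → F)}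
include hF

theorem card_le' (hA : A ≤ normalizer ((sl F).range : Set (Au (Fin 2 → F))))
    (h : IsPGroup p A) : Nat.card A ≤ n * Nat.card ↥(A ⊓ (sl F).range) := by
  choose s hs using fun a : A => exists_semiL (hA a.2)
  let θ : A →* RingAut F := MonoidHom.mk' s fun x y => (hs _).uniq ((hs x).mul (hs y))
  haveI : Finite (RingAut F) := Finite.of_injective (fun g : RingAut F => (g : F → F)) DFunLike.coe_injective
  have h2 : Nat.card θ.ker ≤ Nat.card ↥(A ⊓ (sl F).range) :=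
    Nat.card_le_card_of_injective (fun x => ⟨x.1.1, x.1.2, SemiL.mem_of hF
      ((show s x.1 = 1 from x.2) ▸ hs x.1) (h.to_le (zpowers_le.2 x.1.2))⟩)
      fun x y e => Subtype.ext (Subtype.ext (congrArg (·.1) e))
  rw [← θ.ker.index_mul_card, index_ker]
  exact Nat.mul_le_mul (card_ringAut' hF ▸ card_le_card_group _) h2

theorem cj_le_S (h : cj g (UU F) ≤ normalizer ((sl F).range : Set (Au (Fin 2 → F)))) :
    cj g (UU F) ≤ (sl F).range := by_contra fun e =>
  (lt_index hF h ((blk.cj g).quad.ea (h0 hF)) e).ne (blk.cj g).index_fxA.symm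

omit hF in
theorem le_normalizer_S (hS : (sl F).range ≤ Γ) (h : ∀ g ∈ Γ, cj g (UU F) ≤ (sl F).range) :
    Γ ≤ normalizer ((sl F).range : Set (Au (Fin 2 → F))) := fun g hg => by
  obtain ⟨x, hx, e⟩ := (blk (F := F)).exists_ne
  refine mem_normalizer_of_cj_le ?_
  conv_lhs => rw [← blk.gen hx e, cj_sup, cj_cj]
  exact sup_le (h g hg) (h _ (mul_mem hg (hS hx)))

omit hF in
theorem fx_cj_S (g : Au (Fin 2 → F)) : fx (Fin 2 → F) (cj g (sl F).range) = ⊥ :=
  eq_bot_iff.2 fun v hv => by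
    rw [mem_fx_cj, fx_S, AddSubgroup.mem_bot, smul_eq_zero_iff_eq] at hv; exact hv

/-- the configuration of the theorem -/
structure Cf (p : ℕ) (Γ T : Subgroup (Au (Fin 2 → F))) : Prop where
  le : (sl F).range ≤ Γ
  syl : IsSyl p T Γ
  nrml : T ≤ normalizer ((sl F).range : Set (Au (Fin 2 → F)))
  inf : T ⊓ (sl F).range = UU F

variable (c : Cf p Γ T)
include c

theorem Cf.wc (h : cj g (UU F) ≤ T) : cj g (UU F) = UU F :=
  eq_of_le_of_card_ge ((le_inf h (cj_le_S hF (h.trans c.nrml))).trans c.inf.le) (card_cj g _).ge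

theorem Cf.exists_cj {P : Subgroup (Au (Fin 2 → F))} (h1 : UU F ≤ P) (h2 : P ≤ Γ) (h : IsPGroup p P) :
    ∃ k ∈ Γ, cj k P ≤ T ∧ cj k (UU F) = UU F :=
  let ⟨k, hk, e⟩ := c.syl.exists_cj_le h h2
  ⟨k, hk, e, c.wc hF ((cj_mono k h1).trans e)⟩

omit hF in
theorem Cf.cj_le (hg : g ∈ Γ) : cj g (UU F) ≤ Γ := cj_le_of_le_of_mem (blk.le.trans c.le) hg

theorem Cf.eq_of_fx (hg : g ∈ Γ) (e : fx (Fin 2 → F) (cj g (UU F)) = fx _ (UU F)) :
    cj g (UU F) = UU F := by
  have h1 : Quad (Fin 2 → F) (UU F ⊔ cj g (UU F)) := by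
    rw [quad_iff, cm_top_sup, fx_sup, e, inf_idem]
    exact sup_le (quad_iff.1 blk.quad) (e ▸ quad_iff.1 (blk.cj g).quad)
  obtain ⟨k, -, h2, h3⟩ := c.exists_cj hF le_sup_left (sup_le (blk.le.trans c.le) (c.cj_le hg))
    (isPGroup_of_ea (h1.ea (h0 hF)))
  have h4 := c.wc hF (g := k * g) (cj_cj k g (UU F) ▸ (cj_mono k le_sup_right).trans h2)
  rwa [← cj_cj, ← h3, cj_inj, h3] at h4

theorem Cf.of_spread (h : ∀ g ∈ Γ, cj g (UU F) ≠ UU F → fx (Fin 2 → F) (cj g (UU F) ⊔ UU F) = ⊥) :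
    Γ ≤ normalizer ((sl F).range : Set (Au (Fin 2 → F))) := le_normalizer_S c.le fun g hg => by
  obtain ⟨v, hv, h0⟩ := SetLike.not_le_iff_exists.1 (blk (F := F).cj g).not_fx_le
  obtain ⟨x, hx, h1⟩ := (blk (F := F)).cover v
  by_cases e : cj (x⁻¹ * g) (UU F) = UU F
  · rw [← cj_cj] at e
    exact (cj_le_iff.1 e.le).trans (cj_le_of_le_of_mem blk.le (inv_mem (inv_mem hx)))
  have h2 : x⁻¹ • v ∈ fx (Fin 2 → F) (cj (x⁻¹ * g) (UU F) ⊔ UU F) :=
    mem_fx_sup (by rw [← cj_cj]; exact smul_mem_fx_cj.2 hv) (mem_fx_cj.1 h1)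
  rw [h _ (mul_mem (inv_mem (c.le hx)) hg) e, AddSubgroup.mem_bot, smul_eq_zero_iff_eq] at h2
  exact absurd (h2 ▸ zero_mem _) h0

theorem Cf.card_le (hg : g ∈ Γ) (hne : cj g (UU F) ≠ UU F)
    (hm : ∀ k ∈ Γ, cj k (UU F) ≠ UU F → Nat.card (fx (Fin 2 → F) (cj k (UU F) ⊔ UU F)) ≤
      Nat.card (fx (Fin 2 → F) (cj g (UU F) ⊔ UU F))) :
    Nat.card (fx (Fin 2 → F) (cj g (UU F) ⊔ UU F)) ≤
      Nat.card ↥(cj g (UU F) ⊓ normalizer (UU F : Set (Au (Fin 2 → F)))) := by
  obtain ⟨w, hw, hw'⟩ := SetLike.not_le_iff_exists.1 fun e => hne (c.eq_of_fx hF hg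
    (eq_of_le_of_index_le e (index_fx_cj g _).ge).symm)
  have h1 : ∀ u : fx (Fin 2 → F) (cj g (UU F) ⊔ UU F), ∃ a ∈ cj g (UU F), dl a w = u := fun u => by
    obtain ⟨a, ha, e⟩ := (blk.cj g).reg hw' (fx_anti le_sup_left u.2)
    rw [fx_cj_S, AddSubgroup.mem_bot, sub_eq_zero] at e
    exact ⟨a, ha, e.symm⟩
  choose f hf hf' using h1
  refine Nat.card_le_card_of_injective (fun u => ⟨f u, hf u, cj_eq_self_iff.1 (by_contra fun e => ?_)⟩)
    fun u v e => Subtype.ext (by rw [← hf', ← hf', show f u = f v from congrArg (·.1) e])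
  have h2 : fx (Fin 2 → F) (cj g (UU F) ⊔ UU F) ≤ fx _ (cj (f u) (UU F) ⊔ UU F) := fun v hv =>
    mem_fx_sup (by rw [← hv _ (mem_sup_left (hf u))]; exact smul_mem_fx_cj.2 (fx_anti le_sup_right hv))
      (fx_anti le_sup_right hv)
  have h3 := AddSubgroup.eq_of_le_of_card_ge h2 (hm _ (c.cj_le hg (hf u)) e)
  have h4 : f u • w ∈ fx (Fin 2 → F) (cj g (UU F) ⊔ UU F) := h3 ▸ mem_fx_sup (smul_mem_fx_cj.2 hw)
    (by rw [smul_eq_add_dl, hf']; exact add_mem hw (fx_anti le_sup_right u.2))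
  rw [smul_eq_add_dl, hf', add_mem_cancel_right u.2] at h4
  exact hw' (fx_anti le_sup_left h4)

theorem Cf.exists_b (h : ¬ Γ ≤ normalizer ((sl F).range : Set (Au (Fin 2 → F)))) :
    p = 2 ∧ n = 2 ∧ ∃ b ∈ T, b ∉ (sl F).range := by
  obtain ⟨g₀, hg₀, hne₀, h₀⟩ : ∃ g ∈ Γ, cj g (UU F) ≠ UU F ∧ fx (Fin 2 → F) (cj g (UU F) ⊔ UU F) ≠ ⊥ := by
    by_contra e
    simp only [not_exists, not_and, not_not] at e
    exact h (c.of_spread hF e)
  obtain ⟨g₁, ⟨hg₁, hne₁⟩, hm₁⟩ := Set.exists_max_image {g | g ∈ Γ ∧ cj g (UU F) ≠ UU F}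
    (fun g => Nat.card (fx (Fin 2 → F) (cj g (UU F) ⊔ UU F))) (Set.toFinite _) ⟨g₀, hg₀, hne₀⟩
  obtain ⟨k, hk, h1, h2⟩ := c.exists_cj hF (P := UU F ⊔ cj g₁ (UU F) ⊓ normalizer (UU F : Set (Au (Fin 2 → F))))
    le_sup_left (sup_le (blk.le.trans c.le) (inf_le_left.trans (c.cj_le hg₁)))
    (IsPGroup.to_sup_of_normal_left' (blk.isSyl (h0 hF)).isPGroup
      ((isPGroup_cj _ (blk.isSyl (h0 hF)).isPGroup).to_le inf_le_left) inf_le_right)
  have hg : k * g₁ ∈ Γ := mul_mem hk hg₁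
  have h3 : cj (k * g₁) (UU F) ⊓ normalizer (UU F : Set (Au (Fin 2 → F))) ≤ T := by
    refine le_trans ?_ ((cj_mono k le_sup_right).trans h1)
    rw [cj_inf, cj_normalizer, h2, cj_cj]
  have hne : cj (k * g₁) (UU F) ≠ UU F := by rwa [← cj_cj, ← h2, Ne, cj_inj, h2]
  have h4 : Nat.card (fx (Fin 2 → F) (cj g₁ (UU F) ⊔ UU F)) =
      Nat.card (fx (Fin 2 → F) (cj (k * g₁) (UU F) ⊔ UU F)) := by
    rw [← card_fx_cj k, cj_sup, h2, cj_cj]
  have h5 := c.card_le hF hg hne fun k hk e => h4 ▸ hm₁ k ⟨hk, e⟩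
  have h6 : 1 < Nat.card (fx (Fin 2 → F) (cj (k * g₁) (UU F) ⊔ UU F)) :=
    lt_of_lt_of_le ((AddSubgroup.one_lt_card_iff_ne_bot _).2 h₀) (h4 ▸ hm₁ g₀ ⟨hg₀, hne₀⟩)
  generalize k * g₁ = g at hg h3 hne h5 h6
  have h7 : ∀ b ∈ cj g (UU F), b ≠ 1 → ∀ v, b • v = v → v ∈ fx (Fin 2 → F) (cj g (UU F)) :=
    fun b hb e v hv => by_contra fun e1 => e ((blk.cj g).inj hb e1 (by rw [dl_eq_zero.2 hv]; exact zero_mem _))
  have h8 : (cj g (UU F) ⊓ normalizer (UU F : Set (Au (Fin 2 → F)))) ⊓ (sl F).range = ⊥ :=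
    eq_bot_iff.2 fun b hb => by_contra fun e => hne (c.eq_of_fx hF hg (eq_of_le_of_index_le
      (U := fx _ (UU F)) (fun v hv => h7 b hb.1.1 e v (hv b (c.inf.le ⟨h3 hb.1, hb.2⟩))) (index_fx_cj g _).ge).symm)
  have hE := ea_mono ((blk.cj g).quad.ea (h0 hF))
    (inf_le_left (b := normalizer (UU F : Set (Au (Fin 2 → F)))))
  have h9 := NS.card_le hF (h3.trans c.nrml) hE
  rw [h8, card_bot, mul_one] at h9
  obtain ⟨⟨b, hb⟩, hb1⟩ := ne_bot_iff_exists_ne_one.1 ((one_lt_card_iff_ne_bot _).1 (h6.trans_le h5))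
  have hb2 : b ≠ 1 := fun e => hb1 (Subtype.ext e)
  have hb3 : b ∉ (sl F).range := fun e => hb2 (mem_bot.1 (h8 ▸ ⟨hb, e⟩))
  obtain ⟨σ, hσ⟩ := exists_semiL (c.nrml (h3 hb))
  have h10 : σ ≠ 1 := fun e => hb3 (SemiL.mem_of hF (e ▸ hσ) ((isPGroup_of_ea hE).to_le (zpowers_le.2 hb)))
  have h11 : orderOf σ = p := orderOf_eq_prime ((hσ.pow p).uniq (hE.2 b hb ▸ semiL_one)) h10
  let f : F →+ (Fin 2 → F) := (dl b).comp (LinearMap.toSpanSingleton F _ (e0 F)).toAddMonoidHom
  have h12 : Nat.card f.ker ≤ Nat.card (fx (Fin 2 → F) (cj g (UU F) ⊔ UU F)) :=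
    Nat.card_le_card_of_injective (fun s => ⟨s.1 • e0 F, mem_fx_sup (h7 b hb.1 hb2 _ (dl_eq_zero.1 s.2))
      (mem_fx_U.2 (by simp))⟩) fun x y e => Subtype.ext (smul_left_injective F e0_ne (congrArg (·.1) e))
  have h13 : Nat.card f.range ≤ Nat.card (fx (Fin 2 → F) (cj g (UU F) ⊔ UU F)) :=
    AddSubgroup.card_le_of_le (by
      rintro _ ⟨s, rfl⟩
      exact mem_fx_sup ((blk.cj g).quad b hb.1 _)
        (dl_mem_of_nrm (normalizer_le_nrm_fx hb.2) (mem_fx_U.2 (by simp))))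
  have h14 := f.ker.index_mul_card
  rw [AddSubgroup.index_ker, Nat.card_eq_fintype_card (α := F), hF] at h14
  have h15 : n ≤ 2 := (Nat.pow_le_pow_iff_right hp.out.one_lt).1
    (by rw [← h14, sq]; exact Nat.mul_le_mul (by omega) (by omega))
  have h16 := orderOf_dvd_natCard σ
  rw [h11, card_ringAut' hF] at h16
  have h17 := Nat.le_of_dvd (one_le hF) h16
  have := hp.out.two_le
  exact ⟨by omega, by omega, b, h3 hb, hb3⟩

theorem Cf.main (h : ¬ Γ ≤ normalizer ((sl F).range : Set (Au (Fin 2 → F)))) :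
    Fintype.card F = 4 ∧ Nonempty (Γ ≃* alternatingGroup (Fin 7)) := by
  obtain ⟨rfl, rfl, b, hb, hbS⟩ := c.exists_b hF h
  refine ⟨hF, ?_⟩
  obtain ⟨f, hf⟩ := exists_inj_alt8 (h0 hF) (card_V hF)
  haveI := alternatingGroup.isSimpleGroup (α := Fin 8) (by simp)
  have e1 := (Γ.equivMapOfInjective f hf)
  refine (iso7 (card_alt 8 (by norm_num)) (M := Γ.map f) ?_).map e1.trans
  rw [← Nat.card_congr e1.toEquiv]
  have h1 : Nat.card Γ ∣ 20160 := by
    rw [Nat.card_congr e1.toEquiv]; exact (card_subgroup_dvd_card _).trans (card_alt 8 (by norm_num)).dvd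
  have h2 : Nat.card T = 8 := by
    have h2 := card_le' hF c.nrml c.syl.isPGroup
    have h3 : UU F ≤ T := c.inf ▸ inf_le_left
    have h4 := card_dvd_of_le h3
    have h5 : Nat.card T ≠ Nat.card (UU F) := fun e => hbS (blk.le (eq_of_le_of_card_ge h3 e.le ▸ hb))
    have := Nat.card_pos (α := T)
    rw [c.inf] at h2
    rw [card_U hF] at h2 h4 h5
    omega
  have h3 : Nat.card (sl F).range = 60 := by
    rw [← Nat.card_congr (MonoidHom.ofInjective sl_inj).toEquiv, H57.card_sl_two, hF]; rfl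
  set H := (normalizer ((sl F).range : Set (Au (Fin 2 → F)))).subgroupOf Γ with hH
  have h4 : 120 ∣ Nat.card H := by
    have e2 : ∀ X ≤ Γ, X ≤ normalizer ((sl F).range : Set (Au (Fin 2 → F))) → Nat.card X ∣ Nat.card H :=
      fun X h1 h2 => Nat.card_congr (subgroupOfEquivOfLe h1).toEquiv ▸ card_dvd_of_le (subgroupOf_mono Γ h2)
    have e3 := e2 _ c.syl.le c.nrml
    have e4 := e2 _ c.le le_normalizer
    rw [h2] at e3
    rw [h3] at e4
    exact Nat.Coprime.mul_dvd_of_dvd_of_dvd (by norm_num : Nat.Coprime 8 15) e3 (dvd_trans (by norm_num) e4)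
  have h5 : ¬ 16 ∣ Nat.card Γ := fun e => c.syl.not_dvd_relIndex (by
    have := (T.subgroupOf Γ).index_mul_card
    rw [Nat.card_congr (subgroupOfEquivOfLe c.syl.le).toEquiv, h2] at this
    change 2 ∣ (T.subgroupOf Γ).index
    omega)
  have hs : ∃ a : F, a ≠ 0 ∧ a ^ 2 ≠ 1 := by_contra fun e => absurd (small_card hF e).1 (by norm_num)
  have hD := map_eq_range (let ⟨_, a0, a1⟩ := hs; Matrix.SL2.commutator_eq_top a0 a1)
  have hK : Γ ≤ normalizer (H.normalCore.map Γ.subtype : Set (Au (Fin 2 → F))) := le_normalizer_map_subtype _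
  have hK' : H.normalCore.map Γ.subtype ≤ normalizer ((sl F).range : Set (Au (Fin 2 → F))) := by
    rintro _ ⟨x, hx, rfl⟩; exact H.normalCore_le hx
  have h6 : H.normalCore.map Γ.subtype ⊓ (sl F).range = ⊥ := by
    rcases (hD ▸ sl_qs hs).2 _ (inf_le_right (a := H.normalCore.map Γ.subtype))
      (le_normalizer_inf (c.le.trans hK) le_normalizer) with e | e
    · refine absurd (le_normalizer_S c.le fun g hg => cj_le_S hF (le_trans ?_ hK')) h
      exact cj_le_of_le (blk.le.trans (inf_eq_right.1 e)) (hK hg)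
    · refine eq_bot_iff.2 fun a ha => ?_
      obtain ⟨x, rfl⟩ := ha.2
      have : x ∈ center SL(2, F) := mem_center_iff.2 fun y => sl_inj (by
        rw [map_mul, map_mul]; exact e ha _ ⟨y, rfl⟩)
      rcases H61.sl_mem_center_iff.1 this with rfl | rfl
      · exact map_one _
      · rw [sl_neg_one]
        exact eq_of_smul_eq_smul (α := Fin 2 → F) fun v => by
          rw [ng_smul, one_smul, neg_eq_iff_add_eq_zero, ← two_nsmul, h0 hF]
  have h7 : 60 ∣ H.index.factorial := by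
    letI := Fintype.ofFinite (Γ ⧸ H)
    classical
    rw [← h3, index_eq_card, ← Nat.card_perm]
    refine card_dvd_of_injective ((MulAction.toPermHom Γ (Γ ⧸ H)).comp (inclusion c.le))
      ((injective_iff_map_eq_one _).2 fun x hx => Subtype.ext (mem_bot.1 (h6 ▸ ⟨⟨inclusion c.le x, ?_, rfl⟩, x.2⟩)))
    rw [normalCore_eq_ker]; exact hx
  have h8 := H.index_mul_card
  obtain ⟨⟨k, hk⟩, l, hl⟩ := And.intro h4 h1
  have h9 : H.index * k ∣ 21 := by
    have e2 : H.index * k ∣ 8 * 21 := ⟨l, by rw [← h8, hk] at hl; nlinarith⟩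
    refine Nat.Coprime.dvd_of_dvd_mul_left (Nat.Coprime.pow_right 3 (Nat.coprime_two_right.2 ?_)) e2
    refine Nat.not_even_iff_odd.1 fun ⟨r, e⟩ => h5 ⟨15 * r, ?_⟩
    rw [← h8, hk]; nlinarith
  have h10 : Nat.card Γ = 120 * (H.index * k) := by rw [← h8, hk]; ring
  have h11 : H.index * k ∈ Nat.divisors 21 := Nat.mem_divisors.2 ⟨h9, by norm_num⟩
  have h12 : 5 ≤ H.index := by
    by_contra e
    have := Nat.le_of_dvd (Nat.factorial_pos _) (h7.trans (Nat.factorial_dvd_factorial (show _ ≤ 4 by omega)))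
    norm_num [Nat.factorial] at this
  have h13 : 0 < k := Nat.pos_of_ne_zero fun e => by rw [e] at h9; simp at h9
  have h14 := Nat.le_mul_of_pos_right H.index h13
  rw [show Nat.divisors 21 = {1, 3, 7, 21} by decide] at h11
  simp only [Finset.mem_insert, Finset.mem_singleton] at h11
  rcases h11 with e | e | e | e
  · omega
  · omega
  swap
  · omega
  have h15 : H.index = 7 := ((Nat.dvd_prime (by norm_num)).1 (Dvd.intro _ e)).resolve_left (by omega)
  refine (no840 (by omega) h15 ((map_eq_bot_iff_of_injective _ Γ.subtype_injective).1 ?_)).elim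
  refine (hD ▸ irr).eq_bot (h0 hF) (IsPGroup.of_card (n := if Nat.card (H.normalCore.map Γ.subtype) = 1
    then 0 else 1) ?_) (c.le.trans hK)
  have h16 : Nat.card (H.normalCore.map Γ.subtype) * 60 ≤ 120 := by
    rw [← h3, ← Nat.card_prod, show 120 = Nat.card H by rw [h15] at e; omega]
    refine Nat.card_le_card_of_injective (fun x => ⟨⟨x.1.1 * x.2.1, mul_mem (map_subtype_le _ x.1.2) (c.le x.2.2)⟩,
      mul_mem (hK' x.1.2) (le_normalizer x.2.2)⟩) fun x y e => ?_
    exact mul_injective_of_disjoint (disjoint_iff.2 h6) (congrArg (·.1.1) e)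
  have := Nat.card_pos (α := H.normalCore.map Γ.subtype)
  split_ifs <;> omega

end NS

open NS in
theorem sl_normal_or_alt7 {F : Type} [Field F] [Fintype F] {p n : ℕ} [Fact p.Prime]
    (hF : Fintype.card F = p ^ n) {Γ T : Subgroup (Au (Fin 2 → F))} (h1 : (sl F).range ≤ Γ)
    (h2 : IsSyl p T Γ) (h3 : T ≤ normalizer ((sl F).range : Set (Au (Fin 2 → F)))) :
    Γ ≤ normalizer ((sl F).range : Set (Au (Fin 2 → F))) ∨
      (Fintype.card F = 4 ∧ Nonempty (Γ ≃* alternatingGroup (Fin 7))) := by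
  obtain ⟨x, hx, e⟩ := (h2.inf_of_le_normalizer h1 h3).exists_cj_eq (blk.isSyl (h0 hF))
  have e1 := cj_eq_self_of_mem hx
  refine or_iff_not_imp_left.2 (Cf.main hF (T := cj x T) ⟨h1, h2.cj_of_mem (h1 hx), ?_, ?_⟩)
  · rw [← e1, ← cj_normalizer]; exact cj_mono x h3
  · rw [← e, cj_inf, e1]

end H96
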