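import Cfsg.Agent.H91.AHSpec
import Cfsg.Agent.S0022

/-! AH tower: jobs P2 and KB. -/

set_option autoImplicit false

namespace H96.AH

open H33.Solv Subgroup MulAction H91.AH
open scoped commutatorElement

theorem pgroup_zpowers {G : Type} [Group G] {r k : ℕ} {g : G} (h : g ^ r ^ k = 1) :
    IsPGroup r (zpowers g) := by
  rintro ⟨_, n, rfl⟩
  exact ⟨k, Subtype.ext (by
    show (g ^ n) ^ r ^ k = 1
    rw [← zpow_natCast, ← zpow_mul, mul_comm, zpow_mul, zpow_natCast, h, one_zpow])⟩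

theorem jobP2 : JobP2 := by
  intro lam E _ _ hs p r N y g w hp hr hpr hN hrN hy oy hg wy wg ⟨k1, gk⟩ ⟨k2, wk⟩ hcc real
  have := Fact.mk hp
  have := Fact.mk hr
  have y1 : y ≠ 1 := fun e => hp.ne_one (by rw [← oy, e, orderOf_one])
  obtain ⟨B, ⟨hB, BN, yB⟩, hmax⟩ := H2.exists_maximal_subgroup
    (fun B : Subgroup E => B.Normal ∧ B ≤ N ∧ y ∉ B) ⟨⊥, inferInstance, bot_le, y1⟩
  let f := QuotientGroup.mk' B
  have fs : Function.Surjective f := QuotientGroup.mk'_surjective B
  have fk : ∀ a, f a = 1 ↔ a ∈ B := fun a => QuotientGroup.eq_one_iff a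
  have := hN.map f fs
  obtain ⟨M, q, hM, ML, M0, hq, -, Mq, Mp, Mc, -⟩ := exists_minN (N.map f) inferInstance
    fun e => yB ((fk y).1 (mem_bot.1 (e.le (mem_map_of_mem f hy))))
  have hA : (M.comap f).Normal := hM.comap f
  have BA : B ≤ M.comap f := fun b hb => by rw [mem_comap, (fk b).2 hb]; exact one_mem _
  have AN : M.comap f ≤ N := (comap_mono ML).trans (by
    rw [comap_map_eq, QuotientGroup.ker_mk']; exact sup_le le_rfl BN)
  have yA : y ∈ M.comap f := by
    by_contra k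
    refine M0 (eq_bot_iff.2 fun m hm => ?_)
    obtain ⟨a, rfl⟩ := fs m
    exact mem_bot.2 ((fk a).2 ((hmax _ ⟨hA, AN, k⟩ BA).le hm))
  have ofy : orderOf (f y) = p := orderOf_eq_prime (by rw [← map_pow, ← oy, pow_orderOf_eq_one,
    map_one]) fun e => yB ((fk y).1 e)
  obtain rfl : p = q := (Nat.prime_dvd_prime_iff_eq hp hq).1
    (ofy ▸ orderOf_dvd_of_pow_eq_one (Mp _ yA))
  obtain ⟨W, _, π, sec⟩ := exists_sec (Z := B) (N := M.comap f)
    (fun a ha b hb => (fk _).1 (by
      rw [map_commutatorElement, commutatorElement_eq_one_iff_commute]; exact Mc _ ha _ hb))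
    fun a _ z hz => hB.conj_mem z hz a
  obtain ⟨_, act⟩ := sec.exists_act
  have := sec.finite
  have tor : ∀ x : W, p • x = 0 := fun x => by
    obtain ⟨a, ha, rfl⟩ := sec.surj x
    rw [← sec.pow ha, sec.zero _ (pow_mem ha _), ← fk, map_pow]
    exact Mp _ ha
  let _ : Module (ZMod p) W := AddCommGroup.zmodModule tor
  have v0 : π y ≠ 0 := fun e => yB ((sec.zero y yA).1 e)
  have gv : g • π y = (2 : ZMod p) • π y := by rw [act g y yA, hg, sec.pow yA, two_smul, two_smul]
  have wv : w • π y = (1 : ZMod p) • π y := by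
    rw [act w y yA, wy.eq, mul_inv_cancel_right, one_smul]
  let T : Subgroup E :=
    { carrier := {c | ∃ a : ZMod p, c • π y = a • π y}
      one_mem' := ⟨1, by rw [one_smul, one_smul]⟩
      mul_mem' := by
        rintro c d ⟨a, ha⟩ ⟨b, hb⟩
        exact ⟨b * a, by rw [mul_smul, hb, smul_sc, ha, smul_smul]⟩
      inv_mem' := by
        rintro c ⟨a, ha⟩
        have a0 : a ≠ 0 := fun e => v0 (by
          rw [← inv_smul_smul c (π y), ha, e, zero_smul, smul_zero])
        exact ⟨a⁻¹, by rw [inv_smul_eq_iff, smul_sc, ha, inv_smul_smul₀ a0]⟩ }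
  have hT : ∀ c : E, ∃ a : ZMod p, c ∈ T → c • π y = a • π y := fun c =>
    (em (c ∈ T)).elim (fun ⟨a, ha⟩ => ⟨a, fun _ => ha⟩) fun k => ⟨0, fun k' => absurd k' k⟩
  choose χ hχ using hT
  have RT : zpowers g ⊔ zpowers w ≤ T := sup_le (zpowers_le.2 ⟨2, gv⟩) (zpowers_le.2 ⟨1, wv⟩)
  have RP : IsPGroup r (zpowers g ⊔ zpowers w : Subgroup E) :=
    (pgroup_zpowers gk).to_sup_of_normal_left' (pgroup_zpowers wk) (zpowers_le.2
      (centralizer_le_normalizer _ (by
        rintro _ ⟨n, rfl⟩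
        exact (wg.zpow_right n).eq.symm)))
  obtain ⟨u, u0, hu, -⟩ := lam p E W r _ 1 χ 1 (π y) hr hpr.symm RP (fun c _ => Commute.one_right c)
    (fun c hc => by
      obtain ⟨k, hk⟩ := RP ⟨c, hc⟩
      obtain ⟨t, ht⟩ := isConj_iff.1 (real c k (congrArg Subtype.val hk))
      exact ⟨t, ht, by simp⟩) v0 (fun c hc => hχ c (RT hc)) (by rw [one_smul, one_smul])
  have gm : g ∈ zpowers g ⊔ zpowers w := mem_sup_left (mem_zpowers g)
  have wm : w ∈ zpowers g ⊔ zpowers w := mem_sup_right (mem_zpowers w)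
  have ug := hu g gm
  have uw := hu w wm
  have inj : ∀ x : W, x ≠ 0 → ∀ a b : ZMod p, a • x = b • x → a = b := fun x hx a b e => by
    by_contra k
    exact hx (by rw [← inv_smul_smul₀ (sub_ne_zero.2 k) x, sub_smul, e, sub_self, smul_zero])
  rw [inj _ v0 _ _ ((hχ g (RT gm)).symm.trans gv)] at ug
  rw [inj _ v0 _ _ ((hχ w (RT wm)).symm.trans wv), one_smul, inv_smul_eq_iff] at uw
  obtain ⟨k, hk, rfl⟩ := sec.surj u
  obtain ⟨c, hc, kc⟩ := Cfsg.Agent.S0022.result (zpowers w) (M.comap f) le_normalizer_of_normal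
    (by
      rw [Nat.card_zpowers]
      exact Nat.Coprime.coprime_dvd_left (orderOf_dvd_of_pow_eq_one wk) (Nat.Coprime.pow_left _
        ((Nat.Prime.coprime_iff_not_dvd hr).2 fun e => hrN (e.trans (card_dvd_of_le AN)))))
    (Or.inr inferInstance) B BA le_normalizer_of_normal le_normalizer_of_normal k hk fun a ha => by
      have h1 := hA.conj_mem k hk a
      rw [← sec.zero _ (mul_mem h1 (inv_mem hk)), sec.mul _ h1 _ (inv_mem hk), sec.inv hk,
        ← act a k hk, fix_zpow uw.symm ha, add_neg_cancel]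
  have cw : c ∈ centralizer {w} := mem_cent.2 (hc.2 w (mem_zpowers w)).symm
  have hle : zpowers (f y) ≤ (M.comap f ⊓ centralizer {w}).map f :=
    zpowers_le.2 (mem_map_of_mem f ⟨yA, mem_cent.2 wy.symm⟩)
  obtain ⟨j, hj⟩ := IsPGroup.iff_card.1 (Mq.to_le (H := (M.comap f ⊓ centralizer {w}).map f)
    (map_le_iff_le_comap.2 inf_le_left))
  have hd : p ^ j ∣ cc w := hj ▸ (card_map_dvd _ f).trans (card_dvd_of_le inf_le_right)
  have j1 : j ≤ 1 := by
    by_contra k
    exact hcc ((pow_two p ▸ pow_dvd_pow p (by omega : 2 ≤ j)).trans hd)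
  have heq := eq_of_le_of_card_ge hle (by
    rw [hj, Nat.card_zpowers, ofy]
    exact (Nat.pow_le_pow_right hp.pos j1).trans (pow_one p).le)
  obtain ⟨n, hn⟩ := mem_powers_iff_mem_zpowers.2 (heq.ge (mem_map_of_mem f ⟨hc.1, cw⟩))
  have e1 : π k = n • π y := by
    rw [(sec.eq_iff hk hc.1).2 kc, ← sec.pow yA, eq_comm, sec.eq_iff (pow_mem yA n) hc.1, ← fk,
      map_mul, map_inv, map_pow, inv_mul_eq_one]
    exact hn
  have e2 : g • π k = (2 : ZMod p) • π k := by rw [e1, smul_comm g n, gv, smul_comm n]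
  rw [inv_smul_eq_iff, smul_sc, e2, smul_smul] at ug
  have e3 : ((3 : ℕ) : ZMod p) = 0 := by
    have := inj _ u0 _ _ ((one_smul (ZMod p) (π k)).trans ug)
    push_cast
    linear_combination -this
  exact (Nat.prime_dvd_prime_iff_eq hp Nat.prime_three).1 ((ZMod.natCast_eq_zero_iff 3 p).1 e3)

theorem mem_zp2 {G : Type} [Group G] {t x : G} (h : t * t = 1) (hx : x ∈ zpowers t) :
    x = 1 ∨ x = t := by
  obtain ⟨n, rfl⟩ := hx
  have h2 : t ^ (2 : ℤ) = 1 := by rw [zpow_two, h]
  rcases Int.even_or_odd' n with ⟨k, rfl | rfl⟩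
  · exact Or.inl (by show t ^ (2 * k) = 1; rw [zpow_mul, h2, one_zpow])
  · exact Or.inr (by show t ^ (2 * k + 1) = t; rw [zpow_add, zpow_mul, h2, one_zpow, one_mul, zpow_one])

theorem jobKB : JobKB := by
  intro H _ _ z t M oz ot tc hcc fr hM tM sq cm hne
  have tt : t * t = 1 := by rw [← pow_two, ← ot, pow_orderOf_eq_one]
  have t1 : t ≠ 1 := fun e => by rw [e, orderOf_one] at ot; omega
  have z3 : z ^ 3 = 1 := by rw [← oz, pow_orderOf_eq_one]
  have ct : ∀ g : H, Commute g t := fun g => mem_center_iff.1 tc g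
  have cz : ∀ s ∈ zpowers t, ∀ g : H, g * s = s * g := fun s hs g => by
    rcases mem_zp2 tt hs with rfl | rfl
    · rw [mul_one, one_mul]
    · exact ct g
  have s2 : ∀ s ∈ zpowers t, s * s = 1 := fun s hs => by
    rcases mem_zp2 tt hs with rfl | rfl
    · exact one_mul 1
    · exact tt
  have x4 : ∀ x ∈ M, x ^ 4 = 1 := fun x hx => by
    rw [show 4 = 2 * 2 from rfl, pow_mul, pow_two, pow_two, s2 _ (sq x hx)]
  have hC : zpowers (z * t) = centralizer {z} :=
    eq_of_le_of_card_ge (zpowers_le.2 (mem_cent.2 ((Commute.refl z).mul_left (ct z).symm))) (by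
      rw [Nat.card_zpowers, (ct z).orderOf_mul_eq_mul_orderOf_of_coprime (by rw [oz, ot]; decide),
        oz, ot]
      exact hcc)
  have fixz : ∀ x ∈ M, Commute x z → x ∈ zpowers t := fun x hx h => by
    obtain ⟨n, rfl⟩ := mem_powers_iff_mem_zpowers.2 (hC.ge (mem_cent.2 h))
    have h1 := x4 _ hx
    simp only [(ct z).mul_pow] at h1 ⊢
    rw [((ct z).pow_pow n n).mul_pow, ← pow_mul t, mul_comm n, show 4 * n = 2 * (2 * n) by ring,
      pow_mul t, pow_two t, tt, one_pow, mul_one, pow_succ, ← pow_mul, mul_comm n, pow_mul, z3,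
      one_pow, one_mul] at h1
    rw [h1, one_mul]
    exact pow_mem (mem_zpowers t) n
  have cmm : ∀ x ∈ M, ∀ y ∈ M, ¬ Commute x y → x * y = t * (y * x) := fun x hx y hy h => by
    rcases mem_zp2 tt (cm x hx y hy) with e | e
    · exact absurd (mul_inv_eq_iff_eq_mul.1 (mul_inv_eq_one.1 e)) h
    · rw [← e]; group
  have cube : ∀ x : H, z * (z * (z * x * z⁻¹) * z⁻¹) * z⁻¹ = x := fun x => by
    rw [show z * (z * (z * x * z⁻¹) * z⁻¹) * z⁻¹ = z * z * z * x * (z * z * z)⁻¹ by
      simp only [mul_assoc, mul_inv_rev], ← pow_three', z3, one_mul, inv_one, mul_one]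
  have M2 : IsPGroup 2 M := fun x => ⟨2, Subtype.ext (x4 x x.2)⟩
  have key : ∀ x ∈ M, x ∉ zpowers t → ¬ Commute x (z * x * z⁻¹) ∧ x * x = t := by
    intro x hx xt
    obtain ⟨x', e1⟩ : ∃ x', x' = z * x * z⁻¹ := ⟨_, rfl⟩
    obtain ⟨x'', e2⟩ : ∃ x'', x'' = z * x' * z⁻¹ := ⟨_, rfl⟩
    have e3 : z * x'' * z⁻¹ = x := by
      rw [e2, e1, cube]
    have m1 : x' ∈ M := e1 ▸ hM.conj_mem x hx z
    have m2 : x'' ∈ M := e2 ▸ hM.conj_mem x' m1 z
    have mn : x * x' * x'' ∈ M := M.mul_mem (M.mul_mem hx m1) m2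
    have e4 : z * (x * x' * x'') * z⁻¹ = x⁻¹ * (x * x' * x'') * x := by
      rw [← conj_mul, ← conj_mul, ← e1, ← e2, e3]; group
    have nt : x * x' * x'' ∈ zpowers t := by
      refine fixz _ mn ?_
      generalize x * x' * x'' = n at mn e4
      by_cases h : Commute n x
      · rw [mul_assoc x⁻¹, h.eq, inv_mul_cancel_left] at e4
        exact (mul_inv_eq_iff_eq_mul.1 e4).symm
      · rw [mul_assoc x⁻¹, cmm n mn x hx h, ← mul_assoc x⁻¹, (ct _).eq, mul_assoc t,
          inv_mul_cancel_left] at e4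
        have e5 : z * t * z⁻¹ = t := by rw [(ct z).eq, mul_inv_cancel_right]
        have e6 := cube n
        rw [e4, ← conj_mul (a := t) (b := z) (c := n), e4, e5, ← mul_assoc t, tt, one_mul, e4,
          mul_eq_right] at e6
        exact absurd e6 t1
    have nc : ¬ Commute x x' := fun h => by
      have a1 : x ∈ closure {x, x', t} := subset_closure (by simp)
      have a2 : x' ∈ closure {x, x', t} := subset_closure (by simp)
      have a3 : t ∈ closure {x, x', t} := subset_closure (by simp)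
      have AM : closure {x, x', t} ≤ M := (closure_le _).2 (by
        rintro _ (rfl | rfl | rfl) <;> assumption)
      obtain ⟨k, hk⟩ := IsPGroup.iff_card.1 (M2.to_le AM)
      refine xt (fixz x hx (fr (closure {x, x', t}) (isMulCommutative_closure ?_) ?_
        (mem_normalizer_fintype fun a ha => ?_) x a1).symm)
      · rintro _ (rfl | rfl | rfl) _ (rfl | rfl | rfl)
        exacts [rfl, h, ct _, h.symm, rfl, ct _, (ct _).symm, (ct _).symm, rfl]
      · rw [hk, oz]
        exact Nat.Coprime.pow_left _ (by decide)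
      · refine (show closure {x, x', t} ≤ (closure {x, x', t}).comap (MulAut.conj z).toMonoidHom from
          (closure_le _).2 ?_) ha
        intro b hb
        change z * b * z⁻¹ ∈ closure {x, x', t}
        rcases hb with hb | hb | hb
        · rw [hb, ← e1]; exact a2
        · rw [hb, ← e2]
          have := mul_mem (inv_mem (mul_mem a1 a2)) (zpowers_le.2 a3 nt)
          rwa [inv_mul_cancel_left] at this
        · rw [hb, (ct z).eq, mul_inv_cancel_right]; exact a3
    refine ⟨e1 ▸ nc, ?_⟩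
    have q1 : x' * x' = x * x := by rw [e1, conj_mul, cz _ (sq x hx) z, mul_inv_cancel_right]
    have q2 : x'' * x'' = x * x := by rw [e2, conj_mul, q1, cz _ (sq x hx) z, mul_inv_cancel_right]
    have q3 : x * x' * (x * x') = t := by
      rw [mul_assoc, ← mul_assoc x', cmm x' m1 x hx fun h => nc h.symm, mul_assoc t, mul_assoc x,
        q1, ← mul_assoc x t, (ct x).eq, mul_assoc t, ← mul_assoc x x, s2 _ (sq x hx), mul_one]
    have q4 := s2 _ nt
    generalize x * x' = b at q3 q4 nt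
    have q5 : b * x'' = x'' * b := by
      have := cz _ nt b
      rw [mul_assoc b x'', mul_right_inj] at this
      exact this
    rw [mul_assoc, ← mul_assoc x'', ← q5, mul_assoc b, ← mul_assoc b b, q3, q2] at q4
    rw [eq_inv_of_mul_eq_one_right q4, inv_eq_of_mul_eq_one_left tt]
  refine ⟨?_, fun x hx xt => (key x hx xt).2⟩
  obtain ⟨x, hx, xt⟩ := SetLike.exists_of_lt (lt_of_le_of_ne (zpowers_le.2 tM) hne.symm)
  obtain ⟨nc, xx⟩ := key x hx xt
  have m1 := hM.conj_mem x hx z
  generalize z * x * z⁻¹ = x' at nc m1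
  have tx : zpowers t ≤ zpowers x := zpowers_le.2 (xx ▸ mul_mem (mem_zpowers x) (mem_zpowers x))
  have nc2 : ∀ b ∈ M, b ∉ zpowers x → x * b = t * (b * x) := fun b hb bx => by
    refine cmm x hx b hb fun h => t1 ?_
    have h1 := (key b hb fun k => bx (tx k)).2
    have h2 := (key _ (M.mul_mem hx hb) fun k =>
      bx ((mul_mem_cancel_left (mem_zpowers x)).1 (tx k))).2
    rw [h.symm.mul_mul_mul_comm, xx, h1, tt] at h2
    exact h2.symm
  have x'x : x' ∉ zpowers x := by
    rintro ⟨n, rfl⟩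
    exact nc ((Commute.refl x).zpow_right n)
  have ix : (zpowers x).relIndex M = 2 := relIndex_eq_two_iff_exists_notMem_and.2 ⟨x', m1, x'x,
    fun b hb => by
      by_contra k
      rw [not_or] at k
      have h1 := nc2 _ (M.mul_mem hb m1) k.1
      rw [← mul_assoc, nc2 b hb k.2, mul_assoc, mul_assoc, nc2 x' m1 x'x, mul_right_inj,
        mul_assoc, mul_right_inj, mul_eq_right] at h1
      exact t1 h1⟩
  have ox : orderOf x = 2 ^ (1 + 1) := orderOf_eq_prime_pow (by rw [pow_one, pow_two, xx]; exact t1)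
    (x4 x hx)
  rw [← card_mul_index ((zpowers x).subgroupOf M),
    Nat.card_congr (subgroupOfEquivOfLe (zpowers_le.2 hx)).toEquiv, Nat.card_zpowers, ox]
  exact congrArg (2 ^ (1 + 1) * ·) ix

end H96.AH
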