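import Cfsg.Agent.H20.C3Spec

/-! C3 tower (row S5227): job Ct, the final count. -/

set_option autoImplicit false
set_option linter.unusedSectionVars false

namespace H96.C3Ct

open H20.C3 Matrix

theorem uM_mul (a b d A B D : F3) : uM a b d * uM A B D = uM (a + A) (b + B) (d + D + a * B) := by
  ext i k
  fin_cases i <;> fin_cases k <;> simp [uM, Matrix.mul_apply, Fin.sum_univ_succ] <;> ring

theorem uM_vec (a b d : F3) (w : Fin 6 → F3) : uM a b d *ᵥ w = ![w 0, b * w 0 + w 1, d * w 0 + a * w 1 + w 2,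
    b ^ 2 * w 0 + 2 * b * w 1 + w 3, b * d * w 0 + (a * b + d) * w 1 + b * w 2 + a * w 3 + w 4,
    d ^ 2 * w 0 + 2 * a * d * w 1 + 2 * d * w 2 + a ^ 2 * w 3 + 2 * a * w 4 + w 5] := by
  ext i
  fin_cases i <;> simp [uM, mulVec, dotProduct, Fin.sum_univ_succ] <;> ring

theorem uN_vec (a b d : F3) (w : Fin 6 → F3) : uM a b d *ᵥ w - w = ![0, b * w 0, d * w 0 + a * w 1,
    b ^ 2 * w 0 + 2 * b * w 1, b * d * w 0 + (a * b + d) * w 1 + b * w 2 + a * w 3,
    d ^ 2 * w 0 + 2 * a * d * w 1 + 2 * d * w 2 + a ^ 2 * w 3 + 2 * a * w 4] := by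
  ext i
  rw [Pi.sub_apply, uM_vec]
  fin_cases i <;> simp

/-- the vectors of `W` -/
def wv (x : F3 × F3 × F3) : Fin 6 → F3 := ![0, 0, 0, x.1, x.2.1, x.2.2]

/-- the vector `c` -/
def vc : Fin 6 → F3 := ![1, 0, 0, 0, 0, 0]

/-- the eight squares -/
def O1 : Finset (F3 × F3 × F3) :=
  {(0, 0, 1), (0, 0, -1), (1, 0, 0), (1, 1, 1), (1, -1, 1), (-1, 0, 0), (-1, -1, -1), (-1, 1, -1)}

theorem wv_inj : Function.Injective wv := fun x y h =>
  Prod.ext (congrFun h 3) (Prod.ext (congrFun h 4) (congrFun h 5))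

theorem O1_or : ∀ x ∈ O1, ∀ s t : F3, s ≠ 0 → wv x = vz ∨ wv x = -vz ∨
    ∃ a, wv x = wv (s, s * t + a * s, s * (t + a) ^ 2) ∨ wv x = -wv (s, s * t + a * s, s * (t + a) ^ 2) := by
  decide

theorem jobCt : JobCt := by
  intro X _ _ ρ j H se hz ⟨g, b, d, hb, hg⟩ ⟨g', a', d', ha, hg'⟩
  classical
  have act : ∀ x y v, ρ (x * y) *ᵥ v = ρ x *ᵥ (ρ y *ᵥ v) := fun x y v => by rw [map_mul, mulVec_mulVec]
  have inv : ∀ x v, ρ x⁻¹ *ᵥ (ρ x *ᵥ v) = v := fun x v => by rw [← act, inv_mul_cancel, map_one, one_mulVec]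
  have inv' : ∀ x v, ρ x *ᵥ (ρ x⁻¹ *ᵥ v) = v := fun x v => by rw [← act, mul_inv_cancel, map_one, one_mulVec]
  have jm : ∀ a b d A B D, j a b d * j A B D = j (a + A) (b + B) (d + D + a * B) := fun a b d A B D =>
    se.inj (by rw [map_mul, se.rj, se.rj, se.rj, uM_mul])
  let S : (Fin 6 → F3) → Prop := fun v => ∃ h ∈ H, ρ h *ᵥ vz = v ∨ ρ h *ᵥ vz = -v
  have Sneg : ∀ v, S v → S (-v) := fun v ⟨h, hh, e⟩ => ⟨h, hh, by rw [neg_neg]; exact e.symm⟩
  have Sact : ∀ h ∈ H, ∀ v, S v → S (ρ h *ᵥ v) := fun h hh v ⟨k, hk, e⟩ =>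
    ⟨h * k, mul_mem hh hk, by
      rw [act]
      exact e.imp (fun e => by rw [e]) fun e => by rw [e, mulVec_neg]⟩
  have Sz : S vz := ⟨1, one_mem _, Or.inl (by rw [map_one, one_mulVec])⟩
  have Su : ∀ a b d v, S v → S (uM a b d *ᵥ v) := fun a b d v h => se.rj a b d ▸ Sact _ (se.le a b d) v h
  have key : ∀ y v, S v → S (ρ y *ᵥ v) → y ∈ H := by
    rintro y v ⟨h, hh, e⟩ ⟨k, hk, e'⟩
    have : k⁻¹ * (y * h) ∈ H := hz _ (by
      rw [act, act]
      rcases e with e | e <;> rcases e' with e' | e'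
      · left; rw [e, ← e', inv]
      · right; rw [e, ← neg_neg (ρ y *ᵥ v), ← e', mulVec_neg, inv]
      · right; rw [e, mulVec_neg, ← e', mulVec_neg, inv]
      · left; rw [e, mulVec_neg, ← e', inv])
    exact (mul_mem_cancel_right hh).1 ((mul_mem_cancel_left (inv_mem hk)).1 this)
  have cj : ∀ x s s' v, x * s * x⁻¹ = s' → ρ x *ᵥ (ρ s *ᵥ v) = ρ s' *ᵥ (ρ x *ᵥ v) := fun x s s' v e => by
    rw [← e, act, act, inv]
  have inH : ∀ x s', x * j 0 0 1 * x⁻¹ = s' → s' ∈ H → x ∈ H := fun x s' e h => by_contra fun k =>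
    one_ne_zero (se.ti x k 0 0 1 (e ▸ h)).2.2
  -- the eight vectors in `W`
  have gH := inH g _ hg (se.le _ _ _)
  have S1 : ∀ x ∈ O1, S (wv x) := by
    have e1 : vz = -(uM 0 0 1 *ᵥ (uM 0 0 1 *ᵥ vc - vc) - (uM 0 0 1 *ᵥ vc - vc)) := by decide
    have e2 : ρ g *ᵥ vz = wv ((ρ g *ᵥ vc) 0, (ρ g *ᵥ vc) 0 * (b * d), (ρ g *ᵥ vc) 0 * (b * d) ^ 2) := by
      rw [e1, mulVec_neg, mulVec_sub, ← se.rj, cj g _ _ _ hg, mulVec_sub, cj g _ _ _ hg, se.rj]
      generalize ρ g *ᵥ vc = w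
      have b2 : b ^ 2 = 1 := by rw [sq, sq_one hb]
      rw [uN_vec 0 b d w, uN_vec]
      ext i
      fin_cases i <;> simp [wv]
      · linear_combination (-(w 0)) * three + (-2 * w 0) * b2
      · linear_combination (-(w 0 * b * d)) * three
      · linear_combination (-(w 0 * d ^ 2)) * three - (w 0 * d ^ 2) * b2
    generalize (ρ g *ᵥ vc) 0 = s at e2
    have s0 : s ≠ 0 := by
      rintro rfl
      have := inv g vz
      rw [e2, show wv (0, 0 * (b * d), 0 * (b * d) ^ 2) = 0 by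
        ext i; fin_cases i <;> simp [wv], mulVec_zero] at this
      exact absurd this (by decide)
    have s1 : ∀ a, S (wv (s, s * (b * d) + a * s, s * (b * d + a) ^ 2)) := fun a => by
      have := Su a 0 0 _ (e2 ▸ Sact g gH _ Sz)
      convert this using 1
      ext i
      fin_cases i <;> simp [uM_vec, wv] <;> ring
    intro x hx
    rcases O1_or x hx s (b * d) s0 with e | e | ⟨a, e | e⟩ <;> rw [e]
    exacts [Sz, Sneg _ Sz, s1 a, Sneg _ (s1 a)]
  -- the eighteen vectors outside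
  have g'H := inH g' _ hg' (se.le _ _ _)
  obtain ⟨v, Sv, v0⟩ : ∃ v, S v ∧ v 0 ≠ 0 := by
    refine ⟨ρ g' *ᵥ wv (1, 0, 0), Sact _ g'H _ (S1 _ (by decide)), fun v0 => ?_⟩
    have f := cj g' _ _ (wv (1, 0, 0)) hg'
    rw [se.rj, se.rj, show uM 0 0 1 *ᵥ wv (1, 0, 0) = wv (1, 0, 0) by decide] at f
    have k : ∀ y, ρ g' *ᵥ wv (1, 0, 0) ≠ uM a' 0 d' *ᵥ y - y := fun y e => by
      obtain ⟨y, rfl⟩ : ∃ y', y = ρ g' *ᵥ y' := ⟨_, (inv' g' y).symm⟩
      rw [← se.rj, ← cj g' _ _ _ hg', ← mulVec_sub] at e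
      have := congrFun (congrArg (ρ g'⁻¹ *ᵥ ·) e) 3
      simp only [inv, se.rj] at this
      simp [uM_vec, wv] at this
    generalize ρ g' *ᵥ wv (1, 0, 0) = v at v0 f k
    have a2 : a' ^ 2 = 1 := by rw [sq, sq_one ha]
    have f2 := congrFun f 2
    have f4 := congrFun f 4
    simp [uM_vec, v0] at f2 f4
    have v1 : v 1 = 0 := f2.resolve_left ha
    have v3 : v 3 = 0 := by simpa [v1, ha] using f4
    refine k ![0, a' * v 2, 0, a' * (v 4 - d' * a' * v 2), -a' * (v 5 - 2 * d' * v 2 - a' * (v 4 - d' * a' * v 2)), 0] ?_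
    ext i
    fin_cases i <;> simp [uM_vec, v0, v1, v3]
    · linear_combination (-(v 2)) * a2
    · linear_combination (-(v 4 - d' * a' * v 2)) * a2
    · linear_combination (v 5 - 2 * d' * v 2 - a' * (v 4 - d' * a' * v 2)) * three - (2 * d' * v 2 +
        a' * (v 4 - d' * a' * v 2) - 2 * (v 5 - 2 * d' * v 2 - a' * (v 4 - d' * a' * v 2))) * a2
  let O2 : Finset (Fin 6 → F3) := Finset.univ.image fun x : F3ˣ × F3 × F3 => (x.1 : F3) • (uM 0 x.2.1 x.2.2 *ᵥ v)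
  have c2 : O2.card = 18 := by
    rw [Finset.card_image_of_injective]
    · rfl
    rintro ⟨s, x, y⟩ ⟨s', x', y'⟩ e
    have e0 := congrFun e 0
    have e1 := congrFun e 1
    have e2 := congrFun e 2
    simp [uM_vec, v0] at e0
    obtain rfl := Units.ext e0
    simp [uM_vec, v0] at e1 e2
    rw [e1, e2]
  let O : Finset (Fin 6 → F3) := O1.image wv ∪ O2
  have cO : O.card = 26 := by
    rw [Finset.card_union_of_disjoint, Finset.card_image_of_injective _ wv_inj, c2]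
    · rfl
    refine Finset.disjoint_left.2 fun w h1 h2 => ?_
    obtain ⟨x, -, rfl⟩ := Finset.mem_image.1 h1
    obtain ⟨⟨s, y, z⟩, -, e⟩ := Finset.mem_image.1 h2
    have := congrFun e 0
    simp [uM_vec, wv, v0] at this
  have SO : ∀ w ∈ O, S w := fun w hw => by
    rcases Finset.mem_union.1 hw with h | h
    · obtain ⟨x, hx, rfl⟩ := Finset.mem_image.1 h
      exact S1 x hx
    · obtain ⟨⟨s, y, z⟩, -, rfl⟩ := Finset.mem_image.1 h
      rcases utri s with rfl | rfl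
      · simpa using Su 0 y z v Sv
      · simpa using Sneg _ (Su 0 y z v Sv)
  -- the count
  obtain ⟨g0, h0⟩ : ∃ x, x ∉ H := by simpa [Subgroup.eq_top_iff'] using se.ne
  have reg : ∀ o o', S o → S o' → ∀ a b d, uM a b d *ᵥ (ρ g0 *ᵥ o) = ρ g0 *ᵥ o' → a = 0 ∧ b = 0 ∧ d = 0 :=
    fun o o' ho ho' a b d e => se.ti g0⁻¹ (by simpa using h0) a b d (key _ o ho (by
      rw [act, act, inv_inv, se.rj, e, inv]; exact ho'))
  have u0 : uM 0 0 0 = 1 := by decide
  have reg' : ∀ o o', S o → S o' → ∀ a b d A B D, uM a b d *ᵥ (ρ g0 *ᵥ o) = uM A B D *ᵥ (ρ g0 *ᵥ o') →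
      a = A ∧ b = B ∧ d = D := fun o o' ho ho' a b d A B D e => by
    have e' := congrArg (uM (-A) (-B) (-D + A * B) *ᵥ ·) e
    simp only [mulVec_mulVec (ρ g0 *ᵥ _), uM_mul] at e'
    rw [show -A + A = 0 by ring, show -B + B = 0 by ring, show -D + A * B + D + -A * B = 0 by ring, u0,
      one_mulVec] at e'
    obtain ⟨h1, h2, h3⟩ := reg o o' ho ho' _ _ _ e'
    obtain rfl : a = A := by linear_combination h1
    obtain rfl : b = B := by linear_combination h2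
    exact ⟨rfl, rfl, by linear_combination h3⟩
  let I : Finset (Fin 6 → F3) := ((Finset.univ : Finset (F3 × F3 × F3)) ×ˢ O).image
    fun x => uM x.1.1 x.1.2.1 x.1.2.2 *ᵥ (ρ g0 *ᵥ x.2)
  have cI : I.card = 702 := by
    rw [Finset.card_image_of_injOn, Finset.card_product, cO]
    · rfl
    rintro ⟨⟨a, b, d⟩, o⟩ h ⟨⟨A, B, D⟩, o'⟩ h' e
    obtain ⟨rfl, rfl, rfl⟩ := reg' o o' (SO _ (Finset.mem_product.1 h).2) (SO _ (Finset.mem_product.1 h').2)
      _ _ _ _ _ _ e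
    have e' : ρ (j a b d) *ᵥ (ρ g0 *ᵥ o) = ρ (j a b d) *ᵥ (ρ g0 *ᵥ o') := by rw [se.rj]; exact e
    have := congrArg (fun w => ρ g0⁻¹ *ᵥ (ρ (j a b d)⁻¹ *ᵥ w)) e'
    simp only [inv] at this
    rw [this]
  let J : Finset (Fin 6 → F3) := insert vc (Finset.univ.image wv)
  have cJ : J.card = 28 := by
    rw [Finset.card_insert_of_notMem, Finset.card_image_of_injective _ wv_inj]
    · rfl
    intro h
    obtain ⟨x, -, e⟩ := Finset.mem_image.1 h
    have := congrFun e 0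
    simp [wv, vc] at this
  have dj : Disjoint I J := Finset.disjoint_left.2 fun w h1 h2 => by
    obtain ⟨⟨⟨a, b, d⟩, o⟩, h, e⟩ := Finset.mem_image.1 h1
    have ho := SO _ (Finset.mem_product.1 h).2
    have k : ∀ A B D, uM A B D *ᵥ w = w → A + a = a ∧ B + b = b ∧ D + d + A * b = d := fun A B D f =>
      reg' o o ho ho _ _ _ _ _ _ (by rw [← uM_mul, ← mulVec_mulVec]; exact (e ▸ f :))
    rcases Finset.mem_insert.1 h2 with rfl | h2
    · simpa using (k 1 0 0 (by decide)).1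
    · obtain ⟨x, -, rfl⟩ := Finset.mem_image.1 h2
      simpa using (k 0 1 0 (by ext i; fin_cases i <;> simp [uM_vec, wv])).2.1
  have := Finset.card_le_univ (I ∪ J)
  rw [Finset.card_union_of_disjoint dj, cI, cJ] at this
  simp at this

end H96.C3Ct
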