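import Cfsg.Agent.H53.DGSpec2

/-! Tower DG (row S4984): the prime pairs for type `²D` and the three small groups (jobs FM, FS). -/

set_option autoImplicit false
set_option linter.unusedSectionVars false

namespace H96.DGF

open Cfsg H53.DG

/-- the power of `r` that has to divide a degree of the orthogonal group -/
def W (q r : ℕ) : ℕ := if r = 2 then (if Even q then 4 else 8) else r

/-- the degree `D` of the orthogonal group descends -/
def Good (G : Type) [Group G] (q D : ℕ) : Prop := ∃ d ∈ charDegrees G, D ∣ 4 * d ∧ (Even q → D ∣ 2 * d)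

theorem single {q D d r : ℕ} (hr : r.Prime) (h : W q r ∣ D) (h4 : D ∣ 4 * d) (h2 : Even q → D ∣ 2 * d) :
    r ∣ d := by
  unfold W at h
  split_ifs at h with e e'
  · have := h.trans (h2 e'); subst e; omega
  · have := h.trans h4; subst e; omega
  · exact ((Nat.coprime_primes hr Nat.prime_two).2 e).pow_right 2 |>.dvd_of_dvd_mul_left (h.trans h4)

theorem Good.pair {G : Type} [Group G] {q D r s : ℕ} (g : Good G q D) (hr : r.Prime) (hs : s.Prime) (rs : r ≠ s)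
    (h : W q r ∣ D) (h' : W q s ∣ D) : ∃ d ∈ charDegrees G, r * s ∣ d :=
  let ⟨d, hd, h4, h2⟩ := g
  ⟨d, hd, ((Nat.coprime_primes hr hs).2 rs).mul_dvd_of_dvd_of_dvd (single hr h h4 h2) (single hs h' h4 h2)⟩

theorem w_p {q D r : ℕ} (h : r ∣ q) (hD : q ^ 2 ∣ D) : W q r ∣ D := by
  unfold W
  split_ifs with e e'
  · subst e
    exact (pow_dvd_pow_of_dvd h 2).trans hD
  · exact absurd (even_iff_two_dvd.2 (e ▸ h)) e'
  · exact h.trans ((dvd_pow_self q two_ne_zero).trans hD)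

theorem w_odd {q D r : ℕ} (h : r ≠ 2) (hD : r ∣ D) : W q r ∣ D := by rwa [W, if_neg h]

theorem w_n {q D r : ℕ} (h : ¬ r ∣ q) (h2 : q ^ 2 - 1 ∣ D) (hD : r ∣ D) : W q r ∣ D := by
  unfold W
  split_ifs with e e'
  · exact absurd (e ▸ even_iff_two_dvd.1 e') h
  · exact (Nat.eight_dvd_sq_sub_one_of_odd (Nat.not_even_iff_odd.1 e')).trans h2
  · exact hD

theorem sq_split (q j : ℕ) : q ^ (2 * j) - 1 = (q ^ j + 1) * (q ^ j - 1) := by
  rw [← Nat.sq_sub_sq, one_pow, ← pow_mul, mul_comm]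

theorem d1 (q j : ℕ) : q ^ j - 1 ∣ q ^ (2 * j) - 1 := sq_split q j ▸ dvd_mul_left _ _
theorem d2 (q j : ℕ) : q ^ j + 1 ∣ q ^ (2 * j) - 1 := sq_split q j ▸ dvd_mul_right _ _
theorem d3 (q j : ℕ) : q ^ j + 1 ∣ q ^ (j * 3) + 1 := by
  simpa [pow_mul] using Odd.nat_add_dvd_pow_add_pow (q ^ j) 1 (n := 3) (by decide)

theorem cases_N {q n r : ℕ} (hr : r.Prime) (hq : ¬ r ∣ q) (h : r ∣ q * (q ^ (n + 1) + 1) * NN q n) :
    (∃ j, 1 ≤ j ∧ j ≤ n ∧ r ∣ q ^ j - 1) ∨ ∃ j, 1 ≤ j ∧ j ≤ n + 1 ∧ r ∣ q ^ j + 1 := by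
  rcases (Nat.Prime.dvd_mul hr).1 h with h | h
  · exact Or.inr ⟨n + 1, by omega, le_rfl, ((Nat.Prime.dvd_mul hr).1 h).resolve_left hq⟩
  · obtain ⟨j, hj, h⟩ := (Prime.dvd_finsetProd_iff hr.prime _).1 h
    rw [Finset.mem_Icc] at hj
    rw [sq_split] at h
    rcases (Nat.Prime.dvd_mul hr).1 h with h | h
    · exact Or.inr ⟨j, hj.1, by omega, h⟩
    · exact Or.inl ⟨j, hj.1, hj.2, h⟩

/-- the factors of a degree of the generic family -/
structure Fa (q m k d D : ℕ) : Prop where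
  p : d ∣ D
  c : ∀ i j, m < i → i ≤ m + k → i ≠ k → m + 1 < j → j ≤ m + k + 1 → (q ^ j + 1) * (q ^ i - 1) ∣ D
  b : ∀ j, m + 1 < j → j ≤ m + k + 1 → q ^ j + 1 ∣ D

theorem Fa.a {q m k d D : ℕ} (h : Fa q m k d D) (i : ℕ) (h1 : m < i) (h2 : i ≤ m + k) (h3 : i ≠ k) :
    q ^ i - 1 ∣ D := (dvd_mul_left _ _).trans (h.c i (i + 1) h1 h2 h3 (by omega) (by omega))

theorem split {q m k d D : ℕ} (hq : 2 ≤ q) (hm : m < k)
    (h : D * (q ^ k - 1) = d * ∏ j ∈ Finset.Ioc m (m + k), sv q (q ^ 2) j) : Fa q m k d D := by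
  have p : 0 < q ^ k - 1 := Nat.sub_pos_of_lt (Nat.one_lt_pow (by omega) hq)
  simp only [sv] at h
  rw [Finset.prod_mul_distrib, ← Finset.prod_erase_mul _ _ (Finset.mem_Ioc.2 ⟨hm, Nat.le_add_left k m⟩),
    mul_right_comm, ← mul_assoc] at h
  obtain rfl := Nat.eq_of_mul_eq_mul_right p h
  have b : ∀ j, m + 1 < j → j ≤ m + k + 1 →
      q ^ j + 1 ∣ ∏ j ∈ Finset.Ioc m (m + k), (q ^ (j - 1) * q ^ 2 + 1) := fun j h1 h2 => by
    have := Finset.dvd_prod_of_mem (fun j => q ^ (j - 1) * q ^ 2 + 1)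
      (Finset.mem_Ioc.2 (show m < j - 1 ∧ j - 1 ≤ m + k by omega))
    rwa [← pow_add, show j - 1 - 1 + 2 = j by omega] at this
  refine ⟨dvd_mul_right _ _, fun i j h1 h2 h3 h4 h5 => Dvd.dvd.mul_left ?_ _,
    fun j h1 h2 => Dvd.dvd.mul_left (Dvd.dvd.mul_left (b j h1 h2) _) _⟩
  rw [mul_comm]
  exact mul_dvd_mul (Finset.dvd_prod_of_mem (fun j => q ^ j - 1)
    (Finset.mem_erase.2 ⟨h3, Finset.mem_Ioc.2 ⟨h1, h2⟩⟩)) (b j h4 h5)

theorem cube_split {q : ℕ} (hq : 1 ≤ q) : q ^ 3 - 1 = (q - 1) * (q ^ 2 + q + 1) := by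
  obtain ⟨t, rfl⟩ : ∃ t, q = t + 1 := ⟨q - 1, by omega⟩
  rw [Nat.add_sub_cancel, Nat.sub_eq_of_eq_add]
  ring

theorem d0 (q : ℕ) : q ^ 1 - 1 ∣ q ^ 2 - 1 := d1 q 1
theorem d0' (q : ℕ) : q ^ 1 + 1 ∣ q ^ 2 - 1 := d2 q 1

section
variable {F : Type} [Field F] [Fintype F] [DecidableEq F] {a b : F} (h : An2 a b)

local notation "q" => Fintype.card F

theorem good (res : ARes) {r D : ℕ} (hr : 3 ≤ r) (hD : ((two h).ext r).Deg D) : Good ((two h).ext r).PO q D :=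
  (res F _ (two h) (two_an h) rfl r hr).1 D (Or.inl hD)

theorem good4 (res : ARes) (bo : ABO) {D : ℕ} (hD : ((two h).ext 3).Deg' D) : Good ((two h).ext 3).PO q D := by
  rcases Nat.even_or_odd q with e | e
  · obtain ⟨χ, h1, h2⟩ := hD
    have : (2 : F) = 0 := by
      have := ringChar.charP F
      rw [FiniteField.even_card_iff_char_two.2 (Nat.even_iff.1 e)] at this
      exact CharTwo.two_eq_zero
    refine good h res le_rfl ⟨χ, h1, h2, congrArg χ (Subtype.ext (LinearEquiv.ext fun v => ?_))⟩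
    exact neg_eq_of_add_eq_zero_left (show v + v = 0 by rw [← two_smul F, this, zero_smul])
  · refine (res F _ (two h) (two_an h) rfl 3 le_rfl).1 D (Or.inr ⟨hD, ((bo F).2.2 a b h 4 le_rfl).2.1 ?_⟩)
    have := Nat.odd_iff.1 e
    rcases (by omega : q % 4 = 1 ∨ q % 4 = 3) with e | e <;> simp [Nat.pow_mod, e]

theorem st (r2 : AR2) : ((two h).ext 1).PS (q ^ 2) := by
  have := r2 F _ (two h) (two_an h)
  rw [two_a] at this
  exact this (Nat.one_lt_pow two_ne_zero Fintype.one_lt_card)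

theorem gen' (gen : AGen) {m k d : ℕ} (hm : m < k) (h2 : ¬ (q = 2 ∧ k ≤ 2)) (h3 : k ≠ 1)
    (hd : d = 1 ∨ ((two h).ext m).PS d) : ∃ D, Fa q m k d D ∧ ((two h).ext (m + k)).Deg' D ∧
      (3 ≤ k → ((two h).ext (m + k)).Deg D) := by
  obtain ⟨D, e, h1, h1'⟩ := gen F _ (two h) (two_an h) m k d (by omega) h2 (fun e => h3 e.2) hd
  rw [two_a] at e
  exact ⟨D, split Fintype.one_lt_card hm e, h1, fun e => h1' (Or.inl e)⟩

theorem four (gen : AGen) (r2 : AR2) (res : ARes) (bo : ABO) (hq : q ≠ 2) {D : ℕ} (hD : ((two h).ext 3).Deg' D)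
    (cD : ∀ r : ℕ, r.Prime → r ∣ q ∨ (r ≠ 2 ∧ r ∣ q ^ 2 + 1) ∨ r ∣ q ^ 2 + q + 1 → W q r ∣ D) :
    Full ((two h).ext 3).PO (q * (q ^ 4 + 1) * NN q 3) := by
  obtain ⟨D1, f1, e1, -⟩ := gen' h gen (m := 0) (k := 3) (by omega) (by omega) (by omega) (Or.inl rfl)
  obtain ⟨D2, f2, e2, -⟩ := gen' h gen (m := 1) (k := 2) (by omega) (by omega) (by omega) (Or.inr (st h r2))
  have g1 := good4 h res bo e1
  have g2 := good4 h res bo e2
  have g3 := good4 h res bo hD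
  have s1 := f1.a 2 (by omega) (by omega) (by omega)
  have s2 : q ^ 2 - 1 ∣ D2 := (Nat.pow_sub_one_dvd_pow_sub_one q (by decide : 2 ∣ 2 * 3)).trans
    (sq_split q 3 ▸ f2.c 3 3 (by omega) (by omega) (by omega) (by omega) (by omega))
  have cl : ∀ r : ℕ, r.Prime → r ∣ q * (q ^ 4 + 1) * NN q 3 →
      (W q r ∣ D1 ∧ W q r ∣ D2) ∨ (W q r ∣ D1 ∧ W q r ∣ D) ∨ (W q r ∣ D2 ∧ W q r ∣ D) := fun r hr e => by
    by_cases p : r ∣ q
    · exact Or.inr (Or.inr ⟨w_p p f2.p, cD r hr (Or.inl p)⟩)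
    have z : r ∣ q ^ 2 - 1 → W q r ∣ D1 ∧ W q r ∣ D2 := fun e => ⟨w_n p s1 (e.trans s1), w_n p s2 (e.trans s2)⟩
    rcases cases_N hr p e with ⟨j, j1, j2, e⟩ | ⟨j, j1, j2, e⟩ <;> interval_cases j
    · exact Or.inl (z (e.trans (d0 q)))
    · exact Or.inl (z e)
    · rcases (Nat.Prime.dvd_mul hr).1 (cube_split (Fintype.card_pos (α := F)) ▸ e) with e' | e'
      · exact Or.inl (z (e'.trans (by simpa using d0 q)))
      · exact Or.inr (Or.inr ⟨w_n p s2 (e.trans (f2.a 3 (by omega) (by omega) (by omega))),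
          cD r hr (Or.inr (Or.inr e'))⟩)
    · exact Or.inl (z (e.trans (d0' q)))
    · by_cases r2 : r = 2
      · subst r2
        exact Or.inl (z ((by decide : 2 ∣ 8).trans (Nat.eight_dvd_sq_sub_one_of_odd
          (Nat.not_even_iff_odd.1 fun e => p (even_iff_two_dvd.1 e)))))
      · exact Or.inr (Or.inl ⟨w_n p s1 (e.trans (f1.b 2 (by omega) (by omega))),
          cD r hr (Or.inr (Or.inl ⟨r2, e⟩))⟩)
    · exact Or.inl ⟨w_n p s1 (e.trans (f1.b 3 (by omega) (by omega))),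
        w_n p s2 (e.trans (f2.b 3 (by omega) (by omega)))⟩
    · exact Or.inl ⟨w_n p s1 (e.trans (f1.b 4 (by omega) (by omega))),
        w_n p s2 (e.trans (f2.b 4 (by omega) (by omega)))⟩
  intro r s hr hs rs h1 h2
  rcases cl r hr h1 with ⟨x, y⟩ | ⟨x, y⟩ | ⟨x, y⟩ <;> rcases cl s hs h2 with ⟨x', y'⟩ | ⟨x', y'⟩ | ⟨x', y'⟩
  exacts [g1.pair hr hs rs x x', g1.pair hr hs rs x x', g2.pair hr hs rs y x', g1.pair hr hs rs x x',
    g1.pair hr hs rs x x', g3.pair hr hs rs y y', g2.pair hr hs rs x y', g3.pair hr hs rs y y',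
    g2.pair hr hs rs x x']

theorem four' (gen : AGen) (r2 : AR2) (ps : APS) (res : ARes) (bo : ABO) (hq : 4 ≤ q) :
    Full ((two h).ext 3).PO (q * (q ^ 4 + 1) * NN q 3) := by
  obtain ⟨⟨d, hd, -, e⟩, -⟩ := ps F _ (two h) (two_an h) 2 le_rfl
  obtain ⟨D, e', hD, -⟩ := gen F _ (two h) (two_an h) 2 1 d le_rfl (by omega) (by omega) (Or.inr hd)
  rw [two_a] at e e'
  have e1 : d = q ^ 2 * (q ^ 2 + 1) := by
    refine Nat.eq_of_mul_eq_mul_right (Nat.mul_pos (by omega : 0 < q - 1) (by omega : 0 < q + q ^ 2)) (e.trans ?_)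
    rw [show q ^ 2 - 1 = (q + 1) * (q - 1) by simpa using sq_split q 1]
    ring
  have e2 : D = q ^ 2 * ((q ^ 2 + 1) * ((q ^ 2 + q + 1) * (q ^ 4 + 1))) := by
    refine Nat.eq_of_mul_eq_mul_right (by simp; omega : 0 < q ^ 1 - 1) (e'.trans ?_)
    rw [e1, show Finset.Ioc 2 (2 + 1) = {3} by decide, Finset.prod_singleton, sv, cube_split Fintype.card_pos]
    ring
  refine four h gen r2 res bo (by omega) hD fun r hr c => ?_
  rcases c with c | ⟨c, c'⟩ | c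
  · exact w_p c (e2 ▸ dvd_mul_right _ _)
  · exact w_odd c (e2 ▸ (c'.mul_right _).mul_left _)
  · refine w_odd ?_ (e2 ▸ ((c.mul_right _).mul_left _).mul_left _)
    rintro rfl
    have := Nat.even_mul_succ_self q
    rw [show q ^ 2 + q + 1 = q * (q + 1) + 1 by ring] at c
    exact Nat.not_even_iff_odd.2 this.add_one (even_iff_two_dvd.2 c)

theorem big (gen : AGen) (r2 : AR2) (res : ARes) {n : ℕ} (hn : 4 ≤ n) :
    Full ((two h).ext n).PO (q * (q ^ (n + 1) + 1) * NN q n) := by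
  obtain ⟨k, rfl⟩ : ∃ k, n = 1 + k := ⟨n - 1, by omega⟩
  obtain ⟨D2, f2, -, e2⟩ := gen' h gen (m := 1) (k := k) (by omega) (by omega) (by omega) (Or.inr (st h r2))
  have g2 := good h res (by omega) (e2 (by omega))
  have s2 := f2.a 2 (by omega) (by omega) (by omega)
  have q2 : q ^ 2 + 1 ∣ D2 := by
    by_cases k4 : k = 4
    · exact (d3 q 2).trans (f2.b 6 (by omega) (by omega))
    · exact (d2 q 2).trans (f2.a 4 (by omega) (by omega) (by omega))
  have pl : ∀ j, 1 ≤ j → j ≤ 1 + k + 1 → q ^ j + 1 ∣ D2 := fun j j1 j2 => by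
    rcases (by omega : j = 1 ∨ j = 2 ∨ 2 < j) with rfl | rfl | e
    exacts [(d0' q).trans s2, q2, f2.b j e j2]
  have cl : ∀ r : ℕ, r.Prime → r ∣ q * (q ^ (1 + k + 1) + 1) * NN q (1 + k) →
      W q r ∣ D2 ∨ (Odd k ∧ ¬ r ∣ q ∧ ¬ r ∣ q ^ 2 - 1 ∧ r ∣ q ^ k - 1) := fun r hr e => by
    by_cases p : r ∣ q
    · exact Or.inl (w_p p f2.p)
    by_cases p2 : r ∣ q ^ 2 - 1
    · exact Or.inl (w_n p s2 (p2.trans s2))
    have cN := cases_N hr p e
    clear e
    rcases cN with ⟨j, j1, j2, e⟩ | ⟨j, j1, j2, e⟩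
    · have j0 : j ≠ 1 := by
        rintro rfl
        exact p2 (e.trans (d0 q))
      by_cases jk : j = k
      · subst jk
        rcases Nat.even_or_odd' j with ⟨i, rfl | rfl⟩
        · rw [sq_split] at e
          rcases (Nat.Prime.dvd_mul hr).1 e with e | e
          · exact Or.inl (w_n p s2 (e.trans (pl i (by omega) (by omega))))
          · exact Or.inl (w_n p s2 (e.trans (f2.a i (by omega) (by omega) (by omega))))
        · exact Or.inr ⟨⟨i, rfl⟩, p, p2, e⟩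
      · exact Or.inl (w_n p s2 (e.trans (f2.a j (by omega) j2 jk)))
    · exact Or.inl (w_n p s2 (e.trans (pl j j1 j2)))
  have key : ∀ r s : ℕ, r.Prime → s.Prime → r ≠ s → r ∣ q * (q ^ (1 + k + 1) + 1) * NN q (1 + k) →
      Odd k ∧ ¬ s ∣ q ∧ ¬ s ∣ q ^ 2 - 1 ∧ s ∣ q ^ k - 1 →
      ∃ d ∈ charDegrees ((two h).ext (1 + k)).PO, r * s ∣ d := by
    rintro r s hr hs rs e ⟨⟨i, hi⟩, p, p2, e'⟩
    by_cases p' : r ∣ q
    · obtain ⟨-, -, d, hd, e⟩ := res F _ (two h) (two_an h) rfl (1 + k) (by omega)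
      rw [two_a, Nat.add_sub_cancel_left] at e
      have e1 : d * (q ^ 2 - 1) = q * ((q ^ k - 1) * (q ^ k * q ^ 2 + 1)) := by
        refine Nat.eq_of_mul_eq_mul_left (Fintype.card_pos (α := F)) ?_
        rw [show q ^ 2 - 1 = (q + 1) * (q - 1) by simpa using sq_split q 1]
        linear_combination e
      refine ⟨d, hd, ((Nat.coprime_primes hr hs).2 rs).mul_dvd_of_dvd_of_dvd ?_ ?_⟩
      · refine ((Nat.Prime.dvd_mul hr).1 (e1 ▸ p'.mul_right _)).resolve_right fun z => hr.one_lt.ne' ?_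
        have := Nat.dvd_sub (p'.trans (dvd_pow_self q two_ne_zero)) z
        rw [Nat.sub_sub_self (Nat.one_le_pow _ _ Fintype.card_pos)] at this
        exact Nat.dvd_one.1 this
      · exact ((Nat.Prime.dvd_mul hs).1 (e1 ▸ (e'.mul_right _).mul_left _)).resolve_right p2
    · obtain ⟨D1, f1, -, e1⟩ := gen' h gen (m := 0) (k := 1 + k) (by omega) (by omega) (by omega) (Or.inl rfl)
      rw [zero_add] at e1
      have g1 := good h res (by omega) (e1 (by omega))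
      have s1 := f1.a 2 (by omega) (by omega) (by omega)
      refine g1.pair hr hs rs (w_n p' s1 ?_) (w_n p s1 (e'.trans (f1.a k (by omega) (by omega) (by omega))))
      rcases cases_N hr p' e with ⟨j, j1, j2, e⟩ | ⟨j, j1, j2, e⟩
      · by_cases jk : j = 1 + k
        · rw [jk, show 1 + k = 2 * (i + 1) by omega, sq_split] at e
          rcases (Nat.Prime.dvd_mul hr).1 e with e | e
          · exact e.trans (f1.b _ (by omega) (by omega))
          · exact e.trans (f1.a _ (by omega) (by omega) (by omega))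
        · exact e.trans (f1.a j (by omega) (by omega) jk)
      · rcases (by omega : j = 1 ∨ 1 < j) with rfl | j0
        · exact (e.trans (d0' q)).trans s1
        · exact e.trans (f1.b j (by omega) (by omega))
  intro r s hr hs rs h1 h2
  rcases cl r hr h1 with x | x
  · rcases cl s hs h2 with y | y
    · exact g2.pair hr hs rs x y
    · exact key r s hr hs rs h1 y
  · rw [mul_comm]
    exact key s r hs hr rs.symm h2 x

end

theorem jobFM (gen : AGen) (r2 : AR2) (ps : APS) (res : ARes) (bo : ABO) : AFM := by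
  intro F _ _ _ a b h n h4 hx
  obtain ⟨n, rfl⟩ : ∃ m, n = m + 1 := ⟨n - 1, by omega⟩
  change Full ((two h).ext n).PO (_ * NN _ n)
  rcases (by omega : n = 3 ∨ 4 ≤ n) with rfl | hn
  · exact four' h gen r2 ps res bo (by omega)
  · exact big h gen r2 res hn

theorem prime_cases {r : ℕ} (hr : r.Prime) {l : List ℕ} (hl : ∀ p ∈ l, p.Prime) {N k : ℕ} (h : r ∣ N)
    (hN : N ∣ l.prod ^ k) : r ∈ l := by
  obtain ⟨p, hp, e⟩ := (Prime.dvd_prod_iff hr.prime).1 (hr.dvd_of_dvd_pow (h.trans hN))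
  rwa [(Nat.prime_dvd_prime_iff_eq hr (hl p hp)).1 e]

theorem jobFS (gen : AGen) (r2 : AR2) (ps : APS) (res : ARes) (bo : ABO) (e6 : JobE6) (e7 : JobE7)
    (e8 : JobE8) : JobFS := by
  refine ⟨?_, fun a b h => ?_, fun a b h => ?_⟩
  · have gd : ∀ D, ((zero (ZMod 2) true).ext 5).Deg D → Good ((zero (ZMod 2) true).ext 5).PO 2 D := fun D hD => by
      simpa only [ZMod.card, Good] using (res (ZMod 2) _ _ (zero_an _ true) rfl 5 (by omega)).1 D (Or.inl hD)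
    obtain ⟨D1, a1, -, g1⟩ := gen (ZMod 2) _ _ (zero_an _ true) 1 4 1 (by omega) (by omega) (by omega) (Or.inl rfl)
    obtain ⟨-, d, hd, -, a0⟩ := ps (ZMod 2) _ _ (zero_an _ true) 2 le_rfl
    obtain ⟨D2, a2, -, g2⟩ := gen (ZMod 2) _ _ (zero_an _ true) 2 3 d (by omega) (by omega) (by omega) (Or.inr hd)
    obtain ⟨D3, g3, a3⟩ := e6
    rw [zero_a_true, ZMod.card] at a0 a1 a2
    rw [show ∏ j ∈ Finset.Ioc 1 (1 + 4), sv 2 1 j = 15 * 1494045 by decide] at a1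
    rw [show ∏ j ∈ Finset.Ioc 2 (2 + 3), sv 2 1 j = 7 * 355725 by decide] at a2
    obtain rfl : d = 4 := by omega
    obtain rfl : D1 = 1494045 := by omega
    obtain rfl : D2 = 1422900 := by omega
    have g1 := gd _ (g1 (by omega))
    have g2 := gd _ (g2 (by omega))
    have g3 := gd _ g3
    intro r s hr hs rs h1 h2
    have hl : ∀ p ∈ [2, 3, 5, 7, 17, 31], p.Prime := by decide
    have c1 := prime_cases hr hl h1 (k := 5) (by decide)
    have c2 := prime_cases hs hl h2 (k := 5) (by decide)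
    have : (W 2 r ∣ 1494045 ∧ W 2 s ∣ 1494045) ∨ (W 2 r ∣ 1422900 ∧ W 2 s ∣ 1422900) ∨ (W 2 r ∣ 28 ∧ W 2 s ∣ 28) :=
      (by decide : ∀ r ∈ [2, 3, 5, 7, 17, 31], ∀ s ∈ [2, 3, 5, 7, 17, 31], r ≠ s → (W 2 r ∣ 1494045 ∧
        W 2 s ∣ 1494045) ∨ (W 2 r ∣ 1422900 ∧ W 2 s ∣ 1422900) ∨ (W 2 r ∣ 28 ∧ W 2 s ∣ 28)) r c1 s c2 rs
    rcases this with ⟨x, y⟩ | ⟨x, y⟩ | ⟨x, y⟩
    exacts [g1.pair hr hs rs x y, g2.pair hr hs rs x y, g3.pair hr hs rs (x.trans a3) (y.trans a3)]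
  · obtain ⟨rfl, rfl⟩ : a = 1 ∧ b = 1 := by
      unfold An2 at h
      revert a b
      decide
    have gd : ∀ D, ((two h).ext 3).Deg D → Good ((two h).ext 3).PO 2 D := fun D hD => by
      simpa only [ZMod.card] using good h res le_rfl hD
    obtain ⟨D1, a1, -, g1⟩ := gen (ZMod 2) _ _ (two_an h) 0 3 1 (by omega) (by omega) (by omega) (Or.inl rfl)
    obtain ⟨-, ⟨d, hd, a0⟩, -⟩ := res (ZMod 2) _ _ (two_an h) rfl 3 le_rfl
    obtain ⟨D3, g3, a3⟩ := e8 h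
    rw [two_a, ZMod.card] at a0 a1
    rw [show ∏ j ∈ Finset.Ioc 0 (0 + 3), sv 2 (2 ^ 2) j = 7 * 2295 by decide] at a1
    obtain rfl : d = 84 := by omega
    obtain rfl : D1 = 2295 := by omega
    have g1 := gd _ (g1 (by omega))
    have g3 := gd _ g3
    intro r s hr hs rs h1 h2
    have hl : ∀ p ∈ [2, 3, 5, 7, 17], p.Prime := by decide
    have c1 := prime_cases hr hl h1 (k := 5) (by decide)
    have c2 := prime_cases hs hl h2 (k := 5) (by decide)
    have : (W 2 r ∣ 2295 ∧ W 2 s ∣ 2295) ∨ r * s ∣ 84 ∨ (W 2 r ∣ 4760 ∧ W 2 s ∣ 4760) :=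
      (by decide : ∀ r ∈ [2, 3, 5, 7, 17], ∀ s ∈ [2, 3, 5, 7, 17], r ≠ s →
        (W 2 r ∣ 2295 ∧ W 2 s ∣ 2295) ∨ r * s ∣ 84 ∨ (W 2 r ∣ 4760 ∧ W 2 s ∣ 4760)) r c1 s c2 rs
    rcases this with ⟨x, y⟩ | x | ⟨x, y⟩
    exacts [g1.pair hr hs rs x y, ⟨_, hd, x⟩, g3.pair hr hs rs (x.trans a3) (y.trans a3)]
  · obtain ⟨D, g, e⟩ := e7 a b h
    have := four h gen r2 res bo (by simp) g fun r hr c => by
      rw [ZMod.card] at c ⊢
      refine Dvd.dvd.trans ?_ e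
      rcases c with c | ⟨c', c⟩ | c
      · rw [(Nat.prime_dvd_prime_iff_eq hr Nat.prime_three).1 c]; decide
      · exact (by decide : ∀ r ∈ [2, 5], r ≠ 2 → W 3 r ∣ 195) r
          (prime_cases hr (by decide) c (k := 1) (by decide)) c'
      · rw [(Nat.prime_dvd_prime_iff_eq hr (by norm_num)).1 c]; decide
    simpa only [ZMod.card] using this

end H96.DGF
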