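import Cfsg.Agent.H53.DGSpec2
import Cfsg.Agent.H33.Ind
import Cfsg.Agent.H28.CharProd

/-! Tower DG (row S4984): the Mackey terms of the intermediate double cosets vanish (jobs M1, M2). -/

set_option autoImplicit false
set_option linter.unusedSectionVars false

namespace H96.DGM

open Cfsg H53.DG Matrix Module H28
open scoped ComplexConjugate

section abs

variable {G : Type} [Group G] (P : Subgroup G) (x : G)

/-- `P ∩ x P x⁻¹` -/
def HH : Subgroup G := P ⊓ P.comap (MulAut.conj x).symm.toMonoidHom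

/-- the inclusion -/
def i1 : HH P x →* P := Subgroup.inclusion inf_le_left

/-- the conjugation -/
def i2 : HH P x →* P :=
  ((MulAut.conj x).symm.toMonoidHom.comp (HH P x).subtype).codRestrict P fun g => g.2.2

variable {P x}

theorem mt_zero [Fintype G] (kz : JobKZ) {θ : P → ℂ} (hθ : IsCharacter P θ) (A : Subgroup (HH P x))
    (h : ∑ᶠ a : A, θ (i1 P x a) * conj (θ (i2 P x a)) = 0) : MT P θ x = 0 := by
  classical
  have := Fintype.ofFinite (HH P x)
  have k := kz (HH P x) (HH P x) (fun g => θ (i1 P x g) * conj (θ (i2 P x g))) (MonoidHom.id _) A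
    ((hθ.comp (i1 P x)).mul (hθ.comp (i2 P x)).conj) (fun a _ => ⟨a, rfl⟩) h 1
  rw [finsum_eq_sum_of_fintype] at k
  simp only [one_mul, MonoidHom.id_apply] at k
  rw [← k, ← H33.sum_ext0, MT]
  refine Finset.sum_congr rfl fun g _ => ?_
  by_cases h1 : g ∈ P
  · by_cases h2 : x⁻¹ * g * x ∈ P
    · rw [H33.ext0_of_mem _ _ h1, H33.ext0_of_mem _ _ h2, H33.ext0_of_mem (HH P x) _ ⟨h1, h2⟩]
      rfl
    · rw [H33.ext0_of_not_mem _ _ h2, H33.ext0_of_not_mem (HH P x) _ fun e => h2 e.2, map_zero, mul_zero]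
  · rw [H33.ext0_of_not_mem _ _ h1, H33.ext0_of_not_mem (HH P x) _ fun e => h1 e.1, zero_mul]

/-- The constituent of a permutation character. -/
theorem le_zero {A X : Type} [Group A] [Finite A] [MulAction G X] [Finite X] {χ : A → ℂ} (hχ : IsCharacter A χ)
    (β : A →* G) {τ τ' : G → ℂ} (hτ : IsCharacter G τ) (hτ' : IsCharacter G τ')
    (e : H30.fixChar G X = τ + τ')
    (h : ∀ p : X, ∑ᶠ a : (MulAction.stabilizer G p).comap β, χ a = 0) : ∑ᶠ a, χ a * conj (τ (β a)) = 0 := by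
  classical
  have := Fintype.ofFinite A
  have := Fintype.ofFinite X
  obtain ⟨n, hn⟩ := hχ.classInner_nat (hτ.comp β)
  obtain ⟨m, hm⟩ := hχ.classInner_nat (hτ'.comp β)
  have k : (Nat.card A : ℂ) * (n + m) = 0 := by
    rw [← hn, ← hm, ← classInner_add_right, card_mul_classInner]
    have : ∀ a, χ a * conj (((fun x => τ (β x)) + fun x => τ' (β x)) a) =
        ∑ p : X, if β a • p = p then χ a else 0 := fun a => by
      rw [show ((fun x => τ (β x)) + fun x => τ' (β x)) a = H30.fixChar G X (β a) from (congrFun e _).symm,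
        H30.conj_fixChar, H30.fixChar_eq_sum, Finset.mul_sum]
      simp
    rw [Finset.sum_congr rfl fun a _ => this a, Finset.sum_comm]
    refine Finset.sum_eq_zero fun p _ => ?_
    rw [← Finset.sum_filter, ← h p, finsum_eq_sum_of_fintype]
    exact Finset.sum_subtype _ (fun a => by simp) _
  have k' : n + m = 0 := by exact_mod_cast (mul_eq_zero.1 k).resolve_left (card_ne_zero' A)
  rw [finsum_eq_sum_of_fintype, ← card_mul_classInner χ fun a => τ (β a), hn, show n = 0 by omega]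
  simp

theorem sum_ker {L M : Type} [Finite G] [Group L] [Group M] (A : Subgroup G) (α : G →* L) (β : G →* M)
    (σ : L → ℂ) (τ : M → ℂ) (k0 : ∑ᶠ a, σ ((α.comp (A ⊓ β.ker).subtype) a) = 0) :
    ∑ᶠ a : ↥(A ⊓ β.ker), σ (α a) * conj (τ (β a)) = 0 := by
  have := Fintype.ofFinite ↥(A ⊓ β.ker)
  have e : ∀ a : ↥(A ⊓ β.ker), σ (α a) * conj (τ (β a)) =
      σ ((α.comp (A ⊓ β.ker).subtype) a) * conj (τ 1) := fun a => by
    have e1 : β a = 1 := a.2.2
    rw [e1, MonoidHom.comp_apply, Subgroup.subtype_apply]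
  refine (finsum_congr e).trans ?_
  rw [finsum_eq_sum_of_fintype, ← Finset.sum_mul, ← finsum_eq_sum_of_fintype, k0, zero_mul]

/-- the image of `A ∩ β⁻¹ K` -/
def im {L M : Type} [Group L] [Group M] (A : Subgroup G) (α : G →* L) (β : G →* M) (K : Subgroup M) :
    Subgroup L := ((α.comp A.subtype).comp (K.comap (β.comp A.subtype)).subtype).range

theorem mem_im {L M : Type} [Group L] [Group M] {A : Subgroup G} {α : G →* L} {β : G →* M} {K : Subgroup M}
    {a : G} (ha : a ∈ A) (h : β a ∈ K) : α a ∈ im A α β K := ⟨⟨⟨a, ha⟩, h⟩, rfl⟩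

theorem sum_im (kz : JobKZ) {L M X : Type} [Finite G] [Group L] [Finite L] [Group M] [MulAction M X] [Finite X]
    (A : Subgroup G) (α : G →* L) (β : G →* M) {σ : L → ℂ} (hσ : IsCharacter L σ) {τ τ' : M → ℂ}
    (hτ : IsCharacter M τ) (hτ' : IsCharacter M τ') (e : H30.fixChar M X = τ + τ')
    (h : ∀ p : X, ∃ R : Subgroup L, ∑ᶠ r : R, σ r = 0 ∧ R ≤ im A α β (MulAction.stabilizer M p)) :
    ∑ᶠ a : A, σ (α a) * conj (τ (β a)) = 0 :=
  le_zero (hσ.comp (α.comp A.subtype)) (β.comp A.subtype) hτ hτ' e fun p => by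
    obtain ⟨R, hR, le⟩ := h p
    simpa using kz _ _ σ _ R hσ le hR 1

end abs

section lin

variable {F X Y : Type} [Field F] [AddCommGroup X] [Module F X] [AddCommGroup Y] [Module F Y]

theorem exists_rep [FiniteDimensional F Y] (p : X →ₗ[F] Y →ₗ[F] F) (φ : X →ₗ[F] F)
    (h : ∀ z, p z = 0 → φ z = 0) : ∃ y, ∀ z, p z y = φ z := by
  have : φ ∈ LinearMap.range p.dualMap := by
    rw [LinearMap.range_dualMap_eq_dualAnnihilator_ker, Submodule.mem_dualAnnihilator]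
    exact h
  obtain ⟨Φ, rfl⟩ := this
  obtain ⟨y, rfl⟩ := (Module.evalEquiv F Y).surjective Φ
  exact ⟨y, fun _ => rfl⟩

theorem exists_f [FiniteDimensional F Y] (S : FS F Y) (c : X →ₗ[F] Y) (φ : X →ₗ[F] F)
    (h : ∀ z, c z = 0 → φ z = 0) : ∃ f, ∀ z, S.B (c z) f = φ z :=
  exists_rep (S.B ∘ₗ c) φ fun z e => h z (S.eq_zero fun u => DFunLike.congr_fun e u)

theorem exists_perp [FiniteDimensional F Y] (S : FS F Y) {Z : Type} [AddCommGroup Z] [Module F Z]
    (a : X →ₗ[F] Y) (c : Z →ₗ[F] Y) (φ : X →ₗ[F] F) (h : ∀ z w, a z = c w → φ z = 0) :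
    ∃ f, (∀ z, S.B (a z) f = φ z) ∧ ∀ w, S.B (c w) f = 0 := by
  obtain ⟨f, hf⟩ := exists_f S (a.coprod c) (φ ∘ₗ LinearMap.fst F _ _) fun w hw =>
    h _ (-w.2) (by rw [map_neg]; exact eq_neg_of_add_eq_zero_left hw)
  exact ⟨f, fun y => by simpa using hf (y, 0), fun y => by simpa using hf (0, y)⟩

theorem rad_le {k : ℕ} {T : Submodule F (Fin k → F)} {K : Subgroup (GL (Fin k) F)}
    (h : ∀ s ∈ T, ∀ φ : (Fin k → F) →ₗ[F] F, (∀ t ∈ T, φ t = 0) →
      ∃ g ∈ K, ∀ z, (g : Matrix (Fin k) (Fin k) F) *ᵥ z = z + φ z • s) : Rad T ≤ K := by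
  classical
  intro r hr
  let b := Module.finBasis F T
  let n : (Fin k → F) →ₗ[F] T := (r.1.mulVecLin - LinearMap.id).codRestrict T hr.1
  have n0 : ∀ t ∈ T, n t = 0 := fun t ht => Subtype.ext (sub_eq_zero.2 (hr.2 t ht))
  have key : ∀ s : Finset (Fin (finrank F T)), ∃ g ∈ K, ∀ z,
      (g : Matrix (Fin k) (Fin k) F) *ᵥ z = z + ∑ i ∈ s, b.repr (n z) i • (b i : Fin k → F) := by
    intro s
    induction s using Finset.induction_on with
    | empty => exact ⟨1, one_mem _, fun z => by simp⟩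
    | insert i s hi ih =>
      obtain ⟨g, hg, e⟩ := ih
      obtain ⟨g', hg', e'⟩ := h (b i) (b i).2 (b.coord i ∘ₗ n) fun t ht => by simp [n0 t ht]
      refine ⟨g' * g, mul_mem hg' hg, fun z => ?_⟩
      rw [Units.val_mul, ← mulVec_mulVec, e, e', Finset.sum_insert hi, map_add, LinearMap.comp_apply _ _ (∑ _ ∈ _, _),
        n0 _ (sum_mem fun j _ => T.smul_mem _ (b j).2)]
      simp only [LinearMap.comp_apply, Basis.coord_apply, map_zero, add_zero]
      abel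
  obtain ⟨g, hg, e⟩ := key Finset.univ
  have : g = r := Units.ext (Matrix.ext_iff_mulVec.2 (fun z => by
    have := congrArg Subtype.val (b.sum_repr (n z))
    simp only [Submodule.coe_sum, Submodule.coe_smul] at this
    rw [e, this]
    exact add_sub_cancel z (r.1 *ᵥ z)))
  exact this ▸ hg

/-- The torus of a hyperbolic pair. -/
theorem exists_tor [FiniteDimensional F Y] (S : FS F Y) {e f : Y} (he : S.Q e = 0) (hf : S.Q f = 0)
    (h : S.B e f = 1) {c : F} (hc : c ≠ 0) :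
    ∃ g : S.I, ∀ w, g.1 w = w + ((c - 1) * S.B w f) • e + ((c⁻¹ - 1) * S.ε * S.B w e) • f := by
  have h1 : S.B e e = 0 := by rw [S.B_self, he, mul_zero]
  have h2 : S.B f f = 0 := by rw [S.B_self, hf, mul_zero]
  have h3 : S.B f e = S.ε := by rw [S.symm, h, mul_one]
  let L : Y →ₗ[F] Y := LinearMap.id + (c - 1) • (S.B.flip f).smulRight e +
    ((c⁻¹ - 1) * S.ε) • (S.B.flip e).smulRight f
  have hL : ∀ w, L w = w + ((c - 1) * S.B w f) • e + ((c⁻¹ - 1) * S.ε * S.B w e) • f := fun w => by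
    simp [L, mul_smul]
  have e1 := S.ε_mul_self
  have e2 := mul_inv_cancel₀ hc
  refine ⟨S.ofLin L (fun u v => ?_) fun v => ?_, hL⟩
  · simp only [hL, map_add, map_smul, LinearMap.add_apply, LinearMap.smul_apply, smul_eq_mul, h1, h2, h3, h,
      S.symm v e, S.symm v f]
    linear_combination (S.ε * S.B u f * S.B v e + S.ε ^ 2 * S.B u e * S.B v f) * e2 +
      (1 - c) * S.B u e * S.B v f * e1
  · have e3 := S.κ_mul_ε
    simp only [hL, S.Q_add, QuadraticMap.map_smul, he, hf, map_add, map_smul, LinearMap.add_apply,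
      LinearMap.smul_apply, smul_eq_mul, h]
    linear_combination (S.κ * S.B v e * S.B v f) * e2 + (c * (c⁻¹ - 1) * S.B v e * S.B v f) * e3

end lin

section geo

variable {F V : Type} [Field F] [Fintype F] [DecidableEq F] [AddCommGroup V] [Module F V] [Fintype V]
  {S : FS F V} {k : ℕ}

theorem mem_P {g : (S.ext k).I} (h : ∀ z, (g.1 (z, 0, 0)).2 = 0) : g ∈ S.P k := fun w => by
  refine ⟨fun hw => ?_, fun hw => ?_⟩
  · obtain ⟨z, hz⟩ := Finite.surjective_of_injective (f := fun z => (g.1 (z, 0, 0)).1)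
      (fun z z' e => congrArg Prod.fst (g.1.injective (Prod.ext e ((h z).trans (h z').symm)))) (g.1 w).1
    rw [← g.1.injective (Prod.ext hz ((h z).trans hw.symm))]
    rfl
  · rw [show w = (w.1, 0, 0) from Prod.ext rfl hw, h]

variable (π : S.P k →* GL (Fin k) F × S.I) (x : (S.ext k).I)

/-- the action on `W` -/
def al : HH (S.P k) x →* GL (Fin k) F := (MonoidHom.fst _ _).comp (π.comp (i1 _ x))

/-- the action on `T^⊥ / T` -/
def be : HH (S.P k) x →* S.I := (MonoidHom.snd _ _).comp (π.comp (i2 _ x))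

/-- trivial on `W^⊥ / W` and on `T` -/
def AA : Subgroup (HH (S.P k) x) :=
  ((MonoidHom.snd _ _).comp (π.comp (i1 _ x))).ker ⊓ ((MonoidHom.fst _ _).comp (π.comp (i2 _ x))).ker

variable {π x}

theorem mk_A (hπ : S.IsPi k π) {g : (S.ext k).I} (h1 : ∀ z, (g.1 (z, 0, 0)).2 = 0)
    (h2 : ∀ v, (g.1 (0, v, 0)).2.1 = v) (h3 : ∀ z, g.1 (x.1 (z, 0, 0)) = x.1 (z, 0, 0)) :
    ∃ a ∈ AA π x, (∀ z, (al π x a : Matrix (Fin k) (Fin k) F) *ᵥ z = (g.1 (z, 0, 0)).1) ∧
      ∀ v y v', g.1 (x.1 (0, v, 0)) = x.1 (y, v', 0) → (be π x a).1 v = v' := by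
  have c : ∀ w, (x⁻¹ * g * x).1 w = x.1.symm (g.1 (x.1 w)) := fun _ => rfl
  have h4 : ∀ z, (x⁻¹ * g * x).1 (z, 0, 0) = (z, 0, 0) := fun z => by rw [c, h3, LinearEquiv.symm_apply_apply]
  let a : HH (S.P k) x := ⟨g, mem_P h1, mem_P (g := x⁻¹ * g * x) fun z => by rw [h4]; rfl⟩
  refine ⟨a, ⟨Subtype.ext (LinearEquiv.ext fun v => ?_), Units.ext (Matrix.ext_iff_mulVec.2 fun z => ?_)⟩,
    fun z => ?_, fun v y v' e => ?_⟩
  · obtain ⟨y, e⟩ := (hπ (i1 _ x a)).2 v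
    exact (congrArg (·.2.1) e).symm.trans (h2 v)
  · exact (congrArg (·.1) (((hπ (i2 _ x a)).1 z).symm.trans (h4 z))).trans (one_mulVec z).symm
  · exact (congrArg (·.1) ((hπ (i1 _ x a)).1 z)).symm
  · obtain ⟨y', e'⟩ := (hπ (i2 _ x a)).2 v
    have := (c _).symm.trans e'
    rw [e, LinearEquiv.symm_apply_apply] at this
    exact (congrArg (·.2.1) this).symm

theorem mt_A (kz : JobKZ) {σ : GL (Fin k) F → ℂ} {τ : S.I → ℂ} (hσ : IsCharacter _ σ) (hτ : IsCharacter _ τ)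
    {A : Subgroup (HH (S.P k) x)} (hA : A ≤ AA π x) (h : ∑ᶠ a : A, σ (al π x a) * conj (τ (be π x a)) = 0) :
    MT (S.P k) (fun p => σ (π p).1 * τ (π p).2) x = 0 := by
  refine mt_zero kz ((hσ.prod hτ).comp π) A ?_
  have := Fintype.ofFinite A
  have e : ∀ a : A, σ (π (i1 _ x a)).1 * τ (π (i1 _ x a)).2 * conj (σ (π (i2 _ x a)).1 * τ (π (i2 _ x a)).2) =
      τ 1 * conj (σ 1) * (σ (al π x a) * conj (τ (be π x a))) := fun a => by
    have e1 : (π (i1 _ x a)).2 = 1 := (hA a.2).1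
    have e2 : (π (i2 _ x a)).1 = 1 := (hA a.2).2
    have e3 : (π (i1 _ x a)).1 = al π x a := rfl
    have e4 : (π (i2 _ x a)).2 = be π x a := rfl
    rw [e1, e2, e3, e4, map_mul]
    ring
  refine (finsum_congr e).trans ?_
  rw [finsum_eq_sum_of_fintype, ← Finset.mul_sum, ← finsum_eq_sum_of_fintype, h, mul_zero]

theorem sum_zero (kz : JobKZ) {σ : GL (Fin k) F → ℂ} (hσ : IsCharacter _ σ) {A : Type} [Group A] [Finite A]
    (α : A →* GL (Fin k) F) {R : Subgroup (GL (Fin k) F)} (hR : ∑ᶠ r : R, σ r = 0) (h : R ≤ α.range) :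
    ∑ᶠ a, σ (α a) = 0 := by
  simpa using kz _ A σ α R hσ h hR 1

theorem eich {s : Fin k → F} {f : EV F k V} (h : (S.ext k).B (s, 0, 0) f = 0) : ∃ g : (S.ext k).I,
    (∀ z, g.1 (z, 0, 0) = (z + (S.ext k).B (z, 0, 0) f • s, 0, 0)) ∧ (∀ v, (g.1 (0, v, 0)).2.1 = v) ∧
    ∀ w, g.1 w = w + (S.ext k).B w f • (s, 0, 0) - (S.ε * (S.ext k).B w (s, 0, 0)) • f -
      ((S.ext k).Q f * (S.ext k).B w (s, 0, 0)) • (s, 0, 0) := by
  have := Module.Finite.of_finite (R := F) (M := EV F k V)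
  obtain ⟨g, hg⟩ := (S.ext k).exists_eich (s := (s, 0, 0)) (by simp) h
  refine ⟨g, fun z => ?_, fun v => ?_, hg⟩
  · rw [hg, show (S.ext k).B (z, 0, 0) (s, 0, 0) = 0 by simp]
    simp
  · rw [hg, show (S.ext k).B (0, v, 0) (s, 0, 0) = 0 by simp]
    simp

theorem mt_B (kz : JobKZ) {σ : GL (Fin k) F → ℂ} {τ : S.I → ℂ} (hσ : IsCharacter _ σ) (hτ : IsCharacter _ τ)
    {R : Subgroup (GL (Fin k) F)} (hR : ∑ᶠ r : R, σ r = 0)
    (h : R ≤ ((al π x).comp (AA π x ⊓ (be π x).ker).subtype).range) :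
    MT (S.P k) (fun p => σ (π p).1 * τ (π p).2) x = 0 := by
  refine mt_A kz hσ hτ (A := AA π x ⊓ (be π x).ker) inf_le_left ?_
  exact sum_ker _ _ _ _ _ (sum_zero kz hσ _ hR h)

theorem m1_gen (hπ : S.IsPi k π) {T : Submodule F (Fin k → F)} (h : ∀ s ∈ T, ∀ φ : (Fin k → F) →ₗ[F] F,
      (∀ t ∈ T, φ t = 0) → ∃ f, (∀ z, (S.ext k).B (z, 0, 0) f = φ z) ∧ (∀ z, (S.ext k).B (x.1 (z, 0, 0)) f = 0) ∧
        (∀ z, (S.ext k).B (x.1 (z, 0, 0)) (s, 0, 0) = 0) ∧
        ((∃ y, (s, 0, 0) = x.1 (y, 0, 0)) ∨ ∃ y, f = x.1 (y, 0, 0))) :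
    Rad T ≤ ((al π x).comp (AA π x ⊓ (be π x).ker).subtype).range := rad_le fun s hs φ hφ => by
  obtain ⟨f, f1, f2, f3, f4⟩ := h s hs φ hφ
  obtain ⟨g, g1, g2, g3⟩ := eich (S := S) ((f1 s).trans (hφ s hs))
  obtain ⟨a, ha, a1, a2⟩ := mk_A (x := x) hπ (fun z => by rw [g1]; rfl) g2 fun z => by
    rw [g3, f2, f3]; simp
  refine ⟨_, ⟨⟨a, ha, Subtype.ext (LinearEquiv.ext fun v => ?_)⟩, rfl⟩, fun z => by
    rw [← f1]; exact (a1 z).trans (congrArg (·.1) (g1 z))⟩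
  have o : ∀ y, (S.ext k).B (x.1 (0, v, 0)) (x.1 (y, 0, 0)) = 0 := fun y => by rw [FS.I_B]; simp
  rcases f4 with ⟨y, e⟩ | ⟨y, rfl⟩
  · refine a2 v ((S.ext k).B (x.1 (0, v, 0)) f • y) v ?_
    rw [g3, e, o, mul_zero, mul_zero, zero_smul, zero_smul, sub_zero, sub_zero, ← map_smul, ← map_add]
    simp
  · refine a2 v (-(S.ε * (S.ext k).B (x.1 (0, v, 0)) (s, 0, 0)) • y) v ?_
    rw [g3, o, FS.I_Q, show (S.ext k).Q (y, 0, 0) = 0 by simp, zero_mul, zero_smul, add_zero,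
      sub_zero, ← map_smul, ← map_sub]
    simp

end geo

theorem jobM1 (kz : JobKZ) (_par : APar) : AM1 := by
  intro F _ _ _ V _ _ _ S k π hπ σ τ hσ hτ cu x hx h1 h2
  have := Module.Finite.of_finite (R := F) (M := EV F k V)
  have main := fun (T : Submodule F (Fin k → F)) t0 t1 h =>
    mt_B kz hσ hτ (cu.1 T t0 t1) (m1_gen (x := x) hπ h)
  let eW : (Fin k → F) →ₗ[F] EV F k V := LinearMap.inl F _ _
  have xx : ∀ y z, (S.ext k).B (x.1 (y, 0, 0)) (x.1 (z, 0, 0)) = 0 := fun y z => by rw [FS.I_B]; simp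
  rcases h2 with ⟨z, z0, hz⟩ | ⟨z, hz⟩
  · refine main (LinearMap.ker (LinearMap.snd F _ _ ∘ₗ x.1.symm.toLinearMap ∘ₗ eW)) (fun e => z0 ?_)
      (fun e => hx ?_) fun s hs φ hφ => ?_
    · have e1 : eW (x.1 (z, 0, 0)).1 = x.1 (z, 0, 0) := Prod.ext rfl hz.symm
      have e2 : (x.1 (z, 0, 0)).1 = 0 := (Submodule.eq_bot_iff _).1 e _ (by simp [e1])
      exact congrArg (·.1) (x.1.injective ((Prod.ext e2 hz).trans (map_zero _).symm))
    · exact inv_mem_iff.1 (mem_P (g := x⁻¹) fun y => (e.ge (Submodule.mem_top (x := y)) :))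
    · have e1 : ((s, 0, 0) : EV F k V) = x.1 ((x.1.symm (eW s)).1, 0, 0) := by
        rw [← LinearEquiv.symm_apply_eq]
        exact Prod.ext rfl hs
      obtain ⟨f, f1, f2⟩ := exists_perp (S.ext k) eW (x.1.toLinearMap ∘ₗ eW) φ fun a b e => hφ _ (by
        change (x.1.symm (eW a)).2 = 0
        rw [e]
        exact congrArg (·.2) (x.1.symm_apply_apply _))
      exact ⟨f, f1, f2, fun y => by rw [e1, xx], Or.inl ⟨_, e1⟩⟩
  · let p : (Fin k → F) →ₗ[F] (Fin k → F) →ₗ[F] F := ((S.ext k).B ∘ₗ eW).compl₂ (x.1.toLinearMap ∘ₗ eW)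
    have hp : ∀ a b, p a b = a ⬝ᵥ (x.1 (b, 0, 0)).2.2 := fun a b => by
      change (S.ext k).B (a, 0, 0) (x.1 (b, 0, 0)) = _
      simp
    refine main (LinearMap.ker p) (fun e => ?_) (fun e => hz ?_) fun s hs φ hφ => ?_
    · obtain ⟨y, y0, hy⟩ := h1
      let N : (Fin k → F) →ₗ[F] (Fin k → F) :=
        LinearMap.snd F _ _ ∘ₗ LinearMap.snd F _ _ ∘ₗ x.1.toLinearMap ∘ₗ eW
      have : Function.Surjective N := fun c => by
        obtain ⟨b, hb⟩ := exists_rep p ((dotProductBilin F F).flip c) fun a ha => by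
          rw [(Submodule.eq_bot_iff _).1 e a ha, map_zero]
        refine ⟨b, funext fun i => ?_⟩
        change (x.1 (b, 0, 0)).2.2 i = c i
        simpa [hp] using hb (Pi.single i 1)
      exact y0 (LinearMap.injective_iff_surjective.2 this (hy.trans (map_zero N).symm))
    · refine funext fun i => ?_
      have := DFunLike.congr_fun (e.ge (Submodule.mem_top (x := Pi.single i 1)) :) z
      simpa [hp] using this
    · obtain ⟨y, hy⟩ := exists_rep p φ hφ
      refine ⟨x.1 (y, 0, 0), hy, fun b => xx b y, fun b => ?_, Or.inr ⟨y, rfl⟩⟩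
      rw [FS.symm, show (S.ext k).B (s, 0, 0) (x.1 (b, 0, 0)) = 0 from DFunLike.congr_fun hs b, mul_zero]

section geo2

variable {F V : Type} [Field F] [Fintype F] [DecidableEq F] [AddCommGroup V] [Module F V] [Fintype V]
  {S : FS F V} {k : ℕ} {π : S.P k →* GL (Fin k) F × S.I} {x : (S.ext k).I}

theorem mk_St (hπ : S.IsPi k π) (p : S.Pt) {v : V} (hv : p.1 = Submodule.span F {v}) {g : (S.ext k).I}
    (h1 : ∀ z, (g.1 (z, 0, 0)).2 = 0) (h2 : ∀ v, (g.1 (0, v, 0)).2.1 = v)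
    (h3 : ∀ z, g.1 (x.1 (z, 0, 0)) = x.1 (z, 0, 0)) {y : Fin k → F} {c : F}
    (h4 : g.1 (x.1 (0, v, 0)) = x.1 (y, c • v, 0)) :
    ∃ r ∈ im (AA π x) (al π x) (be π x) (MulAction.stabilizer S.I p),
      ∀ z, (r : Matrix (Fin k) (Fin k) F) *ᵥ z = (g.1 (z, 0, 0)).1 := by
  obtain ⟨a, ha, a1, a2⟩ := mk_A hπ h1 h2 h3
  refine ⟨_, mem_im ha (MulAction.mem_stabilizer_iff.2 (Subtype.ext ?_)), a1⟩
  have := Module.Finite.of_finite (R := F) (M := V)
  refine Submodule.eq_of_le_of_finrank_eq ?_ (((be π x a) • p).2.1.trans p.2.1.symm)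
  change p.1.map (be π x a).1.toLinearMap ≤ p.1
  rw [hv, Submodule.map_span, Set.image_singleton, Submodule.span_singleton_le_iff_mem]
  exact Submodule.mem_span_singleton.2 ⟨c, (a2 v y _ h4).symm⟩

theorem m2_pt (hπ : S.IsPi k π) {σ : GL (Fin k) F → ℂ} (cu : Cusp σ)
    (k0 : k ≠ 0) (h1 : ∀ z, (x.1 (z, 0, 0)).2.2 = 0) (h2 : ∀ z, (x.1 (z, 0, 0)).2 = 0 → z = 0) (p : S.Pt) :
    ∃ R : Subgroup (GL (Fin k) F), ∑ᶠ r : R, σ r = 0 ∧ 
      R ≤ im (AA π x) (al π x) (be π x) (MulAction.stabilizer S.I p) := by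
  have := Module.Finite.of_finite (R := F) (M := EV F k V)
  obtain ⟨v0, hv, q0⟩ : ∃ v0, p.1 = Submodule.span F {v0} ∧ S.Q v0 = 0 := by
    obtain ⟨⟨v0, m⟩, -, h⟩ := finrank_eq_one_iff'.1 p.2.1
    refine ⟨v0, le_antisymm (fun w hw => ?_) ((Submodule.span_singleton_le_iff_mem _ _).2 m), p.2.2 v0 m⟩
    obtain ⟨c, hc⟩ := h ⟨w, hw⟩
    exact Submodule.mem_span_singleton.2 ⟨c, congrArg Subtype.val hc⟩
  let eW : (Fin k → F) →ₗ[F] EV F k V := LinearMap.inl F _ _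
  let c : (Fin k → F) × F →ₗ[F] EV F k V :=
    (x.1.toLinearMap ∘ₗ eW).coprod (LinearMap.toSpanSingleton F _ (x.1 (0, v0, 0)))
  have hc : ∀ y l, c (y, l) = x.1 (y, l • v0, 0) := fun y l => by
    change x.1 (y, 0, 0) + l • x.1 (0, v0, 0) = _
    rw [← map_smul, ← map_add]
    simp
  have c1 : ∀ y, c (y, 0) = x.1 (y, 0, 0) := fun y => by rw [hc, zero_smul]
  have c2 : c (0, 1) = x.1 (0, v0, 0) := by rw [hc, one_smul]
  have wt : ∀ z y, (z, 0, 0) = x.1 (y, 0, 0) → z = 0 := fun z y e => by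
    obtain rfl := h2 y (congrArg (·.2) e).symm
    exact congrArg (·.1) (e.trans (map_zero x.1))
  have tw : ∀ z s, (S.ext k).B (x.1 (z, 0, 0)) (s, 0, 0) = 0 := fun z s => by simp [h1]
  have tv : ∀ z, (S.ext k).B (x.1 (z, 0, 0)) (x.1 (0, v0, 0)) = 0 := fun z => by rw [FS.I_B]; simp
  have qv : (S.ext k).Q (x.1 (0, v0, 0)) = 0 := by rw [FS.I_Q]; simpa using q0
  have dec : ∀ z y l, (z, 0, 0) = c (y, l) → z ≠ 0 → l ≠ 0 ∧ ∀ s, (S.ext k).B (x.1 (0, v0, 0)) (s, 0, 0) = 0 :=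
    fun z y l e z0 => by
      have l0 : l ≠ 0 := by
        rintro rfl
        exact z0 (wt z y (e.trans (c1 y)))
      refine ⟨l0, fun s => (mul_eq_zero.1 ?_).resolve_left l0⟩
      have := congrArg (fun w => (S.ext k).B w (s, 0, 0)) e
      change _ = (S.ext k).B (x.1 (y, 0, 0) + l • x.1 (0, v0, 0)) (s, 0, 0) at this
      rw [map_add, map_smul, LinearMap.add_apply, tw, zero_add] at this
      rw [← smul_eq_mul, ← LinearMap.smul_apply, ← this]
      simp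
  rcases Nat.lt_or_ge 1 k with k1 | k1
  · obtain ⟨w, w0, w1, w2⟩ : ∃ w : Fin k → F, w ≠ 0 ∧ (S.ext k).B (x.1 (0, v0, 0)) (w, 0, 0) = 0 ∧
        ∀ z y, (z, 0, 0) = c y → z ∈ Submodule.span F {w} := by
      by_cases h : ∃ w y l, (w, 0, 0) = c (y, l) ∧ w ≠ 0
      · obtain ⟨w, y, l, e, w0⟩ := h
        obtain ⟨l0, hl⟩ := dec w y l e w0
        refine ⟨w, w0, hl w, fun z ⟨y', l'⟩ e' => Submodule.mem_span_singleton.2 ⟨l' / l, ?_⟩⟩
        refine (sub_eq_zero.1 (wt _ ((l' / l) • y - y') ?_))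
        rw [← c1]
        change eW ((l' / l) • w - z) = _
        rw [map_sub, map_smul, show eW w = _ from e, show eW z = _ from e', ← map_smul, ← map_sub]
        simp [div_mul_cancel₀ _ l0]
      · push Not at h
        obtain ⟨w, hw, w0⟩ := (Submodule.ne_bot_iff _).1 (LinearMap.ker_ne_bot_of_finrank_lt
          (f := (S.ext k).B (x.1 (0, v0, 0)) ∘ₗ eW) (by simpa using k1))
        exact ⟨w, w0, hw, fun z ⟨y, l⟩ e => by rw [h z y l e]; exact zero_mem _⟩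
    refine ⟨Rad (Submodule.span F {w}), cu.1 _ (by simpa using w0) fun e => ?_, rad_le fun s hs φ hφ => ?_⟩
    · have := finrank_span_singleton (K := F) w0
      rw [e, finrank_top] at this
      simp at this
      omega
    · obtain ⟨f, f1, f2⟩ := exists_perp (S.ext k) eW c φ fun z y e => hφ z (w2 z y e)
      obtain ⟨g, g1, g2, g3⟩ := eich (S := S) (s := s) ((f1 s).trans (hφ s hs))
      have vs : (S.ext k).B (x.1 (0, v0, 0)) (s, 0, 0) = 0 := by
        obtain ⟨l, rfl⟩ := Submodule.mem_span_singleton.1 hs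
        change (S.ext k).B _ (eW (l • w)) = 0
        rw [map_smul, map_smul, show (S.ext k).B _ (eW w) = 0 from w1, smul_zero]
      obtain ⟨r, hr, e⟩ := mk_St (x := x) (y := 0) (c := 1) hπ p hv (fun z => by rw [g1]; rfl) g2
        (fun z => by rw [g3, tw, ← c1, f2]; simp) (by rw [g3, vs, one_smul, ← c2, f2]; simp)
      exact ⟨r, hr, fun z => by rw [e, g1, ← f1]; rfl⟩
  · obtain rfl : k = 1 := by omega
    refine ⟨⊤, (finsum_eq_of_bijective Subtype.val Subgroup.topEquiv.bijective fun _ => rfl).trans cu.2,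
      fun r _ => ?_⟩
    have r0 : r.1 0 0 ≠ 0 := by simpa using r.det_ne_zero
    have o : ∀ z : Fin 1 → F, z = z 0 • (1 : Fin 1 → F) := fun z => funext fun i => by
      rw [Subsingleton.elim i 0]; simp
    have qe : (S.ext 1).Q (1, 0, 0) = 0 := by simp
    obtain ⟨f, qf, f1, f2, f3⟩ : ∃ f, (S.ext 1).Q f = 0 ∧ (S.ext 1).B (1, 0, 0) f = 1 ∧
        (∀ z, (S.ext 1).B (x.1 (z, 0, 0)) f = 0) ∧ ∀ a b : F, ∃ y, a • (S.ext 1).B (x.1 (0, v0, 0)) f • (1, 0, 0) +
          b • (S.ext 1).B (x.1 (0, v0, 0)) (1, 0, 0) • f = c y := by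
      by_cases h : (S.ext 1).B (x.1 (0, v0, 0)) (1, 0, 0) = 0
      · obtain ⟨f, f1, f2, f3⟩ : ∃ f, (S.ext 1).B (1, 0, 0) f = 1 ∧ (∀ z, (S.ext 1).B (x.1 (z, 0, 0)) f = 0) ∧
            ∃ y, (S.ext 1).B (x.1 (0, v0, 0)) f • (1, 0, 0) = c y := by
          by_cases h' : ∃ y, (1, 0, 0) = c y
          · obtain ⟨y, e⟩ := h'
            obtain ⟨f, f1, f2⟩ := exists_perp (S.ext 1) eW (x.1.toLinearMap ∘ₗ eW) (LinearMap.proj 0)
              fun a b e => by rw [wt a b e, map_zero]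
            exact ⟨f, f1 1, f2, _, by rw [e, ← map_smul]⟩
          · obtain ⟨f, f1, f2⟩ := exists_perp (S.ext 1) eW c (LinearMap.proj 0) fun a y e =>
              by_contra fun a0 => h' ⟨(a 0)⁻¹ • y, by
                rw [map_smul, ← e, ← map_smul, o ((a 0)⁻¹ • a), Pi.smul_apply, smul_eq_mul,
                  inv_mul_cancel₀ (show a 0 ≠ 0 from a0), one_smul]; rfl⟩
            exact ⟨f, f1 1, fun z => by rw [← c1, f2], 0, by rw [← c2, f2, zero_smul, map_zero]⟩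
        obtain ⟨y, e⟩ := f3
        refine ⟨(-(S.ext 1).Q f) • (1, 0, 0) + f, ?_, ?_, fun z => ?_, fun a b => ⟨a • y, ?_⟩⟩
        · rw [FS.Q_add, QuadraticMap.map_smul, qe, map_smul, LinearMap.smul_apply, f1]
          simp only [smul_eq_mul]
          linear_combination -(S.ext 1).κ_mul_Q f
        · rw [map_add, map_smul, f1, FS.B_self, qe]; simp
        · rw [map_add, map_smul, f2, tw]; simp
        · rw [map_add, map_smul, h, smul_zero, zero_add, zero_smul, smul_zero, add_zero, e, map_smul]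
      · have h' : (S.ext 1).B (1, 0, 0) (x.1 (0, v0, 0)) ≠ 0 := fun e => h (by rw [FS.symm, e, mul_zero])
        refine ⟨((S.ext 1).B (1, 0, 0) (x.1 (0, v0, 0)))⁻¹ • x.1 (0, v0, 0), ?_, ?_, fun z => ?_,
          fun a b => ⟨b • (S.ext 1).B (x.1 (0, v0, 0)) (1, 0, 0) •
            ((S.ext 1).B (1, 0, 0) (x.1 (0, v0, 0)))⁻¹ • (0, 1), ?_⟩⟩
        · rw [QuadraticMap.map_smul, qv, smul_zero]
        · rw [map_smul, smul_eq_mul, inv_mul_cancel₀ h']
        · rw [map_smul, tv, smul_zero]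
        · rw [map_smul, FS.B_self, qv, mul_zero, smul_zero, zero_smul, smul_zero, zero_add, map_smul, map_smul,
            map_smul, c2]
    obtain ⟨g, hg⟩ := exists_tor (S.ext 1) qe qf f1 r0
    have g1 : ∀ z, g.1 (z, 0, 0) = (r.1 0 0 • z, 0, 0) := fun z => by
      have : (S.ext 1).B (z, 0, 0) f = z 0 := by
        change (S.ext 1).B (eW z) f = z 0
        rw [o z, map_smul, map_smul, LinearMap.smul_apply, show (S.ext 1).B (eW 1) f = 1 from f1]
        simp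
      rw [hg, this, show (S.ext 1).B (z, 0, 0) (1, 0, 0) = 0 by simp]
      refine Prod.ext (funext fun i => ?_) (by simp)
      rw [Subsingleton.elim i 0]
      simp
      ring
    obtain ⟨⟨y, l⟩, e⟩ := f3 (r.1 0 0 - 1) (((r.1 0 0)⁻¹ - 1) * (S.ext 1).ε)
    obtain ⟨r', hr, e'⟩ := mk_St (x := x) (y := y) (c := 1 + l) hπ p hv (fun z => by rw [g1]; rfl)
      (fun v => by rw [hg, show (S.ext 1).B (0, v, 0) (1, 0, 0) = 0 by simp]; simp)
      (fun z => by rw [hg, f2, tw]; simp) (by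
        rw [hg, add_assoc, mul_smul, mul_smul _ ((S.ext 1).B _ _), e, ← hc, ← c2, ← map_add]
        simp)
    have : r' = r := Units.ext (Matrix.ext_iff_mulVec.2 fun z => funext fun i => by
      rw [e', g1, Subsingleton.elim i 0]
      simp [mulVec, dotProduct])
    exact this ▸ hr

end geo2

theorem jobM2 (kz : JobKZ) (_par : APar) : AM2 := by
  intro F _ _ _ V _ _ _ S k π hπ σ τ hσ hτ cu h k0 x h1 h2
  rcases h with ⟨τ', hτ', e⟩ | h
  · exact mt_A kz hσ hτ le_rfl (sum_im kz _ _ _ hσ hτ hτ' e (m2_pt hπ cu k0 h1 h2))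
  · let N : (Fin k → F) →ₗ[F] V :=
      LinearMap.fst F _ _ ∘ₗ LinearMap.snd F _ _ ∘ₗ x.1.toLinearMap ∘ₗ LinearMap.inl F _ _
    have hN : ∀ z, N z = (x.1 (z, 0, 0)).2.1 := fun _ => rfl
    refine (h (N ∘ Pi.basisFun F (Fin k)) ((Pi.basisFun F (Fin k)).linearIndependent.map' N
      (LinearMap.ker_eq_bot'.2 fun z hz => h2 z (Prod.ext hz (h1 z)))) (fun i => ?_) fun i j => ?_).elim
    · simpa [h1, hN] using (S.ext k).I_Q x (Pi.basisFun F (Fin k) i, 0, 0)
    · simpa [h1, hN] using (S.ext k).I_B x (Pi.basisFun F (Fin k) i, 0, 0) (Pi.basisFun F (Fin k) j, 0, 0)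

end H96.DGM
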