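import Cfsg.Agent.H53.DGSpec2
import Cfsg.Agent.H45.CentRank

/-! Tower DG (row S4984): the degrees of a rank 3 permutation character (job SRG). -/

set_option autoImplicit false
set_option linter.unusedSectionVars false

namespace H96.DGS

open Cfsg H53.DG Matrix H28 H45 MulAction

theorem split3 {G : Type} [Group G] [Fintype G] {π : G → ℂ} (hπ : IsCharacter G π) (h3 : classInner π π = 3)
    (h1 : classInner π (fun _ => 1) = 1) : ∃ f g : G → ℂ, IsIrrCharacter G f ∧ IsIrrCharacter G g ∧
      π = (fun _ => 1) + f + g ∧ f ≠ g ∧ (f ≠ fun _ => 1) ∧ g ≠ fun _ => 1 := by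
  have h₀ : IsIrrCharacter G fun _ => 1 := isIrrCharacter_one
  have hθ := hπ.sub_irr h₀ (by rw [h1]; exact one_ne_zero)
  have t1 : classInner (π - fun _ => 1) (fun _ => 1) = 0 := by
    rw [classInner_sub_left, h1, h₀.classInner_self, sub_self]
  have t2 : classInner (π - fun _ => 1) (π - fun _ => 1) = 2 := by
    rw [classInner_sub_right, t1, classInner_sub_left, h3, h₀.isCharacter.classInner_comm hπ, h1]
    norm_num
  obtain ⟨θ, rfl⟩ : ∃ θ, π = (fun _ => 1) + θ := ⟨π - fun _ => 1, (add_sub_cancel _ _).symm⟩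
  rw [add_sub_cancel_left] at hθ t1 t2
  obtain ⟨f, hf, k⟩ := hθ.exists_constituent fun e => by
    rw [e, classInner_zero_left] at t2
    exact two_ne_zero t2.symm
  have hg := hθ.sub_irr hf k
  obtain ⟨g, rfl⟩ : ∃ g, θ = f + g := ⟨θ - f, (add_sub_cancel _ _).symm⟩
  rw [add_sub_cancel_left] at hg
  obtain ⟨m, hm⟩ := hf.isCharacter.classInner_nat hg
  obtain ⟨n, hn⟩ := hg.classInner_nat hg
  obtain ⟨a, ha⟩ := hf.isCharacter.classInner_nat h₀.isCharacter
  obtain ⟨b, hb⟩ := hg.classInner_nat h₀.isCharacter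
  rw [classInner_add_left, classInner_add_right, classInner_add_right, hf.classInner_self,
    hg.classInner_comm hf.isCharacter, hm, hn] at t2
  rw [classInner_add_left, ha, hb] at t1
  have e2 : 1 + m + (m + n) = 2 := by exact_mod_cast t2
  have e1 : a + b = 0 := by exact_mod_cast t1
  have hg' := hg.irr_of_norm_one (by rw [hn, show n = 1 by omega, Nat.cast_one])
  refine ⟨f, g, hf, hg', (add_assoc _ _ _).symm, fun e => ?_, fun e => ?_, fun e => ?_⟩
  · rw [← e, hf.classInner_self, show m = 0 by omega] at hm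
    simp at hm
  · rw [e, h₀.classInner_self, show a = 0 by omega] at ha
    simp at ha
  · rw [e, h₀.classInner_self, show b = 0 by omega] at hb
    simp at hb

theorem jobSRG : JobSRG := by
  intro G X _ _ _ _ R k k' μ s t sy ir inv t1 t2 hk hX k0 k0' hμ e1 e2 st
  classical
  have := Fintype.ofFinite G
  have nb : ∀ x, ∃ y, R x y := fun x => Set.nonempty_of_ncard_ne_zero (s := {y | R x y}) (by rwa [hk])
  have : IsPretransitive G X := ⟨fun x y => by
    obtain ⟨x', hx⟩ := nb x
    obtain ⟨y', hy⟩ := nb y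
    obtain ⟨g, hg, -⟩ := t1 x x' y y' hx hy
    exact ⟨g, hg⟩⟩
  obtain ⟨a⟩ : Nonempty X := Fintype.card_pos_iff.1 (by omega)
  have : Nonempty X := ⟨a⟩
  obtain ⟨b, hb⟩ := nb a
  have ba : a ≠ b := fun e => ir a (e ▸ hb)
  obtain ⟨c, ca, hc⟩ : ∃ c, a ≠ c ∧ ¬ R a c := by
    by_contra h
    push Not at h
    have : (Set.univ : Set X).ncard ≤ (insert a {y | R a y}).ncard :=
      Set.ncard_le_ncard fun y _ => (eq_or_ne a y).imp Eq.symm (h y)
    have := this.trans (Set.ncard_insert_le _ _)
    rw [hk, Set.ncard_univ, Nat.card_eq_fintype_card] at this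
    omega
  have rk : Nat.card (orbitRel.Quotient (stabilizer G a) X) = 3 := by
    rw [← Set.ncard_univ]
    refine Set.ncard_eq_three.2 ⟨Quotient.mk'' a, Quotient.mk'' b, Quotient.mk'' c,
      fun e => ba (mk_eq_mk_base_iff.1 e.symm).symm, fun e => ca (mk_eq_mk_base_iff.1 e.symm).symm,
      fun e => ?_, (Set.eq_univ_of_forall fun q => ?_).symm⟩
    · obtain ⟨g, hg⟩ := Quotient.exact' e.symm
      exact hc (by simpa only [show (g : G) • a = a from g.2, show (g : G) • b = c from hg] using inv g a b hb)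
    · induction q using Quotient.inductionOn' with | h d =>
      rcases eq_or_ne a d with rfl | h
      · exact Or.inl rfl
      by_cases h' : R a d
      · obtain ⟨g, h1, h2⟩ := t1 a b a d hb h'
        exact Or.inr (Or.inl (Quotient.sound' ⟨⟨g, h1⟩, h2⟩))
      · obtain ⟨g, h1, h2⟩ := t2 a c a d ca hc h h'
        exact Or.inr (Or.inr (Quotient.sound' ⟨⟨g, h1⟩, h2⟩))
  obtain ⟨f, g, hf, hg, hπ, fg, f1, g1⟩ := split3 (H30.isCharacter_fixChar (G := G) X)
    (by rw [classInner_fixChar_self a, rk]; rfl) (H30.classInner_fixChar_one_of_transitive X)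
  have h₀ : IsIrrCharacter G fun _ => 1 := isIrrCharacter_one
  have hi : ∀ ψ, classInner (H30.fixChar G X) ψ =
      classInner (fun _ => 1) ψ + classInner f ψ + classInner g ψ := fun ψ => by
    rw [hπ, classInner_add_left, classInner_add_left]
  have hm1 : classInner (H30.fixChar G X) f = 1 := by
    rw [hi, h₀.classInner_of_ne hf f1.symm, hf.classInner_self, hg.classInner_of_ne hf fg.symm]
    ring
  have hm2 : classInner (H30.fixChar G X) g = 1 := by
    rw [hi, h₀.classInner_of_ne hg g1.symm, hg.classInner_self, hf.classInner_of_ne hg fg]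
    ring
  have hs : pE X (fun _ : G => (1 : ℂ)) + pE X f + pE X g = 1 := by
    rw [← sum_pE (G := G), ← Finset.sum_subset (Finset.subset_univ
      ({⟨_, h₀⟩, ⟨_, hf⟩, ⟨_, hg⟩} : Finset (IrrCharacter G))) fun ψ _ hψ => ?_,
      Finset.sum_insert (by simp [f1.symm, g1.symm]), Finset.sum_pair (by simp [fg]), add_assoc]
    simp only [Finset.mem_insert, Finset.mem_singleton, not_or, Subtype.ext_iff] at hψ
    rw [pE_eq_zero_iff ψ.2, hi, h₀.classInner_of_ne ψ.2 (Ne.symm hψ.1),
      hf.classInner_of_ne ψ.2 (Ne.symm hψ.2.1), hg.classInner_of_ne ψ.2 (Ne.symm hψ.2.2)]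
    ring
  let A : Matrix X X ℂ := Matrix.of fun u v => if R u v then 1 else 0
  let J : Matrix X X ℂ := Matrix.of fun _ _ => 1
  have hn0 : (Fintype.card X : ℂ) ≠ 0 := Nat.cast_ne_zero.2 Fintype.card_ne_zero
  have hJ : pE X (fun _ : G => (1 : ℂ)) = (Fintype.card X : ℂ)⁻¹ • J := by
    ext u v
    simp [pE_one, J]
  have hAi : InvM G A := fun x u v => if_congr ⟨fun h => by simpa using inv x⁻¹ _ _ h, inv x u v⟩ rfl rfl
  have AA : ∀ u v, (A * A) u v = ({z | R u z ∧ R v z}.ncard : ℂ) := fun u v => by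
    rw [Set.ncard_eq_toFinset_card', Set.toFinset_ofPred, Finset.card_filter, Matrix.mul_apply]
    push_cast
    refine Finset.sum_congr rfl fun z _ => ?_
    by_cases h : R u z <;> by_cases h' : R v z
    · simp [A, h, h', sy _ _ h']
    · simp [A, h, h', mt (sy z v) h']
    · simp [A, h]
    · simp [A, h]
  have AJ : A * J = (k : ℂ) • J := by
    ext u v
    rw [← hk u, Set.ncard_eq_toFinset_card', Set.toFinset_ofPred, Finset.card_filter, Matrix.mul_apply]
    simp [A, J]
  have JJ : J * J = (Fintype.card X : ℂ) • J := by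
    ext u v
    simp [J, Matrix.mul_apply]
  have hq : A * A = (k : ℂ) • 1 + (A * A) a b • A + (μ : ℂ) • (J - 1 - A) := by
    ext u v
    simp only [Matrix.add_apply, Matrix.smul_apply, Matrix.sub_apply, smul_eq_mul]
    rcases eq_or_ne u v with rfl | h
    · rw [AA u u]
      simp [A, J, ir, hk]
    by_cases h' : R u v
    · obtain ⟨x, rfl, rfl⟩ := t1 a b u v hb h'
      rw [hAi.mul hAi x]
      simp [A, J, h, h']
    · rw [AA u v, hμ u v h h']
      simp [A, J, h, h']
  generalize (A * A) a b = l at hq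
  have hl : l = s + t + μ := by
    have := congrArg (· * J) hq
    simp only [mul_assoc, AJ, mul_smul_comm, add_mul, sub_mul, smul_mul_assoc, one_mul, JJ] at this
    have := congrFun (congrFun this a) a
    simp only [J, Matrix.add_apply, Matrix.smul_apply, Matrix.sub_apply, of_apply, smul_eq_mul, hX] at this
    push_cast at this
    exact mul_left_cancel₀ (Nat.cast_ne_zero.2 k0 : (k : ℂ) ≠ 0) (by linear_combination -this - e2)
  obtain ⟨r, hr⟩ := hAi.exists_mul_pE hf hm1
  obtain ⟨r', hr'⟩ := hAi.exists_mul_pE hg hm2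
  have hA0 : A * pE X (fun _ : G => (1 : ℂ)) = (k : ℂ) • pE X (fun _ : G => (1 : ℂ)) := by
    rw [hJ, mul_smul_comm, AJ, smul_comm]
  have hA1 : A = (k : ℂ) • pE X (fun _ : G => (1 : ℂ)) + r • pE X f + r' • pE X g := by
    rw [← hA0, ← hr, ← hr', ← mul_add, ← mul_add, hs, mul_one]
  have d0 : Fintype.card X * pE X (fun _ : G => (1 : ℂ)) a a = 1 := by rw [pE_one, mul_inv_cancel₀ hn0]
  have d1 : Fintype.card X * pE X f a a = f 1 := by rw [pE_diag hf, hm1, one_mul]
  have d2 : Fintype.card X * pE X g a a = g 1 := by rw [pE_diag hg, hm2, one_mul]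
  have tr : (k : ℂ) + f 1 * r + g 1 * r' = 0 := by
    have := congrFun (congrFun hA1 a) a
    simp only [A, of_apply, if_neg (ir a), Matrix.add_apply, Matrix.smul_apply, smul_eq_mul] at this
    linear_combination (-Fintype.card X : ℂ) * this - k * d0 - r * d1 - r' * d2
  have key : ∀ (E : Matrix X X ℂ) (x : ℂ), pE X (fun _ : G => (1 : ℂ)) * E = 0 → A * E = x • E → E ≠ 0 →
      x = s ∨ x = t := by
    intro E x a1 a2 a3
    rw [hJ, smul_mul_assoc, smul_eq_zero_iff_right (inv_ne_zero hn0)] at a1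
    have a5 : A * A * E = (x ^ 2) • E := by rw [mul_assoc, a2, mul_smul_comm, a2, smul_smul, sq]
    rw [hq] at a5
    simp only [add_mul, sub_mul, smul_mul_assoc, one_mul, a2, a1] at a5
    have a6 : ((x - s) * (x - t)) • E = 0 := by
      rw [show (x - s) * (x - t) = x ^ 2 - (k + l * x + μ * (0 - 1 - x)) by rw [hl]; linear_combination e1,
        sub_smul, ← a5]
      module
    simpa only [smul_eq_zero_iff_left a3, mul_eq_zero, sub_eq_zero] using a6
  have q1 := key _ r (pE_mul_of_ne h₀ hf f1.symm) hr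
    (fun h => one_ne_zero (hm1.symm.trans ((pE_eq_zero_iff hf).1 h)))
  have q2 := key _ r' (pE_mul_of_ne h₀ hg g1.symm) hr'
    (fun h => one_ne_zero (hm2.symm.trans ((pE_eq_zero_iff hg).1 h)))
  have hrs : r ≠ r' := fun hrs => by
    have a1 : A = ((k : ℂ) - r) • pE X (fun _ : G => (1 : ℂ)) + r • 1 := by
      rw [← hs, hA1, ← hrs]; module
    have a2 := congrFun (congrFun a1 a) b
    have a3 := congrFun (congrFun a1 a) c
    simp only [A, of_apply, if_pos hb, if_neg hc, Matrix.add_apply, Matrix.smul_apply, pE_one,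
      Matrix.one_apply_ne ba, Matrix.one_apply_ne ca] at a2 a3
    exact one_ne_zero (a2.trans a3.symm)
  rcases q1 with rfl | rfl <;> rcases q2 with rfl | rfl
  · exact absurd rfl hrs
  · exact ⟨f, g, hf, hg, hπ, tr⟩
  · exact ⟨g, f, hg, hf, hπ.trans (add_right_comm _ _ _), by linear_combination tr⟩
  · exact absurd rfl hrs

end H96.DGS
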