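import Cfsg.Agent.H36.E7MSpec

/-! E7MAX (S5934): slot `SB`. -/

set_option autoImplicit false

namespace H96.E7M

open H36.E7M

theorem φ_one (h : JobPHI) : φ 1 = 0 := (h.2.1 1 (one_mem _)).2 (Or.inl rfl)

/-- the image of `M ⊓ Q` -/
def im (h : JobPHI) (M : Subgroup G) : Submodule F V where
  carrier := {v | ∃ w ∈ M, w ∈ Q ∧ φ w = v}
  add_mem' := by
    rintro _ _ ⟨a, a1, a2, rfl⟩ ⟨b, b1, b2, rfl⟩
    exact ⟨a * b, mul_mem a1 b1, mul_mem a2 b2, h.1 a a2 b b2⟩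
  zero_mem' := ⟨1, one_mem _, one_mem _, φ_one h⟩
  smul_mem' c v hv := by
    have : c = 0 ∨ c = 1 := by revert c; decide
    rcases this with rfl | rfl
    · rw [zero_smul]; exact ⟨1, one_mem _, one_mem _, φ_one h⟩
    · rwa [one_smul]

theorem mem_of_im (h : JobPHI) {M : Subgroup G} (hz : z ∈ M) {q : G} (hq : q ∈ Q)
    (hv : φ q ∈ im h M) : q ∈ M := by
  obtain ⟨w, w1, w2, e⟩ := hv
  have h0 := h.1 _ (mul_mem hq (inv_mem w2)) w w2
  rw [inv_mul_cancel_right, e, right_eq_add] at h0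
  have : q * w⁻¹ ∈ M := by
    rcases (h.2.1 _ (mul_mem hq (inv_mem w2))).1 h0 with k | k <;> rw [k]
    exacts [one_mem _, hz]
  exact (mul_mem_cancel_right (inv_mem w1)).1 this

theorem jobSB : JobSB := by
  intro h lq gen Y W hz hy ht hW hS
  have key : ∀ M : Subgroup G, Y ≤ M → M ≠ ⊤ → im h M = W := fun M hM hm => by
    refine (hS _ (hW.trans (Submodule.span_le.2 ?_)) ?_).resolve_right fun e => hm ?_
    · rintro _ ⟨w, w1, w2, rfl⟩
      exact ⟨w, hM w1, w2, rfl⟩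
    · rintro l l1 l2 _ ⟨w, w1, w2, rfl⟩
      exact ⟨cj l w, cj_mem (hM l1) w1, lq.1 l l2 w w2, h.2.2.2.2 l l2 w w2⟩
    · exact gen M (fun q hq => mem_of_im h (hM hz) hq (e ▸ Submodule.mem_top)) (hM hy)
  have e := key Y le_rfl ht
  refine ⟨fun M hM hm q hq => mem_of_im h hz hq.2 ?_,
    fun q hq => ⟨fun k => e ▸ ⟨q, k, hq, rfl⟩, fun k => mem_of_im h hz hq (e ▸ k)⟩⟩
  rw [e, ← key M hM hm]
  exact ⟨q, hq.1, hq.2, rfl⟩

end H96.E7M
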