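import Cfsg.Agent.H40.E7TSpec
import Cfsg.Agent.H65.G23M
import Cfsg.Agent.H65.O73M

/-! E7T, jobs CO and CG3: the configurations in `Ω₇(3)` and `G₂(3)`. -/

set_option autoImplicit false
set_option maxRecDepth 100000

namespace H96.E7TC

open Cfsg Cfsg.Lie H71 H81 H65 H40.E7T

noncomputable section

section kit

variable {M : Type} [Monoid M] (C : Cd M) (t : ℕ → ℕ) {G : Type*} [Group G] (ι : G →* M)

/-- the value of a word -/
def W (w : List ℕ) : G := (w.map fun l => Function.invFun ι (C.dec (t l))).prod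

/-- two words have the same code -/
def eqW (w w' : List ℕ) : Bool := mw C.mul t w (fun u => mw C.mul t w' (Nat.beq u) C.one) C.one

/-- the word is not the identity -/
def neW (w : List ℕ) : Bool :=
  mw C.mul t w (fun u => !Nat.beq (C.mul u C.one) (C.mul C.one C.one)) C.one

/-- the identity matrix plus some entries -/
def sp (n : ℕ) (L : List (ℕ × ℕ)) : ℕ :=
  L.foldr (fun p c => c + p.2 * 65536 ^ p.1) (geo (16 * (n + 1)) n)

variable {C t ι}

theorem W_app (w w' : List ℕ) : W C t ι (w ++ w') = W C t ι w * W C t ι w' := by simp [W]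

theorem W_cons (l : ℕ) (w : List ℕ) : W C t ι (l :: w) = W C t ι [l] * W C t ι w := by simp [W]

theorem W_rep (k l : ℕ) : W C t ι (List.replicate k l) = W C t ι [l] ^ k := by simp [W]

variable (h : ∀ l, ∃ g, ι g = C.dec (t l))
include h

theorem ι_W (w : List ℕ) : ι (W C t ι w) = (w.map fun l => C.dec (t l)).prod := by
  rw [W, map_list_prod, List.map_map]
  exact congrArg _ (List.map_congr_left fun l _ => Function.invFun_eq (h l))

theorem W_eq (hι : Function.Injective ι) {w w' : List ℕ} (e : eqW C t w w' = true) :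
    W C t ι w = W C t ι w' := by
  obtain ⟨y, h1, h2⟩ := mw_sound C w _ e
  exact hι (by rw [ι_W h, ι_W h, mw_one C h1, h2, C.dec_one, one_mul])

theorem W_ne (hC : C.Can) {w : List ℕ} (e : neW C t w = true) : W C t ι w ≠ 1 := fun k => by
  obtain ⟨y, h1, h2⟩ := mw_sound C w _ e
  rw [← ι_W h, k, map_one, mul_one] at h2
  rw [hC y C.one C.one C.one (by rw [C.dec_mul, C.dec_mul, h2]), Nat.beq_refl] at h1
  cases h1

theorem W_two (hι : Function.Injective ι) {a b c d : ℕ} (e : eqW C t [a, b] [c, d] = true) :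
    W C t ι [a] * W C t ι [b] = W C t ι [c] * W C t ι [d] := by
  rw [← W_cons, ← W_cons, W_eq h hι e]

theorem W_conj (hι : Function.Injective ι) {k a b : List ℕ} (e : eqW C t (k ++ a) (b ++ k) = true) :
    W C t ι k * W C t ι a * (W C t ι k)⁻¹ = W C t ι b := by
  rw [← W_app, W_eq h hι e, W_app, mul_inv_cancel_right]

end kit

/-! ### `G₂(3)` -/

def rG : List ℕ := [11, 10, 9, 8, 7, 6, 5, 4]

def lG : List (List (ℕ × ℕ)) :=
  [[(2, 1), (16, 2), (115, 1), (144, 1), (159, 2), (175, 2), (183, 2), (184, 2)],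
   [(3, 1), (17, 1), (100, 1), (130, 1), (160, 2), (169, 1), (171, 2), (190, 2)],
   [(4, 2), (72, 1), (87, 1), (128, 2), (131, 1), (143, 1), (146, 2), (154, 2), (158, 2), (170, 1),
    (185, 2)],
   [(5, 1), (58, 2), (86, 1), (88, 1), (114, 1), (133, 2), (140, 1), (141, 2), (145, 2), (161, 2),
    (163, 2), (189, 2)],
   [(6, 1), (59, 2), (73, 2), (74, 2), (101, 2), (126, 1), (127, 1), (132, 2), (148, 2), (162, 1),
    (164, 1), (176, 1)],
   [(21, 1), (44, 2), (89, 2), (113, 1), (119, 2), (149, 1), (194, 1)],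
   [(22, 2), (31, 2), (76, 2), (99, 2), (106, 2), (136, 1), (181, 1)],
   [(9, 2), (49, 2), (61, 2), (63, 1), (77, 1), (84, 2), (85, 2), (93, 2), (124, 1), (151, 1),
    (152, 2), (166, 1)]]

def tG (l : ℕ) : ℕ := sp 14 (lG.getD (l % 8) [])

/-- the conjugating elements `x_a, x_b, n_a, n_b, h_a, h_b, x_a⁻¹, x_b⁻¹` -/
def mG : List (List ℕ) :=
  [[4], [5], [4, 7, 7, 4], [5, 6, 6, 5], [4, 7, 7, 4, 4, 7, 7, 4], [5, 6, 6, 5, 5, 6, 6, 5], [4, 4], [5, 5]]

def kG : List (List ℕ) :=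
  [[], [], [4], [2, 4], [6], [0, 4], [2], [0], [0, 2], [], [0, 1], [1, 6], [3], [1], [1], [4, 3],
   [1, 6], [0, 1], [4], [1, 4, 6], [0, 1, 4], [3, 5], [1, 5], [1, 5], [3, 4], [1, 4], [1, 4], [3, 5],
   [2], [2, 4], [], [2, 6], [2, 0, 4], [4], [2, 0], [2, 0, 2], [7], [0], [6], [3, 7], [], [],
   [4, 3, 7], [6], [0], [1, 5], [4, 6], [0, 4], [3, 1, 5], [0, 4], [4, 6], [3, 4, 1], [4], [4], [3],
   [5, 2], [2, 5], [5], [5, 2, 6], [2, 5, 0], [4, 5], [5, 2, 0], [2, 0, 5], [1], [0, 7], [6, 7],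
   [3, 1], [7], [7], [4, 3, 1], [4, 5], [0, 7], [1, 3], [5, 0], [0, 5], [3, 1, 3], [5], [5],
   [3, 1, 4], [0, 5], [4, 1]]

def wv (v : E4) : List ℕ :=
  .replicate (v 0).val 0 ++ .replicate (v 1).val 1 ++ .replicate (v 2).val 2 ++ .replicate (v 3).val 3

def kv (v : E4) : List ℕ :=
  (kG.getD (27 * (v 0).val + 9 * (v 1).val + 3 * (v 2).val + (v 3).val) []).flatMap (mG.getD · [])

def rv (c : ℕ) : List ℕ := [[1], [3], [0, 2], [0, 1, 2, 3], [0, 1, 2, 3, 3]].getD c []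

theorem hG (l : ℕ) : ∃ g, G23M.ι g = G23M.C.dec (tG l) := by
  have := (by decide +kernel : ∀ l < 8, G23M.chk (rG.getD l 0) (sp 14 (lG.getD l [])) = true)
  exact ⟨_, G23M.ι_chk (this _ (Nat.mod_lt l (by decide)))⟩

theorem jobCG3 : JobCG3 := by
  have e : ∀ v, ev (fun i : Fin 4 => W G23M.C tG G23M.ι [i]) v = W G23M.C tG G23M.ι (wv v) :=
    fun v => by simp only [wv, W_app, W_rep]; rfl
  have el : El fun i : Fin 4 => W G23M.C tG G23M.ι [i] :=
    ⟨fun i j => W_two hG G23M.ι_inj ((by decide +kernel :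
      ∀ i j : Fin 4, eqW G23M.C tG [i, j] [j, i] = true) i j), fun i => by
      rw [← W_rep]
      exact W_eq hG G23M.ι_inj (w' := []) ((by decide +kernel :
        ∀ i : Fin 4, eqW G23M.C tG (.replicate 3 i) [] = true) i)⟩
  have c := (by decide +kernel : ∀ v : E4, v ≠ 0 → neW G23M.C tG (wv v) = true ∧
    eqW G23M.C tG (kv v ++ wv v) (rv (cG v) ++ kv v) = true)
  have k : ∀ v, v ≠ 0 → IsConj (W G23M.C tG G23M.ι (wv v)) (W G23M.C tG G23M.ι (rv (cG v))) :=
    fun v hv => isConj_iff.2 ⟨_, W_conj hG G23M.ι_inj (c v hv).2⟩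
  refine ⟨_, el, fun v hv => orderOf_eq_prime (el.ev_cube v) ?_, fun v w hv hw h => ?_⟩
  · rw [e]; exact W_ne hG G23M.can (c v hv).1
  · rw [e, e]; exact (k v hv).trans (h ▸ (k w hw).symm)

/-! ### `Ω₇(3)` -/

def lO : List (List (ℕ × ℕ)) :=
  [[(12, 1), (18, 2)], [(10, 1), (46, 2)], [(4, 1), (7, 1), (11, 2)], [(13, 1), (25, 2)],
   [(20, 1), (26, 2)], [(5, 2), (14, 2), (19, 2)], [(17, 1), (47, 2)], [(38, 1), (44, 2)],
   [(8, 1), (32, 1)], [(16, 1), (40, 1)]]

def tO (l : ℕ) : ℕ := sp 7 (lO.getD (l % 10) [])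
def tT (l : ℕ) : ℕ := sp 7 ((lO.getD (l % 10) []).map fun p => (7 * (p.1 % 7) + p.1 / 7, p.2))
def sO : ℕ := 11090678776483259438313656736572334813778340877124618078062213453473035281799421767429856722480383956268431838965803845809967464449

open O73M in
theorem hI (l : ℕ) : ∃ g, ((MV.rx e).comp (MV.isoM (quadFormOdd 3 (ZMod 3)))) g = C.dec (tO l) := by
  have := (by decide +kernel : ∀ l < 10, band (MW.allEq (C.dec (tT l)) (C.dec (tO l)).transpose)
    (band (MW.allEq (fun i _ => C.dec (C.mul (C.mul (tT l) sO) (tO l)) i i) fun i _ => C.dec sO i i)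
    (band (MW.allEq (C.dec (C.mul (C.mul (tT l) sO) (tO l)) +
      (C.dec (C.mul (C.mul (tT l) sO) (tO l))).transpose) (C.dec sO + (C.dec sO).transpose))
    (band (Nat.beq (C.mul (C.mul (tT l) sO) (tO l)) (C.mul (C.mul (tT l) sO) (tO l)))
    (Nat.beq (C.mul (tO l) (if l < 8 then C.mul (tO l) (tO l) else tO l)) C.one)))) = true)
    (l % 10) (Nat.mod_lt l (by decide))
  obtain ⟨g, -, h⟩ := MW.good_iso e (s := sO) hQ GoodM.nil _ _ this _ List.mem_cons_self
  exact ⟨g, by rw [h, tO, tO, Nat.mod_mod]⟩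

def tP (l : ℕ) : ℕ := tO (l % 8)

open O73M in
theorem hO (l : ℕ) : ∃ g, ι g = C.dec (tP l) := by
  have := W_conj hI ((MV.rx_inj e).comp (MV.isoM_inj _)) ((by decide +kernel : ∀ l < 8,
    eqW C tO ([8 + l / 4] ++ [l]) (.replicate 2 l ++ [8 + l / 4]) = true) (l % 8)
    (Nat.mod_lt l (by decide)))
  refine ⟨⟨W C tO _ [l % 8], ?_⟩, (ι_W hI _).trans (by simp [tP])⟩
  rw [W_rep, sq, ← mul_inv_eq_iff_eq_mul] at this
  exact this ▸ Subgroup.commutator_mem_commutator (Subgroup.mem_top _) (Subgroup.mem_top _)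

theorem cfgO {M : Type} [Monoid M] {C : Cd M} {t : ℕ → ℕ} {G : Type*} [Group G] {ι : G →* M}
    (h : ∀ l, ∃ g, ι g = C.dec (t l)) (hι : Function.Injective ι) (hC : C.Can)
    (h1 : ∀ a < 4, eqW C t (.replicate 3 a) [] = true) (h2 : neW C t [0] = true)
    (h3 : eqW C t ([4, 7, 4] ++ [1]) ([0] ++ [4, 7, 4]) = true)
    (h4 : ∀ i : Fin 3, eqW C t [0, 1 + i] [1 + i, 0] = true ∧ eqW C t [0, 4 + i] [4 + i, 0] = true ∧
      eqW C t ([4 + i.1] ++ [1 + i.1]) ([1 + i.1, 0] ++ [4 + i.1]) = true ∧ ∀ j : Fin 3, i < j →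
        eqW C t [1 + i, 1 + j] [1 + j, 1 + i] = true ∧ eqW C t [1 + i, 4 + j] [4 + j, 1 + i] = true) :
    CfgO G := by
  have q : ∀ a < 4, W C t ι [a] ^ 3 = 1 := fun a ha => by
    rw [← W_rep]
    exact W_eq h hι (h1 a ha)
  exact ⟨W C t ι [0], fun i => W C t ι [1 + i], fun i => W C t ι [4 + i],
    orderOf_eq_prime (q 0 (by decide)) (W_ne h hC h2), isConj_iff.2 ⟨_, W_conj h hι h3⟩,
    fun i => q _ (by omega), fun i => W_two h hι (h4 i).1, fun i => W_two h hι (h4 i).2.1,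
    fun i => (W_conj h hι (h4 i).2.2.1).trans (W_cons _ _),
    fun i j k => ⟨W_two h hι ((h4 i).2.2.2 j k).1, W_two h hι ((h4 i).2.2.2 j k).2⟩⟩

theorem jobCO : JobCO :=
  cfgO hO O73M.ι_inj O73M.can (by decide +kernel) (by decide +kernel) (by decide +kernel)
    (by decide +kernel)

end

end H96.E7TC
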