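/- Tower E82, job P: the pressure bound for modules of `SL₂(2 ^ f)`. -/
import Cfsg.Agent.H40.E82Spec

set_option autoImplicit false

namespace H96.E82P

open Matrix Module H40.E8F H56.SL2M H40.E82
open scoped MatrixGroups Classical

universe u

/-- The solution `r < n` of `2 r = j + 2 ^ (i + 1)` modulo `n`. -/
def rr (n j i : ℕ) : ℕ := ((j + 2 ^ (i + 1)) * ((n + 1) / 2)) % n

theorem mem_sb {r j : ℕ} : r ∈ sb j ↔ r < 64 ∧ r &&& j = r := by simp [sb]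

def T1 (f : ℕ) : Prop := ∀ j < 2 ^ f - 1, ∀ i < f, ∀ r < 64, r &&& j = r →
  (2 * r) % (2 ^ f - 1) = (j + 2 ^ (i + 1)) % (2 ^ f - 1) → r = rr (2 ^ f - 1) j i

def T2 (f : ℕ) : Prop := ∀ j < 2 ^ f - 1, ∀ i < f, j = 2 ^ ((i + 1) % f) ∨
  rr (2 ^ f - 1) j i &&& j ≠ rr (2 ^ f - 1) j i ∨
  ∃ l < f, rr (2 ^ f - 1) j i &&& 2 ^ l = 0 ∧ rr (2 ^ f - 1) j i + 2 ^ l < 64 ∧
    (rr (2 ^ f - 1) j i + 2 ^ l) &&& j = rr (2 ^ f - 1) j i + 2 ^ l ∧
    (l = i ∨ rr (2 ^ f - 1) j l &&& 2 ^ i ≠ 0 ∨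
      (rr (2 ^ f - 1) j l + 2 ^ i) &&& j ≠ rr (2 ^ f - 1) j l + 2 ^ i ∨
      rr (2 ^ f - 1) j l &&& j ≠ rr (2 ^ f - 1) j l)

def T3 (f : ℕ) : Prop := ∀ i < f, (sb (2 ^ ((i + 1) % f))).card = 2 ∧
  ∀ l < f, 2 ^ ((i + 1) % f) = 2 ^ ((l + 1) % f) → i = l

def T4 (f : ℕ) : Prop := ∀ r < 2 ^ f, r ≠ 0 → ∃ i < f, (r - 2 ^ i) &&& 2 ^ i = 0 ∧ r - 2 ^ i + 2 ^ i = r

theorem tabs {f : ℕ} (h : f = 4 ∨ f = 6) : T1 f ∧ T2 f ∧ T3 f ∧ T4 f := by
  unfold T1 T2 T3 T4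
  rcases h with rfl | rfl <;> refine ⟨?_, ?_, ?_, ?_⟩ <;> decide +kernel

theorem fr_le {k V W : Type} [Field k] [AddCommGroup V] [Module k V] [AddCommGroup W] [Module k W]
    [FiniteDimensional k V] [FiniteDimensional k W] (φ : V →ₗ[k] W) (U K : Submodule k V)
    (I : Submodule k W) (h1 : ∀ v ∈ U, φ v ∈ I) (h2 : ∀ v ∈ U, φ v = 0 → v ∈ K) :
    finrank k U ≤ finrank k K + finrank k I := by
  have a := LinearMap.finrank_range_add_finrank_ker (φ.domRestrict U)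
  have b : finrank k (LinearMap.range (φ.domRestrict U)) ≤ finrank k I :=
    Submodule.finrank_mono (by rintro _ ⟨v, rfl⟩; exact h1 v v.2)
  have c : finrank k (LinearMap.ker (φ.domRestrict U)) ≤ finrank k K := by
    rw [← Submodule.finrank_map_subtype_eq]
    exact Submodule.finrank_mono (by rintro _ ⟨v, hv, rfl⟩; exact h2 v v.2 hv)
  omega

section
variable {F : Type u} [Field F] [Fintype F] {k V : Type} [Field k] [AddCommGroup V] [Module k V]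
  (ι : F →+* k) (ρ : Representation k SL(2, F) V)

/-- The cocycle space. -/
def Z (f : ℕ) (s : Fˣ) (W : Submodule k V) : Submodule k (Fin f → V) where
  carrier := {σ | (∀ i : Fin f, σ i ∈ W ∧ ρ (hh s) (σ i) = ι s ^ 2 ^ (i.1 + 1) • σ i ∧
    A ι ρ (2 ^ i.1) (σ i) = 0) ∧ ∀ i l : Fin f, A ι ρ (2 ^ l.1) (σ i) = A ι ρ (2 ^ i.1) (σ l)}
  zero_mem' := ⟨fun i => by simp, fun i l => by simp⟩
  add_mem' := fun {a b} ha hb => ⟨fun i => ⟨W.add_mem (ha.1 i).1 (hb.1 i).1, by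
    simp only [Pi.add_apply, map_add, (ha.1 i).2.1, (hb.1 i).2.1, smul_add], by
    simp only [Pi.add_apply, map_add, (ha.1 i).2.2, (hb.1 i).2.2, add_zero]⟩, fun i l => by
    simp only [Pi.add_apply, map_add, ha.2 i l, hb.2 i l]⟩
  smul_mem' := fun c a ha => ⟨fun i => ⟨W.smul_mem c (ha.1 i).1, by
    simp only [Pi.smul_apply, map_smul, (ha.1 i).2.1, smul_comm c], by
    simp only [Pi.smul_apply, map_smul, (ha.1 i).2.2, smul_zero]⟩, fun i l => by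
    simp only [Pi.smul_apply, map_smul, ha.2 i l]⟩

variable {ι ρ}

/-- A weight vector is a multiple of one basis vector modulo `W`. -/
theorem wt {W : Submodule k V} {h : End k V} {a : k} {j m r0 : ℕ} {z v : V}
    (hA : ∀ r, h * A ι ρ r = a ^ (2 * r) • (A ι ρ r * h)) (hI : ∀ r, ∀ v ∈ W, A ι ρ r v ∈ W)
    (hW : ∀ v ∈ W, h v ∈ W) (h1 : ∃ c : ℕ → k, v - ∑ r ∈ sb j, c r • A ι ρ r z ∈ W)
    (h2 : ∀ c : ℕ → k, ∑ r ∈ sb j, c r • A ι ρ r z ∈ W → ∀ r ∈ sb j, c r = 0)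
    (h4 : a ^ j • h z - z ∈ W) (hu : ∀ r ∈ sb j, a ^ (2 * r) = a ^ (j + m) → r = r0)
    (he : h v = a ^ m • v) : ∃ c : k, v - c • A ι ρ r0 z ∈ W := by
  obtain ⟨c, hc⟩ := h1
  have e : ∀ r, h (A ι ρ r z) = a ^ (2 * r) • A ι ρ r (h z) := fun r => congrArg (fun g => g z) (hA r)
  have key : ∑ r ∈ sb j, (c r * (a ^ (j + m) - a ^ (2 * r))) • A ι ρ r z =
      (a ^ j • h (v - ∑ r ∈ sb j, c r • A ι ρ r z) - a ^ (j + m) • (v - ∑ r ∈ sb j, c r • A ι ρ r z)) +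
        ∑ r ∈ sb j, (c r * a ^ (2 * r)) • A ι ρ r (a ^ j • h z - z) := by
    rw [map_sub, map_sum, he, smul_sub, smul_sub, smul_smul, ← pow_add, Finset.smul_sum,
      Finset.smul_sum, sub_sub_sub_cancel_left, ← Finset.sum_sub_distrib, ← Finset.sum_add_distrib]
    refine Finset.sum_congr rfl fun r _ => ?_
    simp only [map_smul, e, map_sub]
    module
  have h0 := h2 _ (key ▸ W.add_mem (W.sub_mem (W.smul_mem _ (hW _ hc)) (W.smul_mem _ hc))
    (W.sum_mem fun r _ => W.smul_mem _ (hI r _ h4)))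
  have hz : ∀ r ∈ sb j, r ≠ r0 → c r • A ι ρ r z = 0 := fun r hr hne => by
    rcases mul_eq_zero.1 (h0 r hr) with e1 | e1
    · rw [e1, zero_smul]
    · exact absurd (hu r hr (sub_eq_zero.1 e1).symm) hne
  by_cases hr : r0 ∈ sb j
  · exact ⟨c r0, by rwa [Finset.sum_eq_single_of_mem r0 hr hz] at hc⟩
  · refine ⟨0, ?_⟩
    rw [Finset.sum_eq_zero fun r h => hz r h fun e => hr (e ▸ h)] at hc
    simpa using hc

theorem step [FiniteDimensional k V] {f : ℕ} (hf : f = 4 ∨ f = 6) (hq : Fintype.card F = 2 ^ f)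
    {s : Fˣ} (hs : orderOf s = 2 ^ f - 1)
    (a2 : ∀ r s, A ι ρ r * A ι ρ s = if r &&& s = 0 then A ι ρ (r + s) else 0)
    (a3 : ∀ r : ℕ, ρ (hh s) * A ι ρ r = ι s ^ (2 * r) • (A ι ρ r * ρ (hh s)))
    (a8 : ∀ W, H40.E82.Inv ρ W → ∀ r, ∀ v ∈ W, A ι ρ r v ∈ W) {W W' : Submodule k V} {j : ℕ}
    (S : Step ι ρ W W' j) (hj : j ≠ 2 ^ f - 1) :
    finrank k (Z ι ρ f s W') ≤ finrank k (Z ι ρ f s W) + if (sb j).card = 2 then 1 else 0 := by
  obtain ⟨hj0, -, hW, -, z, -, h1, h2, h3, h4, -⟩ := S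
  obtain ⟨t1, t2, t3, -⟩ := tabs hf
  have hj1 : j < 2 ^ f - 1 := by omega
  have hI := a8 W hW
  have w1 : ∀ σ ∈ Z ι ρ f s W', ∀ i : Fin f, ∃ c : k, σ i - c • A ι ρ (rr (2 ^ f - 1) j i) z ∈ W :=
    fun σ hσ i => wt a3 hI (hW _) (h1 _ (hσ.1 i).1) h2 (h4 s) (fun r hr e => by
      refine t1 j hj1 i i.2 r (mem_sb.1 hr).1 (mem_sb.1 hr).2 ?_
      rw [← map_pow, ← map_pow, ι.injective.eq_iff, ← Units.val_pow_eq_pow_val,
        ← Units.val_pow_eq_pow_val, Units.val_inj, pow_eq_pow_iff_modEq, hs] at e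
      exact e) (hσ.1 i).2.1
  have nsb : ∀ r, r &&& j ≠ r → A ι ρ r z ∈ W := fun r h => h3 r fun e => h (mem_sb.1 e).2
  have w2 : ∀ σ ∈ Z ι ρ f s W', ∀ i : Fin f, j ≠ 2 ^ ((i.1 + 1) % f) → σ i ∈ W := by
    intro σ hσ i hi
    obtain ⟨c, hc⟩ := w1 σ hσ i
    rcases t2 j hj1 i i.2 with h | h | ⟨l, hl, b1, b2, b3, b4⟩
    · exact absurd h hi
    · simpa using W.add_mem hc (W.smul_mem c (nsb _ h))
    have hm : A ι ρ (2 ^ l) (σ i) ∈ W := by
      rcases b4 with b4 | b4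
      · rw [b4, (hσ.1 i).2.2]; exact W.zero_mem
      rw [hσ.2 i ⟨l, hl⟩]
      obtain ⟨d, hd⟩ := w1 σ hσ ⟨l, hl⟩
      have e1 : A ι ρ (2 ^ i.1) (A ι ρ (rr (2 ^ f - 1) j l) z) ∈ W := by
        rcases b4 with b4 | b4 | b4
        · rw [← End.mul_apply, a2, if_neg (by rwa [Nat.and_comm])]; exact W.zero_mem
        · rw [← End.mul_apply, a2]
          split_ifs
          · rw [add_comm]; exact nsb _ b4
          · exact W.zero_mem
        · exact hI _ _ (nsb _ b4)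
      have := W.add_mem (hI (2 ^ i.1) _ hd) (W.smul_mem d e1)
      simpa using this
    have e2 : c • A ι ρ (rr (2 ^ f - 1) j i + 2 ^ l) z ∈ W := by
      have := W.sub_mem hm (hI (2 ^ l) _ hc)
      rw [map_sub, sub_sub_cancel, map_smul, ← End.mul_apply, a2, if_pos (by rwa [Nat.and_comm]),
        add_comm] at this
      exact this
    have hr : rr (2 ^ f - 1) j i + 2 ^ l ∈ sb j := mem_sb.2 ⟨b2, b3⟩
    have := h2 (fun x => if x = rr (2 ^ f - 1) j i + 2 ^ l then c else 0)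
      (by simpa [ite_smul, Finset.sum_ite_eq', hr] using e2) _ hr
    simp only [if_true] at this
    simpa [this] using hc
  have zz : ∀ σ ∈ Z ι ρ f s W', (∀ i, σ i ∈ W) → σ ∈ Z ι ρ f s W := fun σ hσ h =>
    ⟨fun i => ⟨h i, (hσ.1 i).2⟩, hσ.2⟩
  by_cases hx : ∃ i : Fin f, j = 2 ^ ((i.1 + 1) % f)
  · obtain ⟨i, hi⟩ := hx
    rw [if_pos (hi ▸ (t3 i i.2).1)]
    have := fr_le (W.mkQ ∘ₗ LinearMap.proj i) (Z ι ρ f s W') (Z ι ρ f s W)
      (Submodule.span k {W.mkQ (A ι ρ (rr (2 ^ f - 1) j i) z)}) (fun σ hσ => by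
        obtain ⟨c, hc⟩ := w1 σ hσ i
        refine Submodule.mem_span_singleton.2 ⟨c, ?_⟩
        rw [← map_smul]
        exact ((Submodule.Quotient.eq W).2 hc).symm) (fun σ hσ h => zz σ hσ fun l => by
        by_cases e : l = i
        · rw [e]; exact (Submodule.Quotient.mk_eq_zero W).1 h
        · exact w2 σ hσ l fun e' => e (Fin.ext ((t3 i i.2).2 l l.2 (hi.symm.trans e')).symm))
    exact this.trans (Nat.add_le_add_left ((finrank_span_le_card _).trans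
      (by rw [Set.toFinset_card, Set.card_singleton])) _)
  · exact (Submodule.finrank_mono fun σ hσ => zz σ hσ fun i => w2 σ hσ i fun e => hx ⟨i, e⟩).trans
      (Nat.le_add_right _ _)

end

theorem jobP (a : JobA.{u}) (b : JobB0.{u}) : JobP.{u} := by
  intro F _ _ k V _ _ _ _ _ ι ρ f hf hq s hs M J hM hJ
  have h64 : Fintype.card F ≤ 64 := by rcases hf with rfl | rfl <;> omega
  obtain ⟨a1, a2, a3, -, -, -, -, a8⟩ := a ι ρ h64
  obtain ⟨b1, -, -, b4⟩ := b ι ρ h64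
  have hZ : finrank k (Z ι ρ f s M) ≤ (J.filter fun j => (sb j).card = 2).card := by
    induction hM with
    | bot =>
      have : Z ι ρ f s ⊥ = ⊥ := eq_bot_iff.2 fun σ hσ => funext fun i => (hσ.1 i).1
      simp [this]
    | step _ S ih =>
      have h1 := step hf hq hs a2 (a3 s) a8 S fun e => hJ (e ▸ Multiset.mem_cons_self _ _)
      have h2 := ih fun e => hJ (Multiset.mem_cons_of_mem e)
      rw [Multiset.filter_cons, Multiset.card_add]
      split_ifs at h1 ⊢ <;> simp only [Multiset.card_singleton, Multiset.card_zero] <;> omega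
  have hI : H40.E82.Inv ρ M := by
    cases hM with
    | bot => exact fun g v hv => by simp [(Submodule.mem_bot k).1 hv]
    | step _ S => exact S.2.2.2.1
  obtain ⟨n, hn⟩ := b4 M J hM (hq ▸ hJ)
  refine (fr_le (LinearMap.pi fun i : Fin f => A ι ρ (2 ^ i.1)) _ _ (Z ι ρ f s M) ?_ ?_).trans
    (Nat.add_le_add_left hZ _)
  · rintro v ⟨hv, he⟩
    have he' : ρ (hh s) v = v := by simpa using End.mem_eigenspace_iff.1 he
    refine ⟨fun i => ⟨a8 M hI _ v hv, ?_, ?_⟩, fun i l => ?_⟩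
    · show ρ (hh s) (A ι ρ (2 ^ i.1) v) = _ • A ι ρ (2 ^ i.1) v
      rw [← End.mul_apply, a3, LinearMap.smul_apply, End.mul_apply, he', pow_succ']
    · show A ι ρ (2 ^ i.1) (A ι ρ (2 ^ i.1) v) = 0
      rw [← End.mul_apply, a2, if_neg (by simp), LinearMap.zero_apply]
    · show A ι ρ (2 ^ l.1) (A ι ρ (2 ^ i.1) v) = A ι ρ (2 ^ i.1) (A ι ρ (2 ^ l.1) v)
      rw [← End.mul_apply, ← End.mul_apply, a2, a2, Nat.and_comm, add_comm]
  · rintro v ⟨hv, he⟩ h0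
    have he' : ρ (hh s) v = v := by simpa using End.mem_eigenspace_iff.1 he
    refine ⟨hv, b1 v (fun t => ?_) (fun s' => ?_) ⟨n, hn v hv⟩⟩
    · rw [a1, LinearMap.sum_apply, Finset.sum_eq_single_of_mem 0 (by simp [Fintype.card_pos])]
      · simp [A]
      intro r hr hne
      obtain ⟨i, hi, e1, e2⟩ := (tabs hf).2.2.2 r (hq ▸ Finset.mem_range.1 hr) hne
      have e3 : A ι ρ (2 ^ i) v = 0 := congrFun h0 ⟨i, hi⟩
      have e4 := a2 (r - 2 ^ i) (2 ^ i)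
      rw [if_pos e1, e2] at e4
      rw [LinearMap.smul_apply, ← e4, End.mul_apply, e3, map_zero, smul_zero]
    · have ht : Subgroup.zpowers s = ⊤ := by
        rw [← Subgroup.card_eq_iff_eq_top, Nat.card_zpowers, hs, Nat.card_units, Nat.card_eq_fintype_card, hq]
      obtain ⟨m, rfl⟩ := (Submonoid.mem_powers_iff s' s).1
        (mem_powers_iff_mem_zpowers.2 (ht ▸ Subgroup.mem_top s'))
      induction m with
      | zero => simp [hh_one]
      | succ m ih => rw [pow_succ, hh_mul, map_mul, End.mul_apply, he', ih]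

end H96.E82P
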