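import Cfsg.Agent.H15.KGKit
import Cfsg.Agent.H57.Unitri

/-! Slot KG-L34: elements of order four of `L₃(4)` have centralisers of order 16. -/

set_option autoImplicit false

namespace H96.KG

open Matrix H15.KG

variable {F : Type} [Field F]

theorem mk_eq {g m : Matrix.SpecialLinearGroup (Fin 3) F} :
    (m : ProjectiveSpecialLinearGroup (Fin 3) F) = g ↔ ∃ r : F, g.1 = r • m.1 := by
  rw [QuotientGroup.eq, Matrix.SpecialLinearGroup.mem_center_iff]
  have e : m.1 * (m⁻¹ * g).1 = g.1 := congrArg Subtype.val (mul_inv_cancel_left m g)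
  refine ⟨fun ⟨r, _, h⟩ => ⟨r, by rw [← e, ← show scalar (Fin 3) r = (m⁻¹ * g).1 from h]; ext; simp [mul_comm]⟩,
    fun ⟨r, h⟩ => ?_⟩
  have k : (m⁻¹ * g).1 = scalar (Fin 3) r := by
    rw [show (m⁻¹ * g).1 = (m⁻¹).1 * g.1 from rfl, h, Matrix.mul_smul,
      show (m⁻¹).1 * m.1 = 1 from congrArg Subtype.val (inv_mul_cancel m)]
    simp [smul_one_eq_diagonal]
  exact ⟨r, by simpa [k] using (m⁻¹ * g).2, k.symm⟩

/-- Unitriangular matrices. -/
def un (a b c : F) : Matrix.SpecialLinearGroup (Fin 3) F :=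
  ⟨!![1, a, b; 0, 1, c; 0, 0, 1], by simp [det_fin_three]⟩

theorem un_mul (a b c a' b' c' : F) : un a b c * un a' b' c' = un (a + a') (b + b' + a * c') (c + c') :=
  Subtype.ext (by
    change (un a b c).1 * (un a' b' c').1 = _
    ext i j
    fin_cases i <;> fin_cases j <;> simp [un, mul_apply, Fin.sum_univ_three] <;> ring)

theorem cc_un {a b c : F} (ha : a ≠ 0) (hc : c ≠ 0) :
    cc (un a b c : ProjectiveSpecialLinearGroup (Fin 3) F) = Nat.card F ^ 2 := by
  rw [pow_two, ← Nat.card_prod]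
  refine (Nat.card_eq_of_bijective (fun s : F × F => (⟨un (s.1 * a) s.2 (s.1 * c),
    Subgroup.mem_centralizer_singleton_iff.2 ?_⟩ :
      Subgroup.centralizer {(un a b c : ProjectiveSpecialLinearGroup (Fin 3) F)})) ⟨?_, ?_⟩).symm
  · rw [← QuotientGroup.mk_mul, ← QuotientGroup.mk_mul, un_mul, un_mul]
    congr 2 <;> ring
  · intro s t h
    obtain ⟨r, hr⟩ := mk_eq.1 (congrArg Subtype.val h)
    have e := fun i j => congrFun₂ hr i j
    have e0 := e 0 0
    have e1 := e 0 1
    have e2 := e 0 2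
    simp [un] at e0 e1 e2
    subst e0
    simp [ha] at e1 e2
    exact Prod.ext e1.symm e2.symm
  · rintro ⟨g, hg⟩
    obtain ⟨g, rfl⟩ := QuotientGroup.mk_surjective g
    obtain ⟨r, hr⟩ := mk_eq.1 (show ((un a b c * g : Matrix.SpecialLinearGroup _ _) :
      ProjectiveSpecialLinearGroup (Fin 3) F) = (g * un a b c : Matrix.SpecialLinearGroup _ _) from
        (Subgroup.mem_centralizer_singleton_iff.1 hg).symm)
    have d := g.2
    rw [det_fin_three] at d
    change g.1 * !![1, a, b; 0, 1, c; 0, 0, 1] = r • (!![1, a, b; 0, 1, c; 0, 0, 1] * g.1) at hr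
    have e := fun i j => congrFun₂ hr i j
    have e00 := e 0 0
    have e01 := e 0 1
    have e02 := e 0 2
    have e10 := e 1 0
    have e12 := e 1 2
    have e20 := e 2 0
    have e21 := e 2 1
    have e22 := e 2 2
    simp only [mul_apply, Fin.sum_univ_three, Matrix.smul_apply,
      smul_eq_mul] at e00 e01 e02 e10 e12 e20 e21 e22
    simp at e00 e01 e02 e10 e12 e20 e21 e22
    obtain rfl : r = 1 := by_contra fun h => by
      have h' := sub_ne_zero.2 h
      have z0 : g.1 2 0 = 0 := (mul_eq_zero_iff_left h').1 (by linear_combination -e20)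
      have z1 : g.1 2 1 = 0 := (mul_eq_zero_iff_left h').1 (by linear_combination -e21 + a * z0)
      have z2 : g.1 2 2 = 0 :=
        (mul_eq_zero_iff_left h').1 (by linear_combination -e22 + b * z0 + c * z1)
      simp [z0, z1, z2] at d
    have z0 : g.1 2 0 = 0 := (mul_eq_zero_iff_left hc).1 (by linear_combination -e10)
    have z1 : g.1 2 1 = 0 := (mul_eq_zero_iff_left hc).1 (by linear_combination e22 - b * z0)
    have z2 : g.1 1 0 = 0 := (mul_eq_zero_iff_left ha).1 (by linear_combination -e00 - b * z0)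
    have y1 : g.1 1 1 = g.1 0 0 := mul_left_cancel₀ ha (by linear_combination -e01 - b * z1)
    have y2 : g.1 2 2 = g.1 0 0 := mul_left_cancel₀ hc (by linear_combination -e12 + b * z2 + c * y1)
    have d0 : g.1 0 0 ≠ 0 := fun k => by simp [z0, z1, z2, k] at d
    refine ⟨(g.1 0 1 / (a * g.1 0 0), g.1 0 2 / g.1 0 0), Subtype.ext (mk_eq.2 ⟨g.1 0 0, ?_⟩)⟩
    ext i j
    fin_cases i <;> fin_cases j <;> simp [un, z0, z1, z2, y1, y2] <;> field_simp
    linear_combination -e02 - b * y2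

theorem jobL34 : JobL34 := by
  intro F _ _ hF x k hx
  haveI : Fact (Nat.Prime 2) := ⟨Nat.prime_two⟩
  haveI : CharP F 2 := charP_of_card_eq_prime_pow (f := 2) hF
  obtain ⟨Q, hQ⟩ := (IsPGroup.of_card (p := 2) ((Nat.card_zpowers x).trans hx)).exists_le_sylow
  obtain ⟨g, hg⟩ := MulAction.exists_smul_eq (ProjectiveSpecialLinearGroup (Fin 3) F) Q
    ((H57.sylowUnitriSL 3 F 2).mapSurjective (QuotientGroup.mk'_surjective (Subgroup.center _)))
  have h1 : g * x * g⁻¹ ∈ ((g • Q : Sylow 2 _) : Subgroup _) :=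
    Subgroup.smul_mem_pointwise_smul x (MulAut.conj g) _ (hQ (Subgroup.mem_zpowers x))
  rw [hg, Sylow.coe_mapSurjective, H57.coe_sylowUnitriSL] at h1
  obtain ⟨u, hu, e⟩ := h1
  obtain ⟨u1, u2⟩ := H57.mem_unitriSL.1 hu
  obtain ⟨a, b, c, rfl⟩ : ∃ a b c, u = un a b c := ⟨u.1 0 1, u.1 0 2, u.1 1 2, Subtype.ext (by
    ext i j
    fin_cases i <;> fin_cases j <;> simp [un, u2] <;> exact u1 _ _ (by decide))⟩
  have hc : IsConj x (un a b c) := isConj_iff.2 ⟨g, e.symm⟩
  have ac : a * c ≠ 0 := fun h => by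
    have t : (2 : F) = 0 := CharP.cast_eq_zero F 2
    have s : un a b c ^ 2 = 1 := by
      rw [pow_two, un_mul, h, ← two_mul, ← two_mul, ← two_mul, t, zero_mul, zero_mul, zero_mul, add_zero]
      exact Subtype.ext one_fin_three.symm
    have := orderOf_dvd_of_pow_eq_one (x := (un a b c : ProjectiveSpecialLinearGroup (Fin 3) F))
      (n := 2) (by rw [← QuotientGroup.mk_pow, s]; rfl)
    rw [← ord_conj hc, hx, pow_add] at this
    exact absurd ((Dvd.intro_left _ rfl).trans this) (by decide)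
  rw [cc_conj hc, cc_un (left_ne_zero_of_mul ac) (right_ne_zero_of_mul ac), Nat.card_eq_fintype_card, hF]
  rfl

end H96.KG
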