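import Cfsg.Agent.H24.ClassCount
import Cfsg.Agent.H18.PSolv
import Cfsg.Agent.H10.StableNormal
import Cfsg.Agent.H3.FrattiniP
import Cfsg.Agent.H4.Cover
import Cfsg.Agent.H40.GlSolv
import Cfsg.Agent.H2.PrimeCore

/-! The class number bound for `p`-solvable groups with trivial `p'`-core, from the k(GV) bound. -/

set_option autoImplicit false
open Cfsg

namespace H96.KgvRow

open Finset

universe u

section Count
variable {G : Type*} [Group G]

open Classical in
theorem card_conj_mul [Fintype G] :
    Nat.card (ConjClasses G) * Nat.card G = ∑ x : G, #{y : G | Commute x y} := by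
  rw [H24.card_conjClasses_mul_card]
  simp only [H24.card_centralizer_eq_card_filter]

open Classical in
theorem card_fiber [Fintype G] (N : Subgroup G) (c : G ⧸ N) :
    #{y : G | (y : G ⧸ N) = c} = Nat.card N := by
  obtain ⟨g, rfl⟩ := QuotientGroup.mk_surjective c
  rw [Nat.card_eq_fintype_card, Fintype.card_subtype]
  refine Finset.card_bij (fun y _ => g⁻¹ * y) (fun y hy => ?_) (fun a _ b _ h => by simpa using h) ?_
  · simp only [mem_filter, mem_univ, true_and] at hy ⊢
    exact QuotientGroup.eq.mp hy.symm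
  · intro b hb
    simp only [mem_filter, mem_univ, true_and] at hb
    refine ⟨g * b, ?_, by simp⟩
    simp only [mem_filter, mem_univ, true_and]
    symm
    rw [QuotientGroup.eq]
    simpa using hb

open Classical in
theorem sum_comp_mk [Fintype G] (N : Subgroup G) [Fintype (G ⧸ N)] (f : G ⧸ N → ℕ) :
    ∑ x : G, f (x : G ⧸ N) = Nat.card N * ∑ c : G ⧸ N, f c := by
  rw [← Finset.sum_fiberwise (s := univ) (g := fun x : G => (x : G ⧸ N)), Finset.mul_sum]
  refine Finset.sum_congr rfl fun c _ => ?_
  rw [Finset.sum_congr rfl (g := fun _ => f c), Finset.sum_const, card_fiber, smul_eq_mul]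
  intro x hx
  simp only [mem_filter, mem_univ, true_and] at hx
  rw [hx]

open Classical in
theorem sum_pairs_mod [Fintype G] (N : Subgroup G) [N.Normal] :
    ∑ x : G, #{y : G | Commute (x : G ⧸ N) (y : G ⧸ N)} =
      Nat.card N * Nat.card (ConjClasses (G ⧸ N)) * Nat.card G := by
  have : Fintype (G ⧸ N) := Fintype.ofFinite _
  have h1 : ∀ c : G ⧸ N, #{y : G | Commute c (y : G ⧸ N)} =
      Nat.card N * #{d : G ⧸ N | Commute c d} := by
    intro c
    rw [Finset.card_filter, Finset.card_filter]
    exact sum_comp_mk N (fun d => if Commute c d then 1 else 0)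
  simp only [h1]
  rw [sum_comp_mk N (fun c => Nat.card N * #{d : G ⧸ N | Commute c d}), ← Finset.mul_sum,
    ← card_conj_mul, Subgroup.card_eq_card_quotient_mul_card_subgroup N]
  ring

/-- `k(G) ≤ |N| k(G/N)`. -/
theorem triv_le [Finite G] (N : Subgroup G) [N.Normal] :
    Nat.card (ConjClasses G) ≤ Nat.card N * Nat.card (ConjClasses (G ⧸ N)) := by
  classical
  have := Fintype.ofFinite G
  refine Nat.le_of_mul_le_mul_right ?_ (Nat.card_pos (α := G))
  rw [card_conj_mul, ← sum_pairs_mod]
  refine Finset.sum_le_sum fun x _ => Finset.card_le_card fun y hy => ?_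
  simp only [mem_filter, mem_univ, true_and] at hy ⊢
  exact hy.map (QuotientGroup.mk' N)

theorem triv_lt [Finite G] (N : Subgroup G) [N.Normal] {a b : G} (hab : ¬ Commute a b)
    (hq : Commute (a : G ⧸ N) (b : G ⧸ N)) :
    Nat.card (ConjClasses G) < Nat.card N * Nat.card (ConjClasses (G ⧸ N)) := by
  classical
  have := Fintype.ofFinite G
  refine Nat.lt_of_mul_lt_mul_right (a := Nat.card G) ?_
  rw [card_conj_mul, ← sum_pairs_mod]
  have hs : ∀ x : G, (univ.filter fun y : G => Commute x y) ⊆
      (univ.filter fun y : G => Commute (x : G ⧸ N) (y : G ⧸ N)) := by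
    intro x y hy
    simp only [mem_filter, mem_univ, true_and] at hy ⊢
    exact hy.map (QuotientGroup.mk' N)
  refine Finset.sum_lt_sum (fun x _ => Finset.card_le_card (hs x)) ⟨a, mem_univ _, ?_⟩
  refine Finset.card_lt_card ⟨hs a, fun h => hab ?_⟩
  have := h (mem_filter.mpr ⟨mem_univ b, hq⟩)
  simpa using this

open Classical in
theorem sum_coset_eq [Fintype G] (N : Subgroup G) (c : G ⧸ N) :
    ∑ x ∈ univ.filter (fun x : G => (x : G ⧸ N) = c), #{n : G | n ∈ N ∧ Commute x n} =
      ∑ n : N, #{y : G | (y : G ⧸ N) = c ∧ Commute (n : G) y} := by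
  have h := Finset.sum_card_bipartiteAbove_eq_sum_card_bipartiteBelow
    (s := univ.filter (fun x : G => (x : G ⧸ N) = c)) (t := univ.filter (fun n : G => n ∈ N))
    (r := fun x n : G => Commute x n)
  simp only [Finset.bipartiteAbove, Finset.bipartiteBelow, Finset.filter_filter] at h
  rw [h, Finset.sum_subtype (p := fun n : G => n ∈ N) _ (fun x => by simp)]
  refine Finset.sum_congr rfl fun n _ => ?_
  congr 1
  ext y
  simp only [mem_filter, mem_univ, true_and]
  exact and_congr_right fun _ => ⟨fun h => h.symm, fun h => h.symm⟩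

/-- Gallagher's inequality is strict when some element moves a class of `N`. -/
theorem gall_lt [Finite G] (N : Subgroup G) [N.Normal] {x a : G} (ha : a ∈ N)
    (h : ∀ n ∈ N, ¬ Commute a (x * n)) :
    Nat.card (ConjClasses G) < Nat.card (ConjClasses N) * Nat.card (ConjClasses (G ⧸ N)) := by
  classical
  have := Fintype.ofFinite G
  have : Fintype (G ⧸ N) := Fintype.ofFinite _
  refine Nat.lt_of_mul_lt_mul_right (a := Nat.card G) ?_
  rw [card_conj_mul]
  set kN := Nat.card (ConjClasses N) with hkN
  have hle : ∀ (c : G ⧸ N) (n : N), #{y : G | (y : G ⧸ N) = c ∧ Commute (n : G) y} ≤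
      #{m : N | Commute n m} := by
    intro c n
    rw [← H24.card_filter_mem_commute]
    exact H24.card_coset_commute_le N _ c
  calc ∑ x : G, #{y : G | Commute x y}
      ≤ ∑ x : G, #{d : G ⧸ N | Commute (x : G ⧸ N) d} *
          #{n : G | n ∈ N ∧ Commute x n} := by
        refine Finset.sum_le_sum fun x _ => ?_
        rw [Finset.card_eq_sum_card_fiberwise (f := fun y : G => (y : G ⧸ N))
          (t := univ.filter fun d : G ⧸ N => Commute (x : G ⧸ N) d)]
        · rw [← smul_eq_mul, ← Finset.sum_const]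
          refine Finset.sum_le_sum fun d _ => le_trans (le_of_eq ?_) (H24.card_coset_commute_le N x d)
          congr 1; ext y; simp [and_comm]
        · intro y hy
          simp only [coe_filter, mem_univ, true_and, Set.mem_ofPred_eq] at hy ⊢
          exact hy.map (QuotientGroup.mk' N)
    _ = ∑ c : G ⧸ N, #{d : G ⧸ N | Commute c d} *
          ∑ n : N, #{y : G | (y : G ⧸ N) = c ∧ Commute (n : G) y} := by
        rw [← Finset.sum_fiberwise (s := univ) (g := fun y : G => (y : G ⧸ N))]
        refine Finset.sum_congr rfl fun c _ => ?_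
        rw [← sum_coset_eq, Finset.mul_sum]
        refine Finset.sum_congr rfl fun x hx => ?_
        simp only [mem_filter, mem_univ, true_and] at hx
        rw [hx]
    _ < ∑ c : G ⧸ N, #{d : G ⧸ N | Commute c d} * (kN * Nat.card N) := by
        rw [hkN, card_conj_mul (G := N)]
        refine Finset.sum_lt_sum (fun c _ => Nat.mul_le_mul_left _
          (Finset.sum_le_sum fun n _ => hle c n)) ⟨(x : G ⧸ N), mem_univ _, ?_⟩
        refine Nat.mul_lt_mul_of_pos_left ?_ (Finset.card_pos.mpr ⟨1, by simp⟩)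
        refine Finset.sum_lt_sum (fun n _ => hle _ n) ⟨⟨a, ha⟩, mem_univ _, ?_⟩
        have h0 : (univ.filter fun y : G => (y : G ⧸ N) = (x : G ⧸ N) ∧
            Commute ((⟨a, ha⟩ : N) : G) y) = ∅ := by
          refine Finset.filter_eq_empty_iff.mpr fun y _ hy => ?_
          refine h (x⁻¹ * y) (QuotientGroup.eq.mp hy.1.symm) ?_
          simpa using hy.2
        rw [h0]
        exact Finset.card_pos.mpr ⟨1, by simp⟩
    _ = _ := by
        rw [← Finset.sum_mul, ← card_conj_mul,
          Subgroup.card_eq_card_quotient_mul_card_subgroup N]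
        ring

theorem card_sylow_quot [Finite G] {p : ℕ} [hp : Fact p.Prime] (N : Subgroup G) [N.Normal]
    (P : Sylow p G) (P' : Sylow p (G ⧸ N)) {k m : ℕ} (hN : Nat.card N = p ^ k * m)
    (hm : ¬ p ∣ m) : Nat.card P = p ^ k * Nat.card P' := by
  have hm0 : m ≠ 0 := by rintro rfl; exact hm (dvd_zero p)
  have hq0 : Nat.card (G ⧸ N) ≠ 0 := Nat.card_pos.ne'
  have hpk : p ^ k ≠ 0 := pow_ne_zero _ hp.out.ne_zero
  rw [Sylow.card_eq_multiplicity, Sylow.card_eq_multiplicity,
    Subgroup.card_eq_card_quotient_mul_card_subgroup N, hN,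
    Nat.factorization_mul hq0 (mul_ne_zero hpk hm0), Nat.factorization_mul hpk hm0]
  simp only [Finsupp.add_apply, Nat.factorization_eq_zero_of_not_dvd hm, hp.out.factorization_pow,
    Finsupp.single_eq_same, add_zero]
  ring

/-- A `p`-subgroup fixing every class of a normal `p'`-subgroup centralizes it. -/
theorem le_centralizer_of_fix [Finite G] {p : ℕ} [Fact p.Prime] (L S : Subgroup G) [L.Normal]
    (hL : (Nat.card L).Coprime p) (hS : IsPGroup p S)
    (h : ∀ x : G, ∀ a ∈ L, ∃ n ∈ L, Commute a (x * n)) :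
    S ≤ Subgroup.centralizer (L : Set G) := by
  have htop : (Subgroup.centralizer (S : Set G)).subgroupOf L = ⊤ := by
    refine H4.eq_top_of_forall_conj_mem fun g => ?_
    obtain ⟨c, hc, hcS⟩ := H40.exists_isConj_fixed (G := L) (S := S)
      (by rw [Subgroup.normalizer_eq_top]; exact le_top)
      (H1.coprime_card_of_isPGroup hS hL) (Or.inl (H1.isSolvable_of_isPGroup hS)) g (by
        intro s _ g' hg'
        obtain ⟨n, hn, hc⟩ := h s⁻¹ g g.2
        refine isConj_iff.mpr ⟨⟨n, hn⟩⁻¹, Subtype.ext ?_⟩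
        have := hc.eq
        simp only [Subgroup.coe_mul, Subgroup.coe_inv, inv_inv, hg']
        calc n⁻¹ * (s * g * s⁻¹) * n = n⁻¹ * s * (g * (s⁻¹ * n)) := by group
          _ = g := by rw [this]; group)
    obtain ⟨t, rfl⟩ := isConj_iff.mp hc
    exact ⟨t, Subgroup.mem_subgroupOf.mpr hcS⟩
  intro s hs
  rw [Subgroup.mem_centralizer_iff]
  intro l hl
  have : (⟨l, hl⟩ : L) ∈ (Subgroup.centralizer (S : Set G)).subgroupOf L := by
    rw [htop]; trivial
  exact (Subgroup.mem_centralizer_iff.mp (Subgroup.mem_subgroupOf.mp this) s hs).symm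

end Count

/-- The statement of the k(GV) bound, for all finite groups of one universe. -/
def KGV (p : ℕ) : Prop :=
  ∀ (X : Type u) [Group X] [Finite X] (V : Subgroup X) [V.Normal], (∀ v ∈ V, v ^ p = 1) →
    ¬ p ∣ V.index → Subgroup.centralizer (V : Set X) = V →
    Nat.card (ConjClasses X) ≤ Nat.card V

theorem core_quot_frattini {X : Type*} [Group X] [Finite X] {p : ℕ} [hp : Fact p.Prime]
    (hc : Subgroup.centralizer (pCore p X : Set X) ≤ pCore p X) :
    pPrimeCore p (X ⧸ (frattini (pCore p X)).map (pCore p X).subtype) = ⊥ := by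
  set N := (frattini (pCore p X)).map (pCore p X).subtype with hN
  have hK := H10.IsCharP.isPGroup_sectionKernel_frattini (p := p) (G := X) hc
  have hKQ : sectionKernel (pCore p X) N ≤ pCore p X := H18.le_pCore hK
  have hQ : IsPGroup p ((pCore p X).map (QuotientGroup.mk' N)) := (H18.isPGroup_pCore p).map _
  have hQn : ((pCore p X).map (QuotientGroup.mk' N)).Normal :=
    Subgroup.Normal.map inferInstance _ (QuotientGroup.mk'_surjective N)
  have h1 : pPrimeCore p (X ⧸ N) ≤ (pCore p X).map (QuotientGroup.mk' N) := by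
    intro y hy
    obtain ⟨g, rfl⟩ := QuotientGroup.mk'_surjective N y
    refine Subgroup.mem_map_of_mem _ (hKQ ?_)
    show QuotientGroup.mk' N g ∈ Subgroup.centralizer _
    exact Subgroup.centralizer_le (H18.le_pCore hQ) (H2.pPrimeCore_le_centralizer_pCore p _ hy)
  exact ((H2.disjoint_pPrimeCore_of_isPGroup hQ).symm.eq_bot_of_le h1)

theorem main {p : ℕ} [hp : Fact p.Prime] (hk : KGV.{u} p) (n : ℕ) :
    ∀ (X : Type u) [Group X] [Finite X], Nat.card X = n → IsPSolvable p X → pPrimeCore p X = ⊥ →
      ∀ P : Sylow p X, Nat.card (ConjClasses X) ≤ Nat.card P ∧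
        ((∃ a ∈ P, ∃ b ∈ P, a * b ≠ b * a) → Nat.card (ConjClasses X) < Nat.card P) := by
  induction n using Nat.strong_induction_on with
  | _ n ih =>
  intro X _ _ hn hsolv hcore P
  have hc := H18.centralizer_pCore_le hsolv hcore
  have hlt : ∀ (N : Subgroup X) [N.Normal], N ≠ ⊥ → Nat.card (X ⧸ N) < n := by
    intro N _ hN
    rw [← hn, Subgroup.card_eq_card_quotient_mul_card_subgroup N]
    have h1 : 1 < Nat.card N := (Subgroup.one_lt_card_iff_ne_bot N).mpr hN
    have h2 : 0 < Nat.card (X ⧸ N) := Nat.card_pos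
    nlinarith
  have hQp : IsPGroup p (pCore p X) := H18.isPGroup_pCore p
  by_cases hF : frattini (pCore p X) = ⊥
  · -- the core is elementary abelian
    obtain ⟨hcomm, hexp⟩ := (H3.frattini_eq_bot_iff_pgroup hQp).mp hF
    set Q := pCore p X with hQ
    have hQc : ∀ a ∈ Q, ∀ b ∈ Q, a * b = b * a := fun a ha b hb =>
      congrArg Subtype.val (hcomm.is_comm.comm (⟨a, ha⟩ : Q) ⟨b, hb⟩)
    rcases subsingleton_or_nontrivial X with hX | hX
    · refine ⟨?_, fun ⟨a, _, b, _, h⟩ => (h (Subsingleton.elim _ _)).elim⟩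
      have : Nat.card (ConjClasses X) ≤ Nat.card X :=
        Nat.card_le_card_of_surjective _ ConjClasses.mk_surjective
      have h1 : Nat.card X = 1 := Nat.card_unique
      have h2 : 0 < Nat.card P := Nat.card_pos
      omega
    have hQ0 : Q ≠ ⊥ := (H18.isPSolvable_core_ne_bot hsolv).resolve_right (fun h => h hcore)
    set L := pPrimeCore p (X ⧸ Q) with hL
    set M := L.comap (QuotientGroup.mk' Q) with hM
    have hLn : L.Normal := by rw [hL]; exact @Subgroup.normal_of_characteristic _ _ _ (H2.pPrimeCore_characteristic p _)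
    have hMn : M.Normal := Subgroup.Normal.comap hLn _
    have hQM : Q ≤ M := by
      intro q hq
      rw [hM, Subgroup.mem_comap, QuotientGroup.mk'_apply, (QuotientGroup.eq_one_iff q).mpr hq]
      exact L.one_mem
    have hidx : (Q.subgroupOf M).index = Nat.card L := by
      have h1 := Subgroup.relIndex_ker M (QuotientGroup.mk' Q)
      rw [QuotientGroup.ker_mk', hM, Subgroup.map_comap_eq_self_of_surjective
        (QuotientGroup.mk'_surjective Q)] at h1
      exact h1
    have hLp : ¬ p ∣ Nat.card L := H2.not_dvd_card_pPrimeCore p _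
    have hcardV : Nat.card (Q.subgroupOf M) = Nat.card Q :=
      Nat.card_congr (Subgroup.subgroupOfEquivOfLe hQM).toEquiv
    have hkM : Nat.card (ConjClasses M) ≤ Nat.card Q := by
      rw [← hcardV]
      refine hk M (Q.subgroupOf M) (fun v hv => ?_) (by rw [hidx]; exact hLp) ?_
      · have h1 : ((v : X)) ^ p = 1 :=
          congrArg Subtype.val (hexp ⟨(v : X), Subgroup.mem_subgroupOf.mp hv⟩)
        exact Subtype.ext h1
      · refine le_antisymm (fun g hg => ?_) (fun g hg => ?_)
        · refine Subgroup.mem_subgroupOf.mpr (hc ?_)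
          rw [Subgroup.mem_centralizer_iff]
          intro q hq
          exact congrArg Subtype.val
            (Subgroup.mem_centralizer_iff.mp hg ⟨q, hQM hq⟩ (Subgroup.mem_subgroupOf.mpr hq))
        · rw [Subgroup.mem_centralizer_iff]
          intro q hq
          exact Subtype.ext (hQc _ (Subgroup.mem_subgroupOf.mp hq) _ (Subgroup.mem_subgroupOf.mp hg))
    have hM0 : M ≠ ⊥ := fun h => hQ0 (le_bot_iff.mp (h ▸ hQM))
    have hcore' : pPrimeCore p (X ⧸ M) = ⊥ := by
      have e1 := QuotientGroup.quotientQuotientEquivQuotient Q M hQM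
      have hmap : M.map (QuotientGroup.mk' Q) = L := by
        rw [hM, Subgroup.map_comap_eq_self_of_surjective (QuotientGroup.mk'_surjective Q)]
      have e2 := QuotientGroup.quotientMulEquivOfEq hmap
      rw [← H2.pPrimeCore_eq_bot_mulEquiv (e2.symm.trans e1)]
      exact H2.pPrimeCore_quotient_pPrimeCore p _
    obtain ⟨k, hkQ⟩ := IsPGroup.iff_card.mp hQp
    have hcardM : Nat.card M = p ^ k * Nat.card L := by
      rw [← (Q.subgroupOf M).card_mul_index, hidx, hcardV, hkQ]
    let P' : Sylow p (X ⧸ M) := Classical.arbitrary _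
    have hP := card_sylow_quot M P P' hcardM hLp
    have hih := (ih _ (hlt M hM0) (X ⧸ M) rfl (H18.isPSolvable_quotient hsolv M) hcore' P').1
    have hmul : Nat.card (ConjClasses M) * Nat.card (ConjClasses (X ⧸ M)) ≤ Nat.card P := by
      rw [hP, ← hkQ]
      exact Nat.mul_le_mul hkM hih
    refine ⟨(H24.card_conjClasses_le_mul M).trans hmul, ?_⟩
    rintro ⟨a, ha, b, hb, hab⟩
    by_cases hE : ∀ x : X, ∀ a ∈ M, ∃ n ∈ M, Commute a (x * n)
    · exfalso
      have hS : IsPGroup p ((P : Subgroup X).map (QuotientGroup.mk' Q)) := P.isPGroup'.map _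
      have h1 := le_centralizer_of_fix (p := p) L ((P : Subgroup X).map (QuotientGroup.mk' Q))
        (H2.coprime_card_pPrimeCore p _) hS (by
          intro x a ha
          obtain ⟨x, rfl⟩ := QuotientGroup.mk'_surjective Q x
          obtain ⟨a, rfl⟩ := QuotientGroup.mk'_surjective Q a
          obtain ⟨n, hn, hc⟩ := hE x a ha
          exact ⟨QuotientGroup.mk' Q n, hn, by rw [← map_mul]; exact hc.map _⟩)
      have h2 := h1.trans (H18.centralizer_pPrimeCore_le (H18.isPSolvable_quotient hsolv Q)
        (H18.pCore_quotient_pCore p))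
      have h3 := (H2.disjoint_pPrimeCore_of_isPGroup hS).eq_bot_of_le h2
      rw [Subgroup.map_eq_bot_iff, QuotientGroup.ker_mk'] at h3
      exact hab (hQc a (h3 ha) b (h3 hb))
    · push Not at hE
      obtain ⟨x, a, ha, h⟩ := hE
      exact (gall_lt M ha h).trans_le hmul
  · set N := (frattini (pCore p X)).map (pCore p X).subtype with hN
    have hN0 : N ≠ ⊥ := by
      rw [hN, Ne, Subgroup.map_eq_bot_iff_of_injective _ (pCore p X).subtype_injective]
      exact hF
    have hNp : IsPGroup p N := hQp.to_le (Subgroup.map_subtype_le _)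
    obtain ⟨k, hkN⟩ := IsPGroup.iff_card.mp hNp
    let P' : Sylow p (X ⧸ N) := P.mapSurjective (QuotientGroup.mk'_surjective N)
    have hP := card_sylow_quot N P P' (k := k) (m := 1) (by rw [hkN, mul_one]) hp.out.not_dvd_one
    obtain ⟨h1, h2⟩ := ih _ (hlt N hN0) (X ⧸ N) rfl (H18.isPSolvable_quotient hsolv N)
      (core_quot_frattini hc) P'
    rw [← hkN] at hP
    refine ⟨(triv_le N).trans (by rw [hP]; exact Nat.mul_le_mul_left _ h1), ?_⟩
    rintro ⟨a, ha, b, hb, hab⟩
    by_cases hq : Commute (a : X ⧸ N) (b : X ⧸ N)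
    · exact (triv_lt N hab hq).trans_le (by rw [hP]; exact Nat.mul_le_mul_left _ h1)
    · refine (triv_le N).trans_lt ?_
      rw [hP]
      refine Nat.mul_lt_mul_of_pos_left (h2 ⟨a, ?_, b, ?_, hq⟩) Nat.card_pos
      · exact Subgroup.mem_map_of_mem (QuotientGroup.mk' N) ha
      · exact Subgroup.mem_map_of_mem (QuotientGroup.mk' N) hb

/-- The bound for `p`-solvable groups with trivial `p'`-core, from the k(GV) bound. -/
theorem of_kgv {X : Type u} [Group X] [Finite X] (p : ℕ) [Fact p.Prime] (hk : KGV.{u} p)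
    (hsolv : Cfsg.IsPSolvable p X) (hcore : Cfsg.pPrimeCore p X = ⊥) (P : Sylow p X) :
    Nat.card (ConjClasses X) ≤ Nat.card P ∧
      ((∃ a ∈ P, ∃ b ∈ P, a * b ≠ b * a) → Nat.card (ConjClasses X) < Nat.card P) :=
  main hk _ X rfl hsolv hcore P

end H96.KgvRow
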