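import Cfsg.Agent.H36.NGSpec

/-! Tower NG, slot B0: no character of degree `p - 1`. -/

set_option autoImplicit false

namespace H96.NGB

open Cfsg H87 H39 H2.PR H36.NG H28

universe u

theorem not_cyclic {X : Type*} [Group X] [Finite X] (hp : commutator X = ⊤)
    (he : 2 ∣ Nat.card X) (Q : Sylow 2 X) : ¬ IsCyclic Q := by
  intro hc
  have hm : (Nat.card X).minFac = 2 := (Nat.minFac_eq_two_iff _).2 he
  have h1 := hc.isComplement' hm
  have h2 : (MonoidHom.transferSylow Q (hc.normalizer_le_centralizer hm)).ker = ⊤ := by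
    rw [eq_top_iff, ← hp]
    refine Subgroup.commutator_le.2 fun x _ y _ => ?_
    rw [MonoidHom.mem_ker, map_commutatorElement, commutatorElement_eq_one_iff_mul_comm]
    exact hc.isMulCommutative.is_comm.comm _ _
  rw [h2] at h1
  have h3 := h1.index_eq_card
  have h4 := Q.not_dvd_index
  rw [h3, Subgroup.card_top] at h4
  exact h4 he

theorem two_dvd_index {X : Type*} [Group X] [Finite X] (hp : commutator X = ⊤)
    (he : 2 ∣ Nat.card X) (x : X) : 2 ∣ (Subgroup.zpowers x).index := by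
  by_contra h
  obtain ⟨Q⟩ : Nonempty (Sylow 2 (Subgroup.zpowers x)) := inferInstance
  refine not_cyclic hp he ((Q.isPGroup'.map (Subgroup.zpowers x).subtype).toSylow fun h1 => ?_) ?_
  · rw [Subgroup.index_map_subtype] at h1
    exact (Nat.prime_two.dvd_mul.1 h1).elim Q.not_dvd_index h
  · exact Subgroup.isCyclic_of_le (Subgroup.map_subtype_le _)

theorem jobB0 (hAr : JobAr2) : JobB0.{u} := by
  classical
  intro G _ _ p U K n e t h hp P X Y δ ε d x y lam ω A ha2 hdn hb1 hd1
  have nm := A.ty.nm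
  have b := A.cf.br
  have h1 := nm.UK
  have h2 := nm.two
  have h3 := nm.le
  have h4 := nm.hn
  have e2 := nm.e2
  have hp5 : 5 ≤ p := by nlinarith
  have hK : K < p := by nlinarith
  have g1 : (p : ℤ) = U * K + 1 := by exact_mod_cast h1
  have g4 : (n : ℤ) + K + 1 = p + U := by exact_mod_cast h4
  have gp : (0 : ℤ) < p := by omega
  obtain ⟨θ, hθ⟩ := b.Y_nonempty
  have hY := A.ty.hY θ hθ
  have hd : (d = U - 1 ∧ d ≠ -(K + 1) ∧ ε = -1) ∨ (d = -(K + 1) ∧ ε = 1) := by
    have h0 : (0 : ℤ) ≤ t * dg θ := by positivity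
    rcases nm.hd with h5 | h5 | h5 | h5
    · refine .inl ⟨h5, by omega, b.sε.resolve_left fun h6 => ?_⟩
      have : 0 ≤ (p : ℤ) * d := mul_nonneg gp.le (by omega)
      rw [h6] at hY; omega
    · exact absurd h5 hdn
    · exact absurd h5 hd1
    · refine .inr ⟨h5, b.sε.resolve_right fun h6 => ?_⟩
      have : (p : ℤ) * d ≤ p * (-1) := mul_le_mul_of_nonneg_left (by omega) gp.le
      rw [h6] at hY; omega
  rw [ha2, hb1] at nm
  rw [Finset.card_eq_zero] at ha2 hb1
  let j : ℕ → ℕ := fun i => ∑ χ ∈ B2 p K X δ, mlt (LL lam i) χ +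
    if d = -(K + 1) then mlt (LL lam i) θ else 0
  have hA1 : ∀ χ ∈ A1 p U X δ, δ χ = 1 ∧ (dg χ : ℤ) = (U - 1) * p + 1 := fun χ hχ => by
    obtain ⟨h5, h6⟩ := (Finset.mem_filter.1 hχ).2
    zify at h6
    exact ⟨h5, by linear_combination h6⟩
  have hB2 : ∀ χ ∈ B2 p K X δ, δ χ = -1 ∧ (dg χ : ℤ) = (K + 1) * p - 1 := fun χ hχ => by
    obtain ⟨h5, h6⟩ := (Finset.mem_filter.1 hχ).2
    zify at h6
    exact ⟨h5, by linear_combination h6⟩
  have hj : ∀ i < e, j i * (U + K) ≤ if i = 0 then n else p - K := fun i hi => by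
    have hv : ∀ g, p ∣ orderOf g → LL lam i g = (1 : ℤ) := fun g hg => by
      rw [A.m1.vL i g hg, Int.cast_one]
    have c1 := A.m1.count _ (A.m1.chL i) 1 hv θ hθ
    have c2 := A.m1.deg _ (A.m1.chL i) 1 hv θ hθ
    zify at c2
    rw [A.ty.sum_X, ha2, hb1, Finset.sum_empty, add_zero, add_zero, A.m1.one i hi] at c1 c2
    rw [b.δ_one, Finset.sum_congr rfl fun χ hχ => by rw [(hA1 χ hχ).1],
      Finset.sum_congr (s₁ := B2 p K X δ) rfl fun χ hχ => by rw [(hB2 χ hχ).1],
      ← Finset.mul_sum, ← Finset.mul_sum] at c1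
    rw [dg_one, Finset.sum_congr rfl fun χ hχ => by rw [(hA1 χ hχ).2],
      Finset.sum_congr (s₁ := B2 p K X δ) rfl fun χ hχ => by rw [(hB2 χ hχ).2],
      ← Finset.sum_mul, ← Finset.sum_mul, A.m1.dgL] at c2
    have c3 : ∃ a : ℤ, ((if i = 0 then 1 else 0 : ℕ) : ℤ) + a - j i = 1 ∧
        ((if i = 0 then 1 else 0 : ℕ) : ℤ) + a * ((U - 1) * p + 1) + j i * ((K + 1) * p - 1) ≤
          n * p + 1 := by
      simp only [j]
      rcases hd with ⟨h5, h6, h7⟩ | ⟨h5, h7⟩
      · rw [if_neg h6]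
        rw [h7, h5] at hY
        rw [h7] at c1
        rw [show (t : ℤ) * dg θ = (U - 1) * p + 1 by linear_combination hY] at c2
        push_cast at c1 c2 ⊢
        exact ⟨∑ χ ∈ A1 p U X δ, (mlt (LL lam i) χ : ℤ) + mlt (LL lam i) θ, by linear_combination c1,
          by linear_combination c2⟩
      · rw [if_pos h5]
        rw [h7, h5] at hY
        rw [h7] at c1
        rw [show (t : ℤ) * dg θ = (K + 1) * p - 1 by linear_combination -hY] at c2
        push_cast at c1 c2 ⊢
        exact ⟨∑ χ ∈ A1 p U X δ, (mlt (LL lam i) χ : ℤ), by linear_combination c1,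
          by linear_combination c2⟩
    obtain ⟨a, c4, c5⟩ := c3
    split_ifs at c4 c5 ⊢ <;> zify [hK.le] <;> refine le_of_mul_le_mul_left ?_ gp <;>
      push_cast at c4 c5
    · rw [show a = j i by omega] at c5
      linear_combination c5
    · rw [show a = j i + 1 by omega] at c5
      linear_combination c5 + (p : ℤ) * g4
  have hs : t * ∑ i ∈ Finset.range e, j i =
      K * (t * (B2 p K X δ).card + if d = -(K + 1) then 1 else 0) := by
    have s1 : ∀ χ ∈ B2 p K X δ, ∑ i ∈ Finset.range e, mlt (LL lam i) χ = K := fun χ hχ => by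
      have := A.m2.sum _ χ.2.isCharacter _ (b.valX χ (Finset.mem_filter.1 hχ).1)
      rw [(hB2 χ hχ).1, (hB2 χ hχ).2] at this
      exact_mod_cast mul_left_cancel₀ gp.ne' (this.trans (by ring : _ = (p : ℤ) * K))
    simp only [j]
    rw [Finset.sum_add_distrib, Finset.sum_comm, Finset.sum_congr rfl s1, Finset.sum_const,
      smul_eq_mul, mul_add, mul_add]
    congr 1
    · ring
    rcases hd with ⟨-, h6, -⟩ | ⟨h5, h7⟩
    · simp only [if_neg h6, Finset.sum_const_zero, mul_zero]
    · have := A.m2.sumY θ hθ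
      rw [h7, h5] at hY
      simp only [if_pos h5, mul_one]
      exact_mod_cast mul_left_cancel₀ gp.ne'
        (this.trans (by rw [h7]; linear_combination -hY : _ = (p : ℤ) * K))
  refine (hAr p U K n e t _ _ _ d nm hd1 hdn hs ?_).resolve_right ?_
  · obtain ⟨e, rfl⟩ : ∃ e', e = e' + 1 := ⟨e - 1, by omega⟩
    rw [Finset.sum_range_succ', add_tsub_cancel_right]
    refine add_le_add ((Finset.sum_le_card_nsmul _ _ ((p - K) / (U + K)) fun i hi => ?_).trans_eq
      (by simp)) ((Nat.le_div_iff_mul_le (by omega)).2 (by simpa using hj 0 (by omega)))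
    exact (Nat.le_div_iff_mul_le (by omega)).2
      (by simpa using hj (i + 1) (by simpa using hi))
  rintro ⟨rfl, -, rfl⟩
  have hc := A.m1.card
  have h5 : Even e := by
    have := nm.odd
    rw [h1, Nat.odd_add_one, Nat.not_odd_iff_even, Nat.even_mul, or_self] at this
    exact this
  have h6 := two_dvd_index A.cf.perf (hc ▸ (h5.two_dvd.mul_left p).mul_right _) x
  have h7 := (Subgroup.zpowers x).index_mul_card
  rw [Nat.card_zpowers, A.m1.ord, hc, mul_right_comm] at h7
  rw [Nat.eq_of_mul_eq_mul_right (by omega) h7] at h6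
  have h8 : Even n := by
    rw [show n = e * e by omega]; exact h5.mul_right e
  exact (nm.odd.mul (h8.mul_right p).add_one).not_two_dvd_nat h6

end H96.NGB
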