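import Cfsg.Agent.H36.NGSpec
import Cfsg.Agent.H87.LinD
import Cfsg.Agent.H87.BrArith

/-! Tower NG, slot TY: the degrees in the principal block. -/

set_option autoImplicit false

namespace H96.NGT

open Cfsg H87 H39 H2.PR H36.NG H28

universe u

section Arith

variable {p U K n : ℕ} (h1 : p = U * K + 1) (h2 : 2 ≤ U) (h3 : U ≤ K) (h4 : n + K + 1 = p + U)
include h1 h2 h3 h4

theorem core {u k : ℤ} (hu : 0 ≤ u) (hk : 0 < k)
    (h : (u * p + 1) * (k * p - 1) = (p - 1) * (n * p + 1)) :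
    u = 0 ∨ (u = n ∧ k = 1) ∨ (u = U - 1 ∧ k = K + 1) := by
  have g1 : (p : ℤ) = U * K + 1 := by exact_mod_cast h1
  have g2 : (2 : ℤ) ≤ U := by exact_mod_cast h2
  have g3 : (U : ℤ) ≤ K := by exact_mod_cast h3
  have g4 : (n : ℤ) + K + 1 = p + U := by exact_mod_cast h4
  have hp : (5 : ℤ) ≤ p := by nlinarith
  have e1 : (u + 1) * (k - 1) = (n - u * k) * (p - 1) :=
    mul_left_cancel₀ (show (p : ℤ) ≠ 0 by omega) (by linear_combination h)
  have e2 : 0 ≤ (n : ℤ) - u * k :=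
    nonneg_of_mul_nonneg_left (e1 ▸ mul_nonneg (by omega) (by omega)) (show (0 : ℤ) < p - 1 by omega)
  rcases hu.eq_or_lt with e3 | e3
  · exact .inl e3.symm
  rcases e2.eq_or_lt with e4 | e4
  · have e5 : k - 1 = 0 := (mul_eq_zero.1 (by rw [e1, ← e4, zero_mul])).resolve_left (by omega)
    obtain rfl : k = 1 := by omega
    exact .inr (.inl ⟨by omega, rfl⟩)
  obtain ⟨w, hw⟩ : ∃ w, w = (n : ℤ) - u * k := ⟨_, rfl⟩
  rw [← hw] at e1 e4
  have e5 : (n : ℤ) = w * p + u - k + 1 := by linear_combination e1 - hw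
  have e6 : 2 * (k - 1) ≤ w * (p - 1) := by rw [← e1]; nlinarith
  obtain rfl : w = 1 := by
    by_contra h0
    have : 2 * ((p : ℤ) + 1) ≤ w * (p + 1) := mul_le_mul_of_nonneg_right (by omega) (by omega)
    nlinarith
  have e7 : (u + 1 - U) * (u + 1 + K) = 0 := by
    have : k = u + K - U + 2 := by omega
    rw [this, g1] at e1
    linear_combination e1
  have := (mul_eq_zero.1 e7).resolve_right (by omega)
  exact .inr (.inr ⟨by omega, by omega⟩)

theorem pos {z : ℕ} (hz : z ∣ (p - 1) * (n * p + 1)) {m : ℕ} (hm : (p : ℤ) * m = z + (p - 1)) :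
    z = 1 ∨ z + p = U * p + 1 ∨ z = n * p + 1 := by
  obtain ⟨w, hw⟩ := hz
  have hp : 2 ≤ p := by nlinarith
  have hp' : (0 : ℤ) < p := by omega
  have hw' := cast_eq_of_dvd hp hw
  have e1 : (z : ℤ) = (m - 1) * p + 1 := by linear_combination -hm
  have e2 : (w : ℤ) = (n * p + 1 - n - w * (m - 1)) * p - 1 := by
    rw [e1] at hw'; linear_combination -hw'
  have e3 : 0 < (m : ℤ) := (mul_pos_iff_of_pos_left hp').1 (by omega)
  have e4 : 0 < (n : ℤ) * p + 1 - n - w * (m - 1) := (mul_pos_iff_of_pos_right hp').1 (by omega)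
  rcases core h1 h2 h3 h4 (u := m - 1) (by omega) e4 (by rw [← e1, ← e2, hw']) with
    e5 | ⟨e5, -⟩ | ⟨e5, -⟩ <;> rw [e5] at e1
  · left; omega
  · right; right; exact_mod_cast e1
  · right; left
    have : (z : ℤ) + p = U * p + 1 := by linear_combination e1
    exact_mod_cast this

theorem neg {z : ℕ} (hz : z ∣ (p - 1) * (n * p + 1)) {m : ℕ} (hm : (p : ℤ) * m = z - (p - 1)) :
    z + 1 = p ∨ z + 1 = (K + 1) * p ∨ (z : ℤ) = (p - 1) * (n * p + 1) := by
  obtain ⟨w, hw⟩ := hz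
  have hp : 2 ≤ p := by nlinarith
  have hp' : (0 : ℤ) < p := by omega
  have hw' := cast_eq_of_dvd hp hw
  have hw0 : w ≠ 0 := by
    rintro rfl
    exact (Nat.mul_pos (show 0 < p - 1 by omega) (Nat.succ_pos _)).ne' hw
  have e1 : (z : ℤ) = (m + 1) * p - 1 := by linear_combination -hm
  have e2 : (w : ℤ) = (w * (m + 1) + n - n * p - 1) * p + 1 := by
    rw [e1] at hw'; linear_combination hw'
  have e4 : 0 ≤ (w : ℤ) * (m + 1) + n - n * p - 1 := nonneg_of_mul_nonneg_left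
    (show 0 ≤ ((w : ℤ) * (m + 1) + n - n * p - 1) * p by omega) hp'
  rcases core h1 h2 h3 h4 (k := m + 1) e4 (by omega) (by rw [← e1, ← e2, hw', mul_comm]) with
    e5 | ⟨-, e5⟩ | ⟨-, e5⟩
  · right; right
    rw [e5] at e2
    rw [hw', e2]; ring
  · left; rw [e5] at e1; omega
  · right; left
    rw [e5] at e1
    have : (z : ℤ) + 1 = (K + 1) * p := by linear_combination e1
    exact_mod_cast this

theorem sum_X {G : Type*} [Group G] {X : Finset (IrrCharacter G)} {δ : IrrCharacter G → ℤ}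
    (h0 : one G ∈ X) (hm : ∀ χ ∈ X, χ = one G ∨ χ ∈ A1 p U X δ ∨ χ ∈ A2 p n X δ ∨ χ ∈ B1 p X δ ∨
      χ ∈ B2 p K X δ) {M : Type*} [AddCommMonoid M] (f : IrrCharacter G → M) :
    ∑ χ ∈ X, f χ = f (one G) + ∑ χ ∈ A1 p U X δ, f χ + ∑ χ ∈ A2 p n X δ, f χ +
      ∑ χ ∈ B1 p X δ, f χ + ∑ χ ∈ B2 p K X δ, f χ := by
  classical
  have hK : K < p := by nlinarith
  have h5 : 2 * p ≤ U * p := Nat.mul_le_mul_right p h2
  have h6 : U * p ≤ n * p := Nat.mul_le_mul_right p (by omega)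
  have h7 : 3 * p ≤ (K + 1) * p := Nat.mul_le_mul_right p (by omega)
  rw [← Finset.sum_ite_eq_of_mem X (one G) f h0]
  simp only [A1, A2, B1, B2, Finset.sum_filter, ← Finset.sum_add_distrib]
  refine Finset.sum_congr rfl fun χ hχ => ?_
  have h8 : one G = χ → dg χ = 1 := fun h => h ▸ dg_one
  rcases hm χ hχ with h9 | h9 | h9 | h9 | h9
  · have := h8 h9.symm
    rw [if_pos h9.symm, if_neg (by omega), if_neg (by omega), if_neg (by omega), if_neg (by omega)]
    simp
  all_goals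
    have h9 := (Finset.mem_filter.1 h9).2
    rw [if_neg fun h => by have := h8 h; omega]
  · rw [if_pos h9, if_neg (by omega), if_neg (by omega), if_neg (by omega)]; simp
  · rw [if_neg (by omega), if_pos h9, if_neg (by omega), if_neg (by omega)]; simp
  · rw [if_neg (by omega), if_neg (by omega), if_pos h9, if_neg (by omega)]; simp
  · rw [if_neg (by omega), if_neg (by omega), if_neg (by omega), if_pos h9]; simp

end Arith

set_option maxHeartbeats 800000 in
theorem jobTY : JobTy.{u} := by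
  classical
  intro G _ _ p U K n e t hp P X Y δ ε h
  have b := h.br
  have h1 := h.UK
  have h2 := h.two
  have h3 := h.le
  have h4 := h.hn
  have hte := b.te
  have hp5 : 5 ≤ p := by nlinarith
  have hK : 2 * K < p := by nlinarith
  have hnp : 0 < n * p := Nat.mul_pos (by omega) (by omega)
  have ht := b.t_pos
  have g1 : (p : ℤ) = U * K + 1 := by exact_mod_cast h1
  have g4 : (n : ℤ) + K + 1 = p + U := by exact_mod_cast h4
  have gte : (t : ℤ) * e + 1 = p := by exact_mod_cast hte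
  have e2 : 2 ≤ e := by
    have := two_le_relIndex h.perf b.dvd P
    rw [P.stabilizer_eq_normalizer] at this
    exact this.trans_eq h.he
  obtain ⟨x, hx, hx1⟩ := exists_ne_one_mem_prime h.card
  have hx2 : p ∣ orderOf x := (orderOf_eq_of_mem_prime h.card hx hx1).symm.dvd
  have hi : (Subgroup.centralizer ({x} : Set G)).index = e * (n * p + 1) := by
    rw [centralizer_singleton_eq_prime h.card hx hx1, ← h.he, ← h.syl, P.card_eq_index_normalizer]
    exact (Subgroup.relIndex_mul_index (Subgroup.centralizer_le_normalizer _)).symm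
  have hte' : p - 1 = t * e := by omega
  have hd : ∀ z, z ∣ e * (n * p + 1) → t * z ∣ (p - 1) * (n * p + 1) := fun z hz => by
    rw [hte', mul_assoc]; exact mul_dvd_mul_left _ hz
  have hX : ∀ χ ∈ X, dg χ ∣ e * (n * p + 1) := fun χ hχ => hi ▸ b.dg_X_dvd hχ hx2
  have hX' : ∀ χ ∈ X, (δ χ = 1 ∧ (dg χ = 1 ∨ dg χ + p = U * p + 1 ∨ dg χ = n * p + 1)) ∨
      (δ χ = -1 ∧ (dg χ + 1 = p ∨ dg χ + 1 = (K + 1) * p ∨
        (dg χ : ℤ) = (p - 1) * (n * p + 1))) := fun χ hχ => by
    obtain ⟨m, hm⟩ := b.exists_dg_X hχ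
    have := (Dvd.intro_left t rfl).trans (hd _ (hX χ hχ))
    rcases b.sδ χ with h5 | h5 <;> rw [h5] at hm
    · exact .inl ⟨h5, pos h1 h2 h3 h4 this (hm.trans (by ring))⟩
    · exact .inr ⟨h5, neg h1 h2 h3 h4 this (hm.trans (by ring))⟩
  have hU : U * p ≤ n * p := Nat.mul_le_mul_right p (by omega)
  have hle : ∀ χ ∈ X, 0 ≤ (n : ℤ) * p + 1 - δ χ * dg χ := fun χ hχ => by
    rcases hX' χ hχ with ⟨h5, h6⟩ | ⟨h5, -⟩ <;> rw [h5]
    · have : dg χ ≤ n * p + 1 := by omega
      have : (dg χ : ℤ) ≤ n * p + 1 := by exact_mod_cast this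
      omega
    · have : (0 : ℤ) ≤ n * p := by positivity
      omega
  obtain ⟨θ, hθ⟩ := b.Y_nonempty
  have hs : ∑ χ ∈ X, ((n : ℤ) * p + 1 - δ χ * dg χ) = e * (n * p + 1) - ε * dg θ := by
    rw [Finset.sum_sub_distrib, b.deg_eq hθ, Finset.sum_const, b.cardX, nsmul_eq_mul]
  have hone : (n : ℤ) * p + 1 - δ (one G) * dg (one G) = n * p := by
    rw [b.δ_one, dg_one]; simp
  have gnp : (0 : ℤ) < n * p := by exact_mod_cast hnp
  have gt : (0 : ℤ) < t := by exact_mod_cast ht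
  have hY : (ε = -1 ∧ (t * dg θ + p = U * p + 1 ∨ t * dg θ = n * p + 1)) ∨
      (ε = 1 ∧ (t * dg θ + 1 = p ∨ t * dg θ + 1 = (K + 1) * p)) := by
    obtain ⟨m, hm⟩ := b.exists_dg_Y hθ
    have h5 := hd _ (hi ▸ b.dg_Y_dvd hθ hx2)
    rcases b.sε with h6 | h6 <;> rw [h6] at hm
    · refine .inr ⟨h6, ?_⟩
      rcases neg h1 h2 h3 h4 h5 (hm.trans (by push_cast; ring)) with h7 | h7 | h7
      · exact .inl h7
      · exact .inr h7
      have h8 := Finset.single_le_sum hle b.one_mem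
      rw [hone, hs, h6, one_mul] at h8
      rw [Nat.cast_mul, ← gte, add_sub_cancel_right, mul_assoc, gte] at h7
      have := mul_left_cancel₀ gt.ne' h7
      omega
    · exact .inl ⟨h6, (pos h1 h2 h3 h4 h5 (hm.trans (by push_cast; ring))).resolve_left fun h7 =>
        b.ne_one hθ (eq_one_of_dg h.perf (Nat.eq_one_of_mul_eq_one_left h7))⟩
  have hm : ∀ χ ∈ X, χ = one G ∨ χ ∈ A1 p U X δ ∨ χ ∈ A2 p n X δ ∨ χ ∈ B1 p X δ ∨
      χ ∈ B2 p K X δ := fun χ hχ => by
    simp only [A1, A2, B1, B2, Finset.mem_filter]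
    rcases hX' χ hχ with ⟨h5, h6 | h6 | h6⟩ | ⟨h5, h6 | h6 | h6⟩
    · exact .inl (eq_one_of_dg h.perf h6)
    · exact .inr (.inl ⟨hχ, h5, h6⟩)
    · exact .inr (.inr (.inl ⟨hχ, h5, h6⟩))
    · exact .inr (.inr (.inr (.inl ⟨hχ, h5, h6⟩)))
    · exact .inr (.inr (.inr (.inr ⟨hχ, h5, h6⟩)))
    exfalso
    have h7 := Finset.add_le_sum hle b.one_mem hχ fun h7 => by
      rw [← h7, b.δ_one] at h5; omega
    rw [hone, hs, h5, h6] at h7
    have h8 : -ε * dg θ ≤ n * p + 1 := by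
      rcases hY with ⟨h8, h9⟩ | ⟨h8, -⟩ <;> rw [h8]
      · have : dg θ ≤ n * p + 1 := (Nat.le_mul_of_pos_left _ ht).trans (by omega)
        have : (dg θ : ℤ) ≤ n * p + 1 := by exact_mod_cast this
        omega
      · omega
    have h9 : (e : ℤ) ≤ p - 1 := by
      have : e ≤ t * e := Nat.le_mul_of_pos_left _ ht
      omega
    nlinarith [mul_le_mul_of_nonneg_right h9 (show (0 : ℤ) ≤ n * p + 1 by omega)]
  obtain ⟨d, hd1, hd2⟩ : ∃ d : ℤ, (d = U - 1 ∨ d = n ∨ d = -1 ∨ d = -(K + 1)) ∧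
      -ε * (t * dg θ) = 1 + p * d := by
    rcases hY with ⟨h5, h6 | h6⟩ | ⟨h5, h6 | h6⟩ <;> zify at h6 <;> rw [h5]
    · exact ⟨_, .inl rfl, by linear_combination h6⟩
    · exact ⟨_, .inr (.inl rfl), by linear_combination h6⟩
    · exact ⟨_, .inr (.inr (.inl rfl)), by linear_combination -h6⟩
    · exact ⟨_, .inr (.inr (.inr rfl)), by linear_combination -h6⟩
  have cnt : 1 + (A1 p U X δ).card + (A2 p n X δ).card + (B1 p X δ).card + (B2 p K X δ).card = e := by
    simp only [← b.cardX, Finset.card_eq_sum_ones]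
    exact (sum_X h1 h2 h3 h4 b.one_mem hm fun _ => 1).symm
  have hN : n * p + 1 = (p - K) * (p + U) := by
    zify [show K ≤ p by omega]
    linear_combination (p : ℤ) * g4 - g1
  have hpK : 0 < p - K := by omega
  refine ⟨d, ⟨hp.out.odd_of_ne_two (by omega), h1, h2, h3, h4, hte, e2, cnt, hd1, ?_, fun h5 => ?_,
    fun h5 => ?_, fun h5 => ?_, fun h5 h6 => ?_⟩, b.one_mem, hm, fun θ' hθ' => by
      rw [b.dg_eq hθ' hθ, hd2]⟩
  · have h5 := b.deg_eq hθ
    have s : ∀ (A : Finset (IrrCharacter G)) (c : ℤ), (∀ χ ∈ A, δ χ * dg χ = 1 + p * c) →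
        ∑ χ ∈ A, δ χ * dg χ = A.card * (1 + p * c) := fun A c hA => by
      rw [Finset.sum_congr rfl hA, Finset.sum_const, nsmul_eq_mul]
    rw [sum_X h1 h2 h3 h4 b.one_mem hm, b.δ_one, dg_one, s _ (U - 1), s _ n, s _ (-1),
      s _ (-(K + 1))] at h5
    · zify at cnt
      refine mul_left_cancel₀ (show (p : ℤ) ≠ 0 by omega) ?_
      linear_combination -hd2 - t * h5 - gte - t * cnt
    all_goals
      intro χ hχ
      obtain ⟨h6, h7⟩ := (Finset.mem_filter.1 hχ).2
      zify at h7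
      rw [h6]
    · linear_combination -h7
    · linear_combination -h7
    · linear_combination h7
    · linear_combination h7
  · obtain ⟨χ, hχ⟩ := Finset.card_pos.1 h5
    obtain ⟨h6, -, h7⟩ := Finset.mem_filter.1 hχ
    have h8 : dg χ = U * (p - K) := by
      zify [show K ≤ p by omega] at h7 ⊢
      linear_combination h7 - g1
    have h9 := hX χ h6
    rw [h8, hN, mul_comm (p - K), ← mul_assoc] at h9
    obtain ⟨c, rfl⟩ := Nat.Coprime.dvd_of_dvd_mul_right (show U.Coprime (p + U) by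
      rw [h1]; simp) (Nat.dvd_of_mul_dvd_mul_right hpK h9)
    exact ⟨c, Nat.eq_of_mul_eq_mul_left (show 0 < U by omega) (by linarith)⟩
  · obtain ⟨χ, hχ⟩ := Finset.card_pos.1 h5
    obtain ⟨h6, -, h7⟩ := Finset.mem_filter.1 hχ
    have h9 := hX χ h6
    rw [show dg χ = e * t by rw [mul_comm]; omega] at h9
    have h8 := Nat.dvd_of_mul_dvd_mul_left (by omega) h9
    rw [← hte, show n * (t * e + 1) + 1 = t * (n * e) + (n + 1) by ring] at h8
    exact (Nat.dvd_add_right (Dvd.intro _ rfl)).1 h8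
  · obtain ⟨χ, hχ⟩ := Finset.card_pos.1 h5
    obtain ⟨h6, -, h7⟩ := Finset.mem_filter.1 hχ
    have h8 : dg χ = K * (p + U) := by
      zify at h7 ⊢
      linear_combination h7 + g1
    have h9 := hX χ h6
    rw [h8, hN, ← mul_assoc] at h9
    have h0 : K.Coprime (p - K) := by
      rw [Nat.coprime_sub_self_right (by omega), h1]; simp
    obtain ⟨c, rfl⟩ := h0.dvd_of_dvd_mul_right (Nat.dvd_of_mul_dvd_mul_right (by omega) h9)
    exact ⟨c, Nat.eq_of_mul_eq_mul_left (show 0 < K by omega) (by linarith)⟩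
  · have h7 : dg θ = e := by
      rw [h6] at hd2
      rcases b.sε with h8 | h8 <;> rw [h8] at hd2
      · have : (t : ℤ) * dg θ = t * e := by linear_combination -hd2 - gte
        exact_mod_cast mul_left_cancel₀ gt.ne' this
      · have : (0 : ℤ) ≤ t * dg θ := by positivity
        omega
    have := h.simple
    have h8 := (lin_main h.card (fun hN => ?_) θ.2
      (θ.2.charKer_normal.eq_bot_or_eq_top.resolve_right fun h0 =>
        b.ne_one hθ (Subtype.ext (θ.2.charKer_eq_top_iff.1 h0)))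
      (show 2 * dg θ + 1 ≤ p by have := Nat.mul_le_mul_right e h5; omega) (K := ⊤)
      (fun N hN hle => (hN.eq_bot_or_eq_top.resolve_left fun h0 =>
        hx1 (Subgroup.mem_bot.1 (h0 ▸ hle hx))).ge)
      (θ.2.comp_mulEquiv Subgroup.topEquiv)).2.1
    · rw [h.syl] at h8
      have : 2 * p ≤ n * p := Nat.mul_le_mul_right p (by omega)
      omega
    · have := P.unique_of_normal hN
      have h8 := h.syl
      rw [Nat.card_unique] at h8
      omega

end H96.NGT
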