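/- Tower SQ (S4132), job NC: the normaliser of the set of conjugates of `z` in `T`. -/
import Cfsg.Agent.H30.SQSpec
import Cfsg.Agent.H8.SylowInf

set_option autoImplicit false

open Cfsg Subgroup

namespace H96.SQNC
open H30.SQ

universe u

variable {G : Type*} [Group G]

/-- An element normalising a cyclic `2`-group has a `2`-power centralising it. -/
theorem cyc_aut [Finite G] (K : Subgroup G) [IsCyclic K] (hK : IsPGroup 2 K) {g : G}
    (hg : g ∈ normalizer (K : Set G)) : ∃ a : ℕ, ∀ k ∈ K, Commute (g ^ 2 ^ a) k := by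
  have := Fact.mk Nat.prime_two
  obtain ⟨b, hb⟩ := IsPGroup.iff_card.1 hK
  have hd : Nat.card (MulAut K) ∣ 2 ^ b := by
    rw [IsCyclic.card_mulAut, hb]
    rcases Nat.eq_zero_or_pos b with rfl | h0
    · simp
    · rw [Nat.totient_prime_pow Nat.prime_two h0]
      simpa using pow_dvd_pow 2 (Nat.sub_le b 1)
  have h1 : (⟨g, hg⟩ : normalizer (K : Set G)) ^ 2 ^ b ∈ K.normalizerMonoidHom.ker := by
    rw [MonoidHom.mem_ker, map_pow]
    exact orderOf_dvd_iff_pow_eq_one.1 ((_root_.orderOf_dvd_natCard _).trans hd)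
  rw [normalizerMonoidHom_ker, mem_subgroupOf, mem_centralizer_iff] at h1
  exact ⟨b, fun k hk => (h1 k hk).symm⟩

theorem isConj_cj (g x : G) : IsConj x (g * x * g⁻¹) := isConj_iff.2 ⟨g, rfl⟩

section
variable {T U₀ : Subgroup G} {n : ℕ} {z ν v : G}

theorem sq_one (F : FS T U₀ z ν v) {t : G} (ht : t ∈ WS T z) : t * t = 1 := by
  obtain ⟨c, rfl⟩ := isConj_iff.1 ht.2
  calc c * z * c⁻¹ * (c * z * c⁻¹) = c * (z * z) * c⁻¹ := by group
    _ = 1 := by rw [F.z2]; group

theorem zW (F : FS T U₀ z ν v) : z ∈ WS T z := ⟨F.zc.1, IsConj.refl z⟩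

theorem tzW (F : FS T U₀ z ν v) {t : G} (ht : t ∈ WS T z) (h : t ≠ z) : t * z ∈ WS T z := by
  refine ⟨T.mul_mem ht.1 F.zc.1, ?_⟩
  have hc : ¬ Commute t ν := fun e => h (F.sU t (F.iv t ht.1 (sq_one F ht) e) ht.2)
  rw [← F.mv t ht.1 hc]
  exact ht.2.trans (isConj_cj ν t)

/-- NA: only `z` commutes with all of `WS`. -/
theorem na (H : Hy T n) (F : FS T U₀ z ν v) {t : G} (ht : t ∈ WS T z)
    (hc : ∀ s ∈ WS T z, Commute t s) : t = z := by
  by_contra h
  have tz : Commute t z := F.zc.2 t ht.1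
  have t2 := sq_one F ht
  have z2 := F.z2
  have sub : ∀ s ∈ WS T z, s = z ∨ s = t ∨ s = t * z := fun s hs => by
    by_cases e : s = z
    · exact Or.inl e
    · exact Or.inr (F.two t ht h s hs e (hc s hs))
  have e1 : z * t = t * z := tz.eq.symm
  have e2 : z * (t * z) = t := by rw [← mul_assoc, e1, mul_assoc, z2, mul_one]
  have e3 : t * (t * z) = z := by rw [← mul_assoc, t2, one_mul]
  have e4 : t * z * z = t := by rw [mul_assoc, z2, mul_one]
  have e5 : t * z * t = z := by rw [mul_assoc, e1, e3]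
  have e6 : t * z * (t * z) = 1 := by rw [mul_assoc, e2, t2]
  have zw := zW F
  have tw := tzW F ht h
  have sq : ∀ s, s = 1 ∨ s ∈ WS T z → s * s = 1 := by
    rintro s (rfl | hs)
    · simp
    · exact sq_one F hs
  let A : Subgroup G :=
    { carrier := {s | s = 1 ∨ s ∈ WS T z}
      one_mem' := Or.inl rfl
      mul_mem' := by
        rintro a b (rfl | ha) hb
        · simpa using hb
        rcases hb with rfl | hb
        · simpa using Or.inr ha
        rcases sub a ha with ea | ea | ea <;> rcases sub b hb with eb | eb | eb <;> rw [ea, eb] <;>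
          simp only [Set.mem_ofPred_eq, e1, e2, e3, e4, e5, e6, z2, t2, zw, tw, ht, true_or, or_true]
      inv_mem' := fun {a} ha => by rwa [inv_eq_of_mul_eq_one_right (sq a ha)] }
  refine H.nsc A (fun e => F.z1 ?_) ⟨⟨fun a b => Subtype.ext ?_⟩⟩ ⟨?_, ?_⟩
  · have : z ∈ A := Or.inr zw
    rwa [e, mem_bot] at this
  · have h1 := sq _ (A.mul_mem a.2 b.2)
    have h2 := sq _ a.2
    have h3 := sq _ b.2
    show (a : G) * b = b * a
    rw [← inv_eq_of_mul_eq_one_right h1, mul_inv_rev, inv_eq_of_mul_eq_one_right h2,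
      inv_eq_of_mul_eq_one_right h3]
  · rintro s (rfl | hs)
    · exact T.one_mem
    · exact hs.1
  · rintro s (rfl | hs) g hg
    · exact Or.inl (by simp)
    · exact Or.inr ⟨hg, hs.2.trans (isConj_cj g s)⟩

theorem inf_eq (H : Hy T n) (F : FS T U₀ z ν v) : T ⊓ centralizer (WS T z) = U₀ := by
  have sup : ∀ u ∈ U₀, ∀ t ∈ WS T z, Commute u t := fun u hu t ht => by
    by_cases e : t = z
    · rw [e]; exact F.zc.2 u (F.le hu)
    · exact (F.cS t ht e u (F.le hu)).2 (Or.inl hu)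
  refine le_antisymm (fun s hs => ?_) fun u hu =>
    ⟨F.le hu, mem_centralizer_iff.2 fun t ht => (sup u hu t ht).symm.eq⟩
  have hs2 : ∀ t ∈ WS T z, Commute s t := fun t ht => (mem_centralizer_iff.1 hs.2 t ht).symm
  rcases (F.cS v F.vS F.vz s hs.1).1 (hs2 v F.vS) with h | h
  · exact h
  · refine absurd (na H F F.vS fun t ht => ?_) F.vz
    have := (hs2 t ht).inv_left.mul_left (sup _ h t ht)
    simpa using this

theorem mem_N [Finite G] {g : G} (hg : ∀ t ∈ WS T z, g * t * g⁻¹ ∈ T) :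
    g ∈ normalizer (WS T z) :=
  mem_normalizer_fintype fun t ht => ⟨hg t ht, ht.2.trans (isConj_cj g t)⟩

theorem T_le [Finite G] : T ≤ normalizer (WS T z) := fun _ hs =>
  mem_N fun _ ht => T.mul_mem (T.mul_mem hs ht.1) (T.inv_mem hs)

theorem fix_z (H : Hy T n) (F : FS T U₀ z ν v) {g : G} (hg : g ∈ normalizer (WS T z)) :
    g * z * g⁻¹ = z := by
  refine na H F ((hg z).1 (zW F)) fun s hs => ?_
  have h1 : g⁻¹ * s * g⁻¹⁻¹ ∈ WS T z := (inv_mem hg s).1 hs
  have h2 := (F.zc.2 _ h1.1).eq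
  show g * z * g⁻¹ * s = s * (g * z * g⁻¹)
  calc g * z * g⁻¹ * s = g * (z * (g⁻¹ * s * g⁻¹⁻¹)) * g⁻¹ := by group
    _ = _ := by rw [← h2]; group

theorem move (H : Hy T n) (F : FS T U₀ z ν v) {g : G} (hg : g ∈ normalizer (WS T z)) {t : G}
    (ht : t ∈ WS T z) (h : t ≠ z) : g * t * g⁻¹ ∈ WS T z ∧ g * t * g⁻¹ ≠ z :=
  ⟨(hg t).1 ht, fun e => h (by
    have := e.trans (fix_z H F hg).symm
    simpa using this)⟩

theorem pow_mem_C [Finite G] (H : Hy T n) (F : FS T U₀ z ν v) {g : G}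
    (hg : g ∈ normalizer (WS T z)) : ∃ a : ℕ, g ^ 2 ^ a ∈ centralizer (WS T z) := by
  obtain ⟨y, hy, hcy⟩ := F.cyc
  let P : Set G := {k | ∃ t ∈ WS T z, t ≠ z ∧ ∃ t' ∈ WS T z, t' ≠ z ∧ k = t * t'}
  have hK : closure P ≤ zpowers y := by
    rw [closure_le]
    rintro _ ⟨t, ht, h, t', ht', h', rfl⟩
    exact hcy t ht h t' ht' h'
  have hT : closure P ≤ T := hK.trans (zpowers_le.2 hy)
  have : IsCyclic (closure P) := isCyclic_of_le hK
  have hN : normalizer (WS T z) ≤ normalizer (closure P : Set G) := by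
    rw [le_normalizer_closure_iff]
    rintro x hx _ ⟨t, ht, h, t', ht', h', rfl⟩
    refine subset_closure ⟨_, (move H F hx ht h).1, (move H F hx ht h).2, _, (move H F hx ht' h').1,
      (move H F hx ht' h').2, by group⟩
  obtain ⟨a, ha⟩ := cyc_aut (closure P) (H.pg.to_le hT) (hN hg)
  obtain ⟨m, hm⟩ := H.ev
  refine ⟨a + (m + 2), mem_centralizer_iff.2 fun t ht => ?_⟩
  have hx : g ^ 2 ^ a ∈ normalizer (WS T z) := pow_mem hg _
  rw [pow_add, pow_mul]
  generalize g ^ 2 ^ a = x at ha hx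
  by_cases e : t = z
  · rw [e]
    have : Commute z x := (mul_inv_eq_iff_eq_mul.1 (fix_z H F hx)).symm
    exact (this.pow_right _).eq
  have hk : x * t * x⁻¹ * t ∈ closure P :=
    subset_closure ⟨_, (move H F hx ht e).1, (move H F hx ht e).2, t, ht, e, rfl⟩
  have e1 : x * t = (x * t * x⁻¹ * t) * t * x := by
    rw [mul_assoc (x * t * x⁻¹), sq_one F ht]; group
  have hc := ha _ hk
  have h2 := H.ex _ (hT hk)
  generalize x * t * x⁻¹ * t = k at e1 hc h2
  have key : ∀ j : ℕ, x ^ j * t = k ^ j * t * x ^ j := fun j => by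
    induction j with
    | zero => simp
    | succ j ih =>
      rw [pow_succ', mul_assoc, ih, ← mul_assoc, ← mul_assoc, (hc.pow_right j).eq, mul_assoc (k ^ j), e1,
        pow_succ]
      simp only [mul_assoc]
  have : 2 ^ (m + 2) = 2 * n := by rw [hm]; ring
  rw [key, this, h2, one_mul]

theorem decomp [Finite G] (H : Hy T n) (F : FS T U₀ z ν v) {g : G}
    (hg : g ∈ normalizer (WS T z)) : ∃ τ ∈ T, ∃ h ∈ centralizer (WS T z), g = τ * h := by
  have := Fact.mk Nat.prime_two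
  set N := normalizer (WS T z)
  set C := (centralizer (WS T z)).subgroupOf N
  have hq : IsPGroup 2 (N ⧸ C) := fun q => by
    obtain ⟨x, rfl⟩ := QuotientGroup.mk_surjective q
    obtain ⟨a, ha⟩ := pow_mem_C H F x.2
    exact ⟨a, by rw [← QuotientGroup.mk_pow, QuotientGroup.eq_one_iff]; exact ha⟩
  obtain ⟨b, hb⟩ := IsPGroup.iff_card.1 hq
  have d1 : (T.subgroupOf N ⊔ C).index ∣ 2 ^ b := hb ▸ index_dvd_of_le le_sup_right
  have d2 : (T.subgroupOf N ⊔ C).index ∣ T.index :=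
    (index_dvd_of_le le_sup_left).trans (relIndex_dvd_index_of_le T_le)
  have d3 : (T.subgroupOf N ⊔ C).index = 1 := by
    obtain ⟨i, -, hi⟩ := (Nat.dvd_prime_pow Nat.prime_two).1 d1
    rcases i with _ | i
    · simpa using hi
    · exact absurd ((Dvd.intro_left _ (pow_succ 2 i).symm).trans (hi ▸ d2)) H.odd
  have : (⟨g, hg⟩ : N) ∈ T.subgroupOf N ⊔ C := by rw [index_eq_one.1 d3]; exact mem_top _
  obtain ⟨τ, hτ, h, hh, e⟩ := mem_sup_of_normal_right.1 this
  exact ⟨τ, hτ, h, hh, (congrArg Subtype.val e).symm⟩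

end

theorem jobNC : JobNC.{u} := by
  intro G _ _ T U₀ n z ν v H F
  refine ⟨inf_eq H F, fun h => H.odd ?_, fun g hg => ?_⟩
  · rw [← inf_eq H F, inf_relIndex_right,
      ← relIndex_subgroupOf (centralizer_le_normalizer (WS T z))] at h
    exact (h.trans (H8.relIndex_dvd_index_of_normal_right _ _)).trans (relIndex_dvd_index_of_le T_le)
  · obtain ⟨τ, hτ, h, hh, e⟩ := decomp H F (mem_N hg)
    exact ⟨τ, hτ, h, hh, e, decomp H F (inv_mem (mem_N hg))⟩

end H96.SQNC
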