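import Cfsg.Agent.H91.VCSpec
import Cfsg.Agent.H91.CL3Ty

/-! VC tower (row S4070): jobs STX and TY2. -/

set_option autoImplicit false
set_option linter.unusedSectionVars false

namespace H96.VCX

open H12.CL Module

theorem jobSTX : H91.VC.JobSTX := by
  intro r hr K V W _ _ _ _ _ _ _ _ _ _ S ty M N D v₀ P fr pt A h0 hA hc
  classical
  have p1 : ∀ w, ∀ n ∈ N, w - n ∈ M ⊔ D → ∀ a ∈ N, ∀ b ∈ N,
      P b (S.t w (S.t a v₀)) = if a + n = b then S.t w (S.t a v₀) else 0 := by
    intro w n hn hw a ha b hb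
    have cm : S.Cm M v₀ (a + w) (S.t w (S.t a v₀)) := (Ex.Cm.t₀ a).t w
    split_ifs with e
    · refine pt.self _ _ _ cm ?_
      rw [← e, show a + n - (a + w) = -(w - n) by abel]
      exact neg_mem hw
    · refine pt.zero _ _ _ cm fun k => e ?_
      have := fr.N_inf S.sp (sub_mem hb (add_mem ha hn)) (by
        rw [show b - (a + n) = (b - (a + w)) + (w - n) by abel]
        exact add_mem k hw)
      exact (sub_eq_zero.1 this).symm
  have p2 : ∀ w, ∀ n ∈ N, w - n ∈ M ⊔ D → ∀ a ∈ A,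
      P (a + n) (S.t w (∑ a ∈ A, S.t a v₀)) = S.t w (S.t a v₀) := by
    intro w n hn hw a ha
    rw [map_sum, map_sum, Finset.sum_eq_single_of_mem a ha]
    · rw [p1 w n hn hw a (hA a ha) _ (add_mem (hA a ha) hn), if_pos rfl]
    · intro b hb k
      rw [p1 w n hn hw b (hA b hb) _ (add_mem (hA a ha) hn), if_neg fun e => k (add_right_cancel e)]
  have t0 : ∀ v, S.t 0 v = v := fun v => by rw [S.t_zero]; rfl
  have p3 : ∀ a ∈ A, P a (∑ a ∈ A, S.t a v₀) = S.t a v₀ := by
    intro a ha
    have := p2 0 0 (zero_mem _) (by simp) a ha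
    rwa [add_zero, t0, t0] at this
  have p4 : ∀ b ∈ N, b ∉ A → P b (∑ a ∈ A, S.t a v₀) = 0 := by
    intro b hb k
    rw [map_sum]
    refine Finset.sum_eq_zero fun a ha => ?_
    have := p1 0 0 (zero_mem _) (by simp) a (hA a ha) b hb
    rwa [t0, add_zero, if_neg fun e : a = b => k (e ▸ ha)] at this
  refine ⟨∑ a ∈ A, S.t a v₀, fun e => pt.ne ?_, fun w => ⟨?_, ?_⟩⟩
  · have := p3 0 h0
    rw [e, map_zero, t0] at this
    exact this.symm
  · rintro ⟨c, hw⟩
    obtain ⟨m, hm, n, hn, d, hd, e⟩ := fr.dec w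
    have hwn : w - n ∈ M ⊔ D := by
      rw [e, show m + n + d - n = m + d by abel]
      exact Submodule.add_mem_sup hm hd
    have cl : ∀ a ∈ A, a + n ∈ A := fun a ha => by
      by_contra k
      have := p2 w n hn hwn a ha
      rw [hw, map_smul, p4 _ (add_mem (hA a ha) hn) k, smul_zero] at this
      exact S.t_ne w (S.t_ne a pt.ne) this.symm
    have n0 : n = 0 := by
      have im : A.image (· + n) = A := Finset.eq_of_subset_of_card_le
        (fun x hx => by
          obtain ⟨a, ha, rfl⟩ := Finset.mem_image.1 hx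
          exact cl a ha)
        (Finset.card_image_of_injective _ (add_left_injective n)).ge
      have s1 : ∑ a ∈ A.image (· + n), a = ∑ a ∈ A, (a + n) :=
        Finset.sum_image fun a _ b _ h => add_right_cancel h
      rw [im, Finset.sum_add_distrib, Finset.sum_const, left_eq_add,
        ← Nat.cast_smul_eq_nsmul (ZMod r), smul_eq_zero] at s1
      exact s1.resolve_left fun z => hc ((ZMod.natCast_eq_zero_iff _ r).1 z)
    subst n0
    have q : ∀ a ∈ A, S.t w (S.t a v₀) = c • S.t a v₀ := fun a ha => by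
      have := p2 w 0 hn hwn a ha
      rw [add_zero, hw, map_smul, p3 a ha] at this
      exact this.symm
    have q0 : S.t w v₀ = c • v₀ := by simpa only [t0] using q 0 h0
    refine ⟨(pt.st w).1 ⟨c, q0⟩, fun b hb => (S.χ_eq _).1 ?_⟩
    have := q b hb
    rw [S.comm_apply, q0, map_smul] at this
    have c0 : c • S.t b v₀ ≠ 0 := by
      rw [← map_smul, ← q0]
      exact S.t_ne b (S.t_ne w pt.ne)
    exact smul_left_injective K c0 (this.trans (one_smul _ _).symm)
  · rintro ⟨hw, hB⟩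
    obtain ⟨c, hc⟩ := (pt.st w).2 hw
    refine ⟨c, ?_⟩
    rw [map_sum, Finset.smul_sum]
    refine Finset.sum_congr rfl fun a ha => ?_
    rw [S.comm_apply, hB a ha, S.χ_zero, one_smul, hc, map_smul]

open H91.CLT in
theorem jobTY2 : H91.VC.JobTY2 := by
  intro r hr K V W _ _ _ _ _ _ _ _ _ _ S hT
  classical
  choose κ k0 hκ using exists_kap S
  have gd : ∀ a, S.Gd a ↔ ∃ c : K, c ^ r = κ a := fun a => gd_iff S (hκ a)
  by_cases hA : ∀ j, ∃ e : K, e ^ r = S.χ j ^ r.choose 2
  · have ad : ∀ a b, ∃ u : K, κ (a + b) = u ^ r * (κ a * κ b) := fun a b => by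
      obtain ⟨c, h1, h2⟩ := kap_add S hκ a b
      obtain ⟨e, he⟩ := hA (S.B b a)
      exact ⟨e / c, by rw [div_pow, he, div_mul_eq_mul_div, ← h2, mul_div_cancel_left₀ _ (pow_ne_zero _ h1)]⟩
    have g0 : S.Gd 0 := by
      obtain ⟨v, hv⟩ := exists_ne (0 : V)
      exact ⟨v, hv, 1, by rw [S.t_zero, one_smul]; rfl⟩
    have ga : ∀ {a b}, S.Gd a → S.Gd b → S.Gd (a + b) := fun {a b} h1 h2 => by
      obtain ⟨c, hc⟩ := (gd a).1 h1
      obtain ⟨d, hd⟩ := (gd b).1 h2
      obtain ⟨u, hu⟩ := ad a b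
      exact (gd _).2 ⟨u * (c * d), by rw [hu, mul_pow, mul_pow, hc, hd]⟩
    let M : AddSubmonoid W := ⟨⟨{a | S.Gd a}, ga⟩, g0⟩
    let T : Submodule (ZMod r) W := { M with
      smul_mem' := fun c a ha => by
        obtain ⟨n, rfl⟩ := ZMod.natCast_zmod_surjective c
        rw [Nat.cast_smul_eq_nsmul]
        exact M.nsmul_mem ha n }
    have hT' := hT T fun _ => Iff.rfl
    refine Or.inl fun a => by_contra fun ha => ?_
    have sp : ∀ b, ∃ n : ℕ, n • a + b ∈ T := fun b => by
      obtain ⟨g, hg⟩ := IsCyclic.exists_monoid_generator (α := Kˣ)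
      obtain ⟨i, hi⟩ := hg (Units.mk0 _ (k0 a))
      obtain ⟨k, hk⟩ := hg (Units.mk0 _ (k0 b))
      have hi' : (g : K) ^ i = κ a := congrArg Units.val hi
      have hk' : (g : K) ^ k = κ b := congrArg Units.val hk
      have i0 : (i : ZMod r) ≠ 0 := fun e => by
        obtain ⟨m, rfl⟩ := (ZMod.natCast_eq_zero_iff i r).1 e
        exact ha ((gd a).2 ⟨g ^ m, by rw [← hi', ← pow_mul, mul_comm]⟩)
      have it : ∀ n : ℕ, ∃ u : K, κ (n • a + b) = u ^ r * g ^ (n * i + k) := fun n => by
        induction n with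
        | zero => exact ⟨1, by simp [hk']⟩
        | succ n ih =>
          obtain ⟨u, hu⟩ := ih
          obtain ⟨w, hw⟩ := ad a (n • a + b)
          exact ⟨w * u, by rw [succ_nsmul', add_assoc, hw, hu, ← hi']; ring⟩
      obtain ⟨n, hn⟩ := ZMod.natCast_zmod_surjective (-(k : ZMod r) / (i : ZMod r))
      obtain ⟨m, hm⟩ := (ZMod.natCast_eq_zero_iff (n * i + k) r).1 (by
        rw [Nat.cast_add, Nat.cast_mul, hn, div_mul_cancel₀ _ i0, neg_add_cancel])
      obtain ⟨u, hu⟩ := it n
      exact ⟨n, (gd _).2 ⟨u * g ^ m, by rw [hu, hm, mul_pow, ← pow_mul, mul_comm m]⟩⟩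
    have lt : T < ⊤ := lt_top_iff_ne_top.2 fun e => ha (show a ∈ T from e.ge trivial)
    obtain ⟨f, f0, hf⟩ := Submodule.exists_le_ker_of_lt_top T lt
    haveI : Module.Finite (ZMod r) W := Module.Finite.of_finite
    have inj : Function.Injective (S.B : W →ₗ[ZMod r] Module.Dual (ZMod r) W) :=
      (injective_iff_map_eq_zero _).2 fun x hx => S.sp.nd x fun b => DFunLike.congr_fun hx b
    obtain ⟨x, rfl⟩ := (LinearMap.injective_iff_surjective_of_finrank_eq_finrank
      (Subspace.dual_finrank_eq (V := W)).symm).1 inj f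
    have ox : ∀ t ∈ T, S.B x t = 0 := fun t ht => hf ht
    apply f0
    obtain ⟨n, hn⟩ := sp x
    have e := ox _ hn
    rw [map_add, S.sp.alt, add_zero, map_nsmul, nsmul_eq_mul, mul_eq_zero] at e
    rcases e with e | e
    · rw [← Nat.cast_smul_eq_nsmul (ZMod r), e, zero_smul, zero_add] at hn
      rw [hT' x hn ox, map_zero]
    · refine LinearMap.ext fun b => ?_
      obtain ⟨k, hk⟩ := sp b
      have := ox _ hk
      rwa [map_add, map_nsmul, e, nsmul_zero, zero_add] at this
  · push Not at hA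
    obtain ⟨j, hj⟩ := hA
    obtain rfl : r = 2 := hr.out.eq_two_or_odd'.resolve_right fun ⟨m, hm⟩ => hj 1 (by
      rw [Nat.choose_two_right, show r * (r - 1) / 2 = r * m by
        rw [show r - 1 = 2 * m by omega, mul_left_comm, Nat.mul_div_cancel_left _ two_pos],
        pow_mul, chi_pow, one_pow, one_pow])
    haveI := Fintype.ofFinite K
    have c2 : ∀ i : ZMod 2, i = 0 ∨ i = 1 := c2'
    have q1 : quadraticChar K (S.χ 1) = -1 := quadraticChar_neg_one_iff_not_isSquare.2 fun ⟨e, he⟩ => by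
      rcases c2 j with rfl | rfl
      · exact hj 1 (by rw [chi_zero]; simp)
      · exact hj e (by rw [he, sq]; simp)
    have qg : ∀ a, S.Gd a ↔ quadraticChar K (κ a) = 1 := fun a => by
      rw [gd, quadraticChar_one_iff_isSquare (k0 a)]
      exact ⟨fun ⟨c, h⟩ => ⟨c, by rw [← h, sq]⟩, fun ⟨c, h⟩ => ⟨c, by rw [h, sq]⟩⟩
    refine Or.inr ⟨rfl, fun a => if quadraticChar K (κ a) = 1 then 0 else 1, fun a b => ?_,
      fun a => by rw [qg]; simp⟩
    obtain ⟨c, h1, h2⟩ := kap_add S hκ b a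
    have h3 := congrArg (quadraticChar K) h2
    rw [map_mul, map_mul, map_mul, quadraticChar_sq_one' h1, one_mul, add_comm b a,
      Nat.choose_self, pow_one] at h3
    simp only [h3]
    have f := fin2 _ (by simpa using quadraticChar_dichotomy (k0 a)) _
      (by simpa using quadraticChar_dichotomy (k0 b))
    rcases c2 (S.B a b) with e | e
    · rw [e, chi_zero, map_one]; exact f.1
    · rw [e, q1]; exact f.2

end H96.VCX
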